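import Cfsg.Agent.H71.MtDef

/-! # S4351 (Martineau), piece P6b: reduction of equivariant biadditive maps to irreducible modules -/

set_option autoImplicit false
set_option linter.all false

namespace Cfsg.Agent.H9.MtP6b

open Cfsg.Agent.H71.Mt

universe u v

section
variable {X : Type u} [Group X] {V : Type v} [AddCommGroup V]

/-- restriction of the action to an invariant subgroup -/
def res (ρ : X →* AddMonoid.End V) (W : AddSubgroup V) (hW : ∀ g : X, ∀ v ∈ W, ρ g v ∈ W) :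
    X →* AddMonoid.End W where
  toFun g :=
    { toFun := fun v => ⟨ρ g v, hW g v v.2⟩
      map_zero' := by apply Subtype.ext; simp
      map_add' := fun a b => by apply Subtype.ext; simp }
  map_one' := DFunLike.ext _ _ fun v => Subtype.ext (by
    show ρ 1 v = v
    rw [map_one]; rfl)
  map_mul' g h := DFunLike.ext _ _ fun v => Subtype.ext (by
    show ρ (g * h) v = ρ g (ρ h v)
    exact mul_apply ρ g h v)

theorem res_apply (ρ : X →* AddMonoid.End V) (W : AddSubgroup V) (hW : ∀ g : X, ∀ v ∈ W, ρ g v ∈ W) (g : X)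
    (v : W) : ((res ρ W hW g v : W) : V) = ρ g v := rfl

/-- the action on the quotient -/
def quo (ρ : X →* AddMonoid.End V) (W : AddSubgroup V) (hW : ∀ g : X, ∀ v ∈ W, ρ g v ∈ W) :
    X →* AddMonoid.End (V ⧸ W) where
  toFun g := QuotientAddGroup.map W W (ρ g) (fun v hv => hW g v hv)
  map_one' := DFunLike.ext _ _ fun v' => by
    obtain ⟨v, rfl⟩ := QuotientAddGroup.mk'_surjective W v'
    show QuotientAddGroup.mk' W (ρ 1 v) = QuotientAddGroup.mk' W v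
    rw [map_one]; rfl
  map_mul' g h := DFunLike.ext _ _ fun v' => by
    obtain ⟨v, rfl⟩ := QuotientAddGroup.mk'_surjective W v'
    show QuotientAddGroup.mk' W (ρ (g * h) v) = QuotientAddGroup.mk' W (ρ g (ρ h v))
    rw [mul_apply]

theorem quo_apply (ρ : X →* AddMonoid.End V) (W : AddSubgroup V) (hW : ∀ g : X, ∀ v ∈ W, ρ g v ∈ W) (g : X)
    (v : V) : quo ρ W hW g (QuotientAddGroup.mk' W v) = QuotientAddGroup.mk' W (ρ g v) := rfl

theorem res_fpf {ρ : X →* AddMonoid.End V} (hf : Fpf2 ρ) {W : AddSubgroup V}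
    (hW : ∀ g : X, ∀ v ∈ W, ρ g v ∈ W) : Fpf2 (res ρ W hW) := by
  intro g hg hg1 v hv
  apply Subtype.ext
  exact hf g hg hg1 v (congrArg Subtype.val hv)

theorem quo_fpf [Finite V] {ρ : X →* AddMonoid.End V} (hf : Fpf2 ρ) {W : AddSubgroup V}
    (hW : ∀ g : X, ∀ v ∈ W, ρ g v ∈ W) : Fpf2 (quo ρ W hW) := by
  intro g hg hg1 v' hv
  obtain ⟨v, rfl⟩ := QuotientAddGroup.mk'_surjective W v'
  rw [quo_apply] at hv
  have h1 : ρ g v - v ∈ W := by
    have h2 : QuotientAddGroup.mk' W (ρ g v - v) = 0 := by rw [map_sub, hv, sub_self]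
    exact (QuotientAddGroup.eq_zero_iff _).1 h2
  let f : W → W := fun x => ⟨ρ g x - x, W.sub_mem (hW g x x.2) x.2⟩
  have hinj : Function.Injective f := by
    intro x y hxy
    have h2 : ρ g x - x = ρ g y - y := congrArg Subtype.val hxy
    have h3 : ρ g ((x : V) - y) = (x : V) - y := by
      rw [map_sub]
      calc ρ g (x : V) - ρ g y = (ρ g x - x) - (ρ g y - y) + (x - y) := by abel
        _ = x - y := by rw [h2]; abel
    have h4 := hf g hg hg1 _ h3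
    exact Subtype.ext (sub_eq_zero.1 h4)
  obtain ⟨x, hx⟩ := (Finite.injective_iff_surjective.1 hinj) ⟨_, h1⟩
  have h2 : ρ g x - x = ρ g v - v := congrArg Subtype.val hx
  have h3 : ρ g (v - (x : V)) = v - (x : V) := by
    rw [map_sub]
    calc ρ g v - ρ g (x : V) = (ρ g v - v) - (ρ g x - x) + (v - x) := by abel
      _ = v - x := by rw [h2]; abel
  have h4 := hf g hg hg1 _ h3
  have h5 : v = x := sub_eq_zero.1 h4
  rw [h5]
  exact (QuotientAddGroup.eq_zero_iff _).2 x.2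

theorem card_lt [Finite V] {W : AddSubgroup V} (h1 : W ≠ ⊥) (h2 : W ≠ ⊤) :
    Nat.card W < Nat.card V ∧ Nat.card (V ⧸ W) < Nat.card V := by
  have e := AddSubgroup.card_mul_index W
  have h3 : W.index ≠ 1 := fun h => h2 (AddSubgroup.index_eq_one.1 h)
  have h4 : 0 < W.index := Nat.pos_of_ne_zero (AddSubgroup.index_ne_zero_of_finite)
  have h5 : 1 < Nat.card W := (AddSubgroup.one_lt_card_iff_ne_bot W).2 h1
  have h6 : Nat.card (V ⧸ W) = W.index := rfl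
  have h7 : 2 ≤ W.index := by omega
  rw [h6, ← e]
  constructor <;> nlinarith

theorem not_irr (ρ : X →* AddMonoid.End V) (hi : ¬ Irr2 ρ) : (∀ v : V, v = 0) ∨ ∃ W : AddSubgroup V,
    (∀ g : X, ∀ v ∈ W, ρ g v ∈ W) ∧ W ≠ ⊥ ∧ W ≠ ⊤ := by
  by_cases h : ∃ v : V, v ≠ 0
  · right
    by_contra hcon
    push Not at hcon
    apply hi
    refine ⟨h, fun W hW => ?_⟩
    by_cases h1 : W = ⊥
    · exact Or.inl h1
    · exact Or.inr (hcon W hW h1)
  · left
    push Not at h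
    exact h

end

section
variable {X : Type u} [Group X]

/-- the claim for modules of total size less than `n` -/
def Claim (X : Type u) [Group X] (n : ℕ) : Prop :=
  ∀ {V1 V2 V3 : Type v} [AddCommGroup V1] [Finite V1] [AddCommGroup V2] [Finite V2] [AddCommGroup V3] [Finite V3],
    (∀ v : V1, v + v = 0) → (∀ v : V2, v + v = 0) → (∀ v : V3, v + v = 0) →
    ∀ (ρ1 : X →* AddMonoid.End V1) (ρ2 : X →* AddMonoid.End V2) (ρ3 : X →* AddMonoid.End V3),
    Fpf2 ρ1 → Fpf2 ρ2 → Fpf2 ρ3 → ∀ (B : V1 →+ V2 →+ V3), (∀ g x y, B (ρ1 g x) (ρ2 g y) = ρ3 g (B x y)) →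
    Nat.card V1 + Nat.card V2 + Nat.card V3 < n → B = 0

theorem quo_two {V : Type v} [AddCommGroup V] (h : ∀ v : V, v + v = 0) (W : AddSubgroup V) :
    ∀ v : V ⧸ W, v + v = 0 := by
  intro v'
  obtain ⟨v, rfl⟩ := QuotientAddGroup.mk'_surjective W v'
  rw [← map_add, h, map_zero]

theorem sub_two {V : Type v} [AddCommGroup V] (h : ∀ v : V, v + v = 0) (W : AddSubgroup V) :
    ∀ v : W, v + v = 0 := fun v => Subtype.ext (h v)

/-- `V1` reducible -/
theorem step1 {n : ℕ} (IH : Claim.{u, v} X n)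
    {V1 V2 V3 : Type v} [AddCommGroup V1] [Finite V1] [AddCommGroup V2] [Finite V2] [AddCommGroup V3] [Finite V3]
    (h1 : ∀ v : V1, v + v = 0) (h2 : ∀ v : V2, v + v = 0) (h3 : ∀ v : V3, v + v = 0)
    (ρ1 : X →* AddMonoid.End V1) (ρ2 : X →* AddMonoid.End V2) (ρ3 : X →* AddMonoid.End V3)
    (hf1 : Fpf2 ρ1) (hf2 : Fpf2 ρ2) (hf3 : Fpf2 ρ3)
    (B : V1 →+ V2 →+ V3) (hB : ∀ g x y, B (ρ1 g x) (ρ2 g y) = ρ3 g (B x y))
    (hn : Nat.card V1 + Nat.card V2 + Nat.card V3 ≤ n) (hi : ¬ Irr2 ρ1) : B = 0 := by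
  rcases not_irr ρ1 hi with h | ⟨W, hW, hb, ht⟩
  · ext x y
    rw [h x, map_zero]; rfl
  · obtain ⟨c1, c2⟩ := card_lt hb ht
    have e1 : B.comp W.subtype = 0 := IH (sub_two h1 W) h2 h3 (res ρ1 W hW) ρ2 ρ3 (res_fpf hf1 hW) hf2 hf3 _
      (fun g x y => hB g x y) (by omega)
    have e2 : ∀ x ∈ W, B x = 0 := fun x hx => DFunLike.congr_fun e1 ⟨x, hx⟩
    have e3 : QuotientAddGroup.lift W B e2 = 0 := IH (quo_two h1 W) h2 h3 (quo ρ1 W hW) ρ2 ρ3 (quo_fpf hf1 hW)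
      hf2 hf3 _ (fun g x' y => by
        obtain ⟨x, rfl⟩ := QuotientAddGroup.mk'_surjective W x'
        exact hB g x y) (by omega)
    ext x y
    have e4 : QuotientAddGroup.lift W B e2 (QuotientAddGroup.mk' W x) = 0 := by rw [e3]; rfl
    have e5 : B x = 0 := e4
    rw [e5]; rfl

/-- `V3` reducible -/
theorem step3 {n : ℕ} (IH : Claim.{u, v} X n)
    {V1 V2 V3 : Type v} [AddCommGroup V1] [Finite V1] [AddCommGroup V2] [Finite V2] [AddCommGroup V3] [Finite V3]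
    (h1 : ∀ v : V1, v + v = 0) (h2 : ∀ v : V2, v + v = 0) (h3 : ∀ v : V3, v + v = 0)
    (ρ1 : X →* AddMonoid.End V1) (ρ2 : X →* AddMonoid.End V2) (ρ3 : X →* AddMonoid.End V3)
    (hf1 : Fpf2 ρ1) (hf2 : Fpf2 ρ2) (hf3 : Fpf2 ρ3)
    (B : V1 →+ V2 →+ V3) (hB : ∀ g x y, B (ρ1 g x) (ρ2 g y) = ρ3 g (B x y))
    (hn : Nat.card V1 + Nat.card V2 + Nat.card V3 ≤ n) (hi : ¬ Irr2 ρ3) : B = 0 := by
  rcases not_irr ρ3 hi with h | ⟨W, hW, hb, ht⟩
  · ext x y
    rw [h (B x y)]; rfl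
  · obtain ⟨c1, c2⟩ := card_lt hb ht
    have e1 : B.compr₂ (QuotientAddGroup.mk' W) = 0 := IH h1 h2 (quo_two h3 W) ρ1 ρ2 (quo ρ3 W hW) hf1 hf2
      (quo_fpf hf3 hW) _ (fun g x y => by
        rw [AddMonoidHom.compr₂_apply, AddMonoidHom.compr₂_apply, hB, quo_apply]) (by omega)
    have e2 : ∀ x y, B x y ∈ W := by
      intro x y
      have h4 : B.compr₂ (QuotientAddGroup.mk' W) x y = 0 := by rw [e1]; rfl
      rw [AddMonoidHom.compr₂_apply] at h4
      exact (QuotientAddGroup.eq_zero_iff _).1 h4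
    let B' : V1 →+ V2 →+ W :=
      { toFun := fun x => (B x).codRestrict W (e2 x)
        map_zero' := by ext y; simp
        map_add' := fun x x' => by ext y; simp }
    have e3 : B' = 0 := IH h1 h2 (sub_two h3 W) ρ1 ρ2 (res ρ3 W hW) hf1 hf2 (res_fpf hf3 hW) B'
      (fun g x y => Subtype.ext (hB g x y)) (by omega)
    ext x y
    have e4 : ((B' x y : W) : V3) = 0 := by rw [e3]; rfl
    exact e4

end


section
variable {X : Type u} [Group X] [Finite X] {F : Type} [Field F] [Fintype F] {θ : F ≃+* F} {S E K : Subgroup X}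
  {w s0 : X} {a b κ : X → F}

/-- [P6b] with [P6a] as a hypothesis -/
theorem bil_zero2_aux
    (hbz : ∀ {V1 V2 V3 : Type v} [AddCommGroup V1] [Module F V1] [Finite V1]
      [AddCommGroup V2] [Module F V2] [Finite V2] [AddCommGroup V3] [Module F V3] [Finite V3]
      (ρ1 : Representation F X V1) (ρ2 : Representation F X V2) (ρ3 : Representation F X V3)
      (hf1 : FpfF ρ1) (hf2 : FpfF ρ2) (hf3 : FpfF ρ3) {v1 v2 v3 v4 : V1} {x1 x2 x3 x4 : V2} {y1 y2 y3 y4 : V3}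
      (N1 : Nat4 θ S E K w a b κ (RingEquiv.refl F) ρ1 v1 v2 v3 v4)
      (N2 : Nat4 θ S E K w a b κ (RingEquiv.refl F) ρ2 x1 x2 x3 x4)
      (N3 : Nat4 θ S E K w a b κ (RingEquiv.refl F) ρ3 y1 y2 y3 y4)
      (B : V1 →+ V2 →+ V3), (∀ g x y, B (ρ1 g x) (ρ2 g y) = ρ3 g (B x y)) → B = 0)
    (exists_nat : ∀ {V : Type v} [AddCommGroup V] [Finite V], (∀ v : V, v + v = 0) → ∀ (ρ : X →* AddMonoid.End V),
      Fpf2 ρ → Irr2 ρ → ∃ (_ : Module F V) (ρ' : Representation F X V) (v1 v2 v3 v4 : V), (∀ g v, ρ' g v = ρ g v) ∧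
      Nat4 θ S E K w a b κ (RingEquiv.refl F) ρ' v1 v2 v3 v4)
    {V1 V2 V3 : Type v} [AddCommGroup V1] [Finite V1] [AddCommGroup V2] [Finite V2] [AddCommGroup V3] [Finite V3]
    (h1 : ∀ v : V1, v + v = 0) (h2 : ∀ v : V2, v + v = 0) (h3 : ∀ v : V3, v + v = 0)
    (ρ1 : X →* AddMonoid.End V1) (ρ2 : X →* AddMonoid.End V2) (ρ3 : X →* AddMonoid.End V3)
    (hf1 : Fpf2 ρ1) (hf2 : Fpf2 ρ2) (hf3 : Fpf2 ρ3)
    (B : V1 →+ V2 →+ V3) (hB : ∀ g x y, B (ρ1 g x) (ρ2 g y) = ρ3 g (B x y)) : B = 0 := by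
  have key : ∀ n : ℕ, Claim.{u, v} X n := by
    intro n
    induction n with
    | zero =>
      intro V1 V2 V3 _ _ _ _ _ _ _ _ _ _ _ _ _ _ _ _ _ hn
      omega
    | succ n IH =>
      intro V1 V2 V3 _ _ _ _ _ _ h1 h2 h3 ρ1 ρ2 ρ3 hf1 hf2 hf3 B hB hn
      have hn' : Nat.card V1 + Nat.card V2 + Nat.card V3 ≤ n := by omega
      by_cases hi1 : Irr2 ρ1
      swap
      · exact step1 IH h1 h2 h3 ρ1 ρ2 ρ3 hf1 hf2 hf3 B hB hn' hi1
      by_cases hi2 : Irr2 ρ2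
      swap
      · have h4 : B.flip = 0 := step1 IH h2 h1 h3 ρ2 ρ1 ρ3 hf2 hf1 hf3 B.flip (fun g x y => hB g y x)
          (by omega) hi2
        ext x y
        have h5 : B.flip y x = 0 := by rw [h4]; rfl
        exact h5
      by_cases hi3 : Irr2 ρ3
      swap
      · exact step3 IH h1 h2 h3 ρ1 ρ2 ρ3 hf1 hf2 hf3 B hB hn' hi3
      obtain ⟨m1, ρ1', v1, v2, v3, v4, e1, N1⟩ := exists_nat h1 ρ1 hf1 hi1
      obtain ⟨m2, ρ2', x1, x2, x3, x4, e2, N2⟩ := exists_nat h2 ρ2 hf2 hi2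
      obtain ⟨m3, ρ3', y1, y2, y3, y4, e3, N3⟩ := exists_nat h3 ρ3 hf3 hi3
      exact hbz ρ1' ρ2' ρ3' (fun g hg hg1 v hv => hf1 g hg hg1 v (by rw [← e1]; exact hv))
        (fun g hg hg1 v hv => hf2 g hg hg1 v (by rw [← e2]; exact hv))
        (fun g hg hg1 v hv => hf3 g hg hg1 v (by rw [← e3]; exact hv)) N1 N2 N3 B
        (fun g x y => by rw [e1, e2, e3]; exact hB g x y)
  exact key _ h1 h2 h3 ρ1 ρ2 ρ3 hf1 hf2 hf3 B hB (Nat.lt_succ_self _)

end

end Cfsg.Agent.H9.MtP6b
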