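import Cfsg.Agent.H9.MtP6a
import Cfsg.Agent.H9.MtP6b

/-! # S4351 (Martineau), pieces P6a + P6b together -/

set_option autoImplicit false
set_option linter.all false

namespace Cfsg.Agent.H9.MtP6

open Cfsg.Agent.H71.Mt

universe u v

variable {X : Type u} [Group X] [Finite X] {F : Type} [Field F] [Fintype F] {θ : F ≃+* F} {S E K : Subgroup X}
  {w s0 : X} {a b κ : X → F}

/-- [P6b] -/
theorem bil_zero2
    (D : SzD θ S E K w s0 a b κ)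
    (exists_nat : ∀ {V : Type v} [AddCommGroup V] [Finite V], (∀ v : V, v + v = 0) → ∀ (ρ : X →* AddMonoid.End V),
      Fpf2 ρ → Irr2 ρ → ∃ (_ : Module F V) (ρ' : Representation F X V) (v1 v2 v3 v4 : V), (∀ g v, ρ' g v = ρ g v) ∧
      Nat4 θ S E K w a b κ (RingEquiv.refl F) ρ' v1 v2 v3 v4)
    {V1 V2 V3 : Type v} [AddCommGroup V1] [Finite V1] [AddCommGroup V2] [Finite V2] [AddCommGroup V3] [Finite V3]
    (h1 : ∀ v : V1, v + v = 0) (h2 : ∀ v : V2, v + v = 0) (h3 : ∀ v : V3, v + v = 0)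
    (ρ1 : X →* AddMonoid.End V1) (ρ2 : X →* AddMonoid.End V2) (ρ3 : X →* AddMonoid.End V3)
    (hf1 : Fpf2 ρ1) (hf2 : Fpf2 ρ2) (hf3 : Fpf2 ρ3)
    (B : V1 →+ V2 →+ V3) (hB : ∀ g x y, B (ρ1 g x) (ρ2 g y) = ρ3 g (B x y)) : B = 0 :=
  Cfsg.Agent.H9.MtP6b.bil_zero2_aux
    (fun ρ1 ρ2 ρ3 hf1 hf2 hf3 => fun N1 N2 N3 B hB =>
      Cfsg.Agent.H9.MtP6a.bil_zero D ρ1 ρ2 ρ3 hf1 hf2 hf3 N1 N2 N3 B hB)
    exists_nat h1 h2 h3 ρ1 ρ2 ρ3 hf1 hf2 hf3 B hB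

end Cfsg.Agent.H9.MtP6
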