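import Cfsg.Agent.Star.AWDef
import Cfsg.Agent.CIT.PPCop

/-!
# S4415, piece 2 (owner: helper9)
-/

set_option autoImplicit false

namespace Cfsg.Agent.H9.AW

open Cfsg.Agent Cfsg.Agent.Star.AW Subgroup

universe u v

/-- a `p`-element, `p ≥ 5`, is trivial on an `F₃`-space of dimension at most 2 -/
theorem small_unip {U : Type v} [AddCommGroup U] [Module (ZMod 3) U] [Finite U]
    (hU : Module.finrank (ZMod 3) U ≤ 2) (f : Module.End (ZMod 3) U) {p : ℕ} (hp : p.Prime)
    (h5 : 5 ≤ p) {k : ℕ} (hf : f ^ (p ^ k) = 1) : f = 1 := by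
  classical
  haveI : Fact p.Prime := ⟨hp⟩
  haveI : Fact (Nat.Prime 3) := ⟨Nat.prime_three⟩
  have hfu : IsUnit f := by
    refine IsUnit.of_pow_eq_one hf ?_
    exact pow_ne_zero _ hp.ne_zero
  obtain ⟨g, rfl⟩ := hfu
  have hg : g ^ (p ^ k) = 1 := by
    apply Units.ext
    rw [Units.val_pow_eq_pow_val, hf, Units.val_one]
  have hpg : IsPGroup p (zpowers g) := by
    rintro ⟨a, i, rfl⟩
    refine ⟨k, Subtype.ext ?_⟩
    change (g ^ i) ^ (p ^ k) = 1
    rw [← zpow_natCast, ← zpow_mul, mul_comm, zpow_mul, zpow_natCast, hg, one_zpow]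
  have h1 := hpg.card_modEq_card_fixedPoints U
  set F : Submodule (ZMod 3) U := LinearMap.ker ((g : Module.End (ZMod 3) U) - 1) with hF
  have hfix : Nat.card (MulAction.fixedPoints (zpowers g) U) = Nat.card F := by
    apply Nat.card_congr
    refine Equiv.subtypeEquivRight fun w => ?_
    rw [MulAction.mem_fixedPoints, hF, LinearMap.mem_ker, LinearMap.sub_apply, sub_eq_zero]
    constructor
    · intro h
      exact h ⟨g, mem_zpowers g⟩
    · rintro h ⟨_, i, rfl⟩
      have h2 : g ∈ MulAction.stabilizer (Module.End (ZMod 3) U)ˣ w := by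
        rw [MulAction.mem_stabilizer_iff]
        exact h
      have h3 := (MulAction.stabilizer (Module.End (ZMod 3) U)ˣ w).zpow_mem h2 i
      exact h3
  rw [hfix] at h1
  have hcU : Nat.card U = 3 ^ Module.finrank (ZMod 3) U := by
    rw [Module.natCard_eq_pow_finrank (K := ZMod 3), Nat.card_zmod]
  have hcF : Nat.card F = 3 ^ Module.finrank (ZMod 3) F := by
    rw [Module.natCard_eq_pow_finrank (K := ZMod 3), Nat.card_zmod]
  have hle : Module.finrank (ZMod 3) F ≤ Module.finrank (ZMod 3) U := Submodule.finrank_le F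
  have heq : Module.finrank (ZMod 3) F = Module.finrank (ZMod 3) U := by
    rw [hcU, hcF] at h1
    by_contra hne
    have h2 : (p : ℤ) ∣ (3 ^ Module.finrank (ZMod 3) F : ℕ) - (3 ^ Module.finrank (ZMod 3) U : ℕ) :=
      (Nat.modEq_iff_dvd.1 h1)
    have h3 : Module.finrank (ZMod 3) U = 1 ∧ Module.finrank (ZMod 3) F = 0 ∨
        Module.finrank (ZMod 3) U = 2 ∧ Module.finrank (ZMod 3) F = 0 ∨
        Module.finrank (ZMod 3) U = 2 ∧ Module.finrank (ZMod 3) F = 1 := by omega
    have key : ∀ n : ℕ, 0 < n → n ∣ 24 → ¬ p ∣ n := by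
      intro n _ hn hpn
      have h4 := hpn.trans hn
      have h6 : p ∣ 2 ^ 3 * 3 := by norm_num; exact h4
      rcases (Nat.Prime.dvd_mul hp).1 h6 with h7 | h7
      · have := (Nat.prime_dvd_prime_iff_eq hp Nat.prime_two).1 (hp.dvd_of_dvd_pow h7); omega
      · have := (Nat.prime_dvd_prime_iff_eq hp Nat.prime_three).1 h7; omega
    rcases h3 with ⟨h4, h6⟩ | ⟨h4, h6⟩ | ⟨h4, h6⟩
    · rw [h4, h6] at h2
      norm_num at h2
      exact key 2 (by norm_num) (by norm_num) (by exact_mod_cast h2)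
    · rw [h4, h6] at h2
      norm_num at h2
      exact key 8 (by norm_num) (by norm_num) (by exact_mod_cast h2)
    · rw [h4, h6] at h2
      norm_num at h2
      exact key 6 (by norm_num) (by norm_num) (by exact_mod_cast h2)
  have hFt : F = ⊤ := Submodule.eq_top_of_finrank_eq heq
  refine LinearMap.ext fun w => ?_
  have h2 : w ∈ F := by rw [hFt]; exact Submodule.mem_top
  rw [hF, LinearMap.mem_ker, LinearMap.sub_apply, sub_eq_zero] at h2
  exact h2


variable {G : Type u} [Group G] [Finite G] {W : Type v} [AddCommGroup W] [Module (ZMod 3) W]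
  [Finite W] {σ : Representation (ZMod 3) G W} {N : Subgroup G} {b x y : G}

/-- restriction to an invariant submodule of small dimension -/
theorem trivial_on {m : G} {p k : ℕ} (hp : p.Prime) (h5 : 5 ≤ p) (hm : m ^ (p ^ k) = 1)
    (R : Submodule (ZMod 3) W) (hR : ∀ w ∈ R, σ m w ∈ R)
    (hd : Module.finrank (ZMod 3) R ≤ 2) : ∀ w ∈ R, σ m w = w := by
  have h1 : ((σ m).restrict hR) ^ (p ^ k) = 1 := by
    rw [Module.End.pow_restrict]
    refine LinearMap.ext fun w => Subtype.ext ?_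
    change ((σ m) ^ (p ^ k)) w = w
    rw [← map_pow, hm, map_one]
    rfl
  have h2 := small_unip hd _ hp h5 h1
  intro w hw
  have h3 := congrArg (fun f : Module.End (ZMod 3) R => ((f ⟨w, hw⟩ : R) : W)) h2
  exact h3

theorem y2_of (h : QB σ b x y) : y * y = 1 := by
  rw [← h.bx]
  have e1 : b * x * b⁻¹ * (b * x * b⁻¹) = b * (x * x) * b⁻¹ := by group
  rw [e1, h.x2, mul_one, mul_inv_cancel]

theorem qb_rot (h : QB σ b x y) : QB σ b y (x * y) where
  faith := h.faith
  b3 := h.b3
  rk := h.rk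
  x1 := fun hy => h.x1 (by
    have h1 := h.bx
    rw [hy, mul_inv_eq_one, mul_eq_left] at h1
    exact h1)
  x2 := y2_of h
  xy := by rw [← mul_assoc, ← h.xy]
  bx := h.bby
  bby := by
    have e1 : b * (x * y) * b⁻¹ = (b * x * b⁻¹) * (b * y * b⁻¹) := by group
    rw [e1, h.bx, h.bby]

theorem key_cent (Hw : ∀ x y : G, QB σ b x y → ∃ v : W, v ≠ 0 ∧ σ x v = v ∧ σ y v = -v ∧
      (∀ w, σ x w = w → σ y w = -w → ∃ c : ZMod 3, w = c • v) ∧
      (∀ w, σ x w = w → σ y w = w → σ b w = w))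
    (Hr : ∀ x y : G, QB σ b x y → Module.finrank (ZMod 3) (LinearMap.range (σ x - 1)) = 2)
    (h : QB σ b x y) {p k : ℕ} (hp : p.Prime) (h5 : 5 ≤ p) {l : G} (hlx : x * l = l * x)
    (hm : (l * y * l⁻¹ * y⁻¹) ^ (p ^ k) = 1) : y * l = l * y := by
  set m : G := l * y * l⁻¹ * y⁻¹ with hmdef
  have hy2 : y * y = 1 := y2_of h
  have hyi : y⁻¹ = y := inv_eq_of_mul_eq_one_left hy2
  have hxl' : x * l⁻¹ = l⁻¹ * x := by
    rw [eq_inv_mul_iff_mul_eq, ← mul_assoc, ← hlx, mul_inv_cancel_right]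
  have hxm : x * m = m * x := by
    rw [hmdef, hyi]
    calc x * (l * y * l⁻¹ * y) = (x * l) * y * l⁻¹ * y := by group
      _ = l * (x * y) * l⁻¹ * y := by rw [hlx]; group
      _ = l * y * (x * l⁻¹) * y := by rw [h.xy]; group
      _ = l * y * l⁻¹ * (x * y) := by rw [hxl']; group
      _ = l * y * l⁻¹ * y * x := by rw [h.xy]; group
  have mulap : ∀ (g g' : G) (w : W), σ (g * g') w = σ g (σ g' w) := fun g g' w => by
    rw [map_mul]; rfl
  have comm_ap : ∀ (g g' : G), g * g' = g' * g → ∀ w : W, σ g (σ g' w) = σ g' (σ g w) :=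
    fun g g' hgg w => by rw [← mulap, hgg, mulap]
  obtain ⟨v, -, hv1, hv2, hv3, -⟩ := Hw x y h
  -- on the range of x - 1
  have hR : ∀ w ∈ LinearMap.range (σ x - 1), σ m w = w := by
    refine trivial_on hp h5 hm _ ?_ (Hr x y h).le
    rintro _ ⟨w, rfl⟩
    refine ⟨σ m w, ?_⟩
    simp only [LinearMap.sub_apply, Module.End.one_apply, map_sub]
    rw [comm_ap x m hxm]
  -- on the kernel
  have hd : ∀ w : W, σ x w = w → ∃ c : ZMod 3, σ y w - w = c • v := by
    intro w hw
    apply hv3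
    · rw [map_sub, comm_ap x y h.xy, hw]
    · rw [map_sub, ← mulap, hy2, map_one, Module.End.one_apply, neg_sub]
  have hU : ∀ w : W, σ x w = w → σ m w - w ∈
      Submodule.span (ZMod 3) {σ (l * y * l⁻¹) v, σ l v} := by
    intro w hw
    obtain ⟨c, hc⟩ := hd w hw
    obtain ⟨c', hc'⟩ := hd (σ l⁻¹ w) (by rw [comm_ap x l⁻¹ hxl', hw])
    have e1 : σ m w - w = σ (l * y * l⁻¹) (σ y w - w) + σ l (σ y (σ l⁻¹ w) - σ l⁻¹ w) := by
      have e2 : σ l (σ l⁻¹ w) = w := by rw [← mulap, mul_inv_cancel, map_one]; rfl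
      rw [map_sub, map_sub, e2, hmdef, hyi, mulap (l * y * l⁻¹) y, mulap (l * y) l⁻¹ w, mulap l y]
      abel
    rw [e1, hc, hc', map_smul, map_smul]
    exact Submodule.add_mem _ (Submodule.smul_mem _ _ (Submodule.subset_span (by simp)))
      (Submodule.smul_mem _ _ (Submodule.subset_span (by simp)))
  have hK : ∀ w : W, σ x w = w → σ m (σ m w - w) = σ m w - w := by
    set R' : Submodule (ZMod 3) W := (LinearMap.ker (σ x - 1)).map (σ m - 1) with hR'
    have h1 : Module.finrank (ZMod 3) R' ≤ 2 := by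
      have h2 : R' ≤ Submodule.span (ZMod 3) {σ (l * y * l⁻¹) v, σ l v} := by
        rintro _ ⟨w, hw, rfl⟩
        refine hU w ?_
        have hw' : (σ x - 1) w = 0 := hw
        rw [LinearMap.sub_apply, sub_eq_zero] at hw'
        exact hw'
      refine (Submodule.finrank_mono h2).trans ?_
      classical
      have h4 := finrank_span_finset_le_card (R := ZMod 3)
        ({σ (l * y * l⁻¹) v, σ l v} : Finset W)
      rw [Finset.coe_insert, Finset.coe_singleton] at h4
      exact h4.trans Finset.card_le_two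
    have h3 := trivial_on (σ := σ) hp h5 hm R' (by
      rintro _ ⟨w, hw, rfl⟩
      have hw' : (σ x - 1) w = 0 := hw
      rw [LinearMap.sub_apply, sub_eq_zero] at hw'
      refine ⟨σ m w, ?_, ?_⟩
      · change (σ x - 1) (σ m w) = 0
        rw [LinearMap.sub_apply, sub_eq_zero]
        have hw2 : σ x w = w := hw'
        change σ x (σ m w) = σ m w
        rw [comm_ap x m hxm, hw2]
      · simp only [LinearMap.sub_apply, Module.End.one_apply, map_sub]) h1
    intro w hw
    refine h3 _ ⟨w, ?_, rfl⟩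
    change (σ x - 1) w = 0
    rw [LinearMap.sub_apply, sub_eq_zero]
    exact hw
  have hfix : ∀ w : W, σ x w = w → σ m w = w := by
    intro w hw
    set d := σ m w - w with hdd
    have e1 : σ m w = w + d := by rw [hdd]; abel
    have e2 : σ m d = d := hK w hw
    have hpow : ∀ n : ℕ, σ (m ^ n) w = w + n • d := by
      intro n
      induction n with
      | zero => simp
      | succ n ih =>
        rw [pow_succ', mulap, ih, map_add, map_nsmul, e1, e2, succ_nsmul]
        abel
    have e3 := hpow (p ^ k)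
    rw [hm, map_one, Module.End.one_apply] at e3
    have e4 : (p ^ k) • d = 0 := by
      have := e3.symm
      rwa [add_eq_left] at this
    have e5 : 3 • d = 0 := by
      have h6 : (3 : ZMod 3) • d = 0 := by
        have : (3 : ZMod 3) = 0 := by decide
        rw [this, zero_smul]
      have h7 : ((3 : ℕ) : ZMod 3) • d = 3 • d := Nat.cast_smul_eq_nsmul (ZMod 3) 3 d
      rw [← h7]; exact_mod_cast h6
    have h8 : addOrderOf d ∣ p ^ k := addOrderOf_dvd_of_nsmul_eq_zero e4
    have h9 : addOrderOf d ∣ 3 := addOrderOf_dvd_of_nsmul_eq_zero e5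
    have h10 : Nat.Coprime (p ^ k) 3 := by
      apply Nat.Coprime.pow_left
      rw [Nat.coprime_primes hp Nat.prime_three]
      omega
    have h11 : addOrderOf d = 1 := Nat.eq_one_of_dvd_coprimes h10 h8 h9
    rw [AddMonoid.addOrderOf_eq_one_iff] at h11
    rw [e1, h11, add_zero]
  have hall : ∀ w : W, σ m w = w := by
    intro w
    have h3 : (3 : ZMod 3) = 0 := by decide
    have e1 : w = -(w + σ x w) + (σ x - 1) w := by
      rw [LinearMap.sub_apply, Module.End.one_apply]
      have e2 : w - (-(w + σ x w) + (σ x w - w)) = (3 : ZMod 3) • w := by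
        have : (3 : ZMod 3) = 1 + 1 + 1 := by decide
        rw [this, add_smul, add_smul, one_smul]; abel
      rw [h3, zero_smul, sub_eq_zero] at e2
      exact e2
    have e3 : σ m (w + σ x w) = w + σ x w := by
      apply hfix
      rw [map_add, ← mulap, h.x2, map_one, Module.End.one_apply, add_comm]
    rw [e1, map_add, map_neg, e3, hR _ ⟨w, rfl⟩]
  have hm1 : m = 1 := by
    apply h.faith
    rw [map_one]
    exact LinearMap.ext hall
  rw [hmdef, mul_inv_eq_one, mul_inv_eq_iff_eq_mul] at hm1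
  exact hm1.symm


theorem odd_cent_aux (Hw : ∀ x y : G, QB σ b x y → ∃ v : W, v ≠ 0 ∧ σ x v = v ∧ σ y v = -v ∧
      (∀ w, σ x w = w → σ y w = -w → ∃ c : ZMod 3, w = c • v) ∧
      (∀ w, σ x w = w → σ y w = w → σ b w = w))
    (Hr : ∀ x y : G, QB σ b x y → Module.finrank (ZMod 3) (LinearMap.range (σ x - 1)) = 2)
    (h : QB σ b x y) {p : ℕ} (hp : p.Prime) (h5 : 5 ≤ p) (L : Subgroup G)
    (hL : IsPGroup p L) (hx : ∀ l ∈ L, x * l * x⁻¹ ∈ L) (hy : ∀ l ∈ L, y * l * y⁻¹ ∈ L) :
    ∀ l ∈ L, x * l = l * x ∧ y * l = l * y := by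
  classical
  have hy2 : y * y = 1 := y2_of h
  have hx2 := h.x2
  have hxy := h.xy
  have hx1 := h.x1
  have h' := qb_rot h
  have h'' := qb_rot h'
  have e0 : y * (x * y) = x := by rw [← mul_assoc, ← hxy, mul_assoc, hy2, mul_one]
  rw [e0] at h''
  have hy1 : y ≠ 1 := h'.x1
  have hxy1 : x * y ≠ 1 := h''.x1
  have hxney : x ≠ y := by
    rintro rfl
    exact hxy1 hx2
  -- key for each pair
  have key : ∀ u w : G, QB σ b u w → (∀ l ∈ L, w * l * w⁻¹ ∈ L) → ∀ l ∈ L, u * l = l * u →
      w * l = l * w := by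
    intro u w hq hw l hl hul
    have h1 : l * w * l⁻¹ * w⁻¹ ∈ L := by
      have h2 := L.mul_mem hl (hw l⁻¹ (L.inv_mem hl))
      have e1 : l * (w * l⁻¹ * w⁻¹) = l * w * l⁻¹ * w⁻¹ := by group
      rwa [e1] at h2
    obtain ⟨k, hk⟩ := hL ⟨_, h1⟩
    exact key_cent Hw Hr hq hp h5 hul (by
      have := congrArg Subtype.val hk
      simpa using this)
  have hxyL : ∀ l ∈ L, (x * y) * l * (x * y)⁻¹ ∈ L := by
    intro l hl
    have e1 : (x * y) * l * (x * y)⁻¹ = x * (y * l * y⁻¹) * x⁻¹ := by group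
    rw [e1]; exact hx _ (hy l hl)
  -- the four-group
  let A : Subgroup G :=
    { carrier := {1, x, y, x * y}
      one_mem' := by simp
      mul_mem' := by
        have m1 : x * (x * y) = y := by rw [← mul_assoc, hx2, one_mul]
        have m2 : y * x = x * y := hxy.symm
        have m3 : x * y * x = y := by rw [mul_assoc, m2, m1]
        have m4 : x * y * y = x := by rw [mul_assoc, hy2, mul_one]
        have m5 : x * y * (x * y) = 1 := by rw [← mul_assoc, m3, hy2]
        rintro a c (rfl | rfl | rfl | rfl) (rfl | rfl | rfl | rfl) <;>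
          simp [hx2, hy2, m1, m2, m3, m4, m5, e0]
      inv_mem' := by
        have i1 : x⁻¹ = x := inv_eq_of_mul_eq_one_left hx2
        have i2 : y⁻¹ = y := inv_eq_of_mul_eq_one_left hy2
        rintro a (rfl | rfl | rfl | rfl)
        · simp
        · simp [i1]
        · simp [i2]
        · rw [mul_inv_rev, i1, i2, ← hxy]; simp }
  have hA : ∀ a ∈ A, a = 1 ∨ a = x ∨ a = y ∨ a = x * y := fun a ha => ha
  have hxA : x ∈ A := Or.inr (Or.inl rfl)
  have hyA : y ∈ A := Or.inr (Or.inr (Or.inl rfl))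
  have hsq : ∀ a ∈ A, a * a = 1 := by
    intro a ha
    rcases hA a ha with rfl | rfl | rfl | rfl
    · simp
    · exact hx2
    · exact hy2
    · rw [mul_assoc, e0, hx2]
  have hAp : IsPGroup 2 A := fun a => ⟨1, Subtype.ext (by
    rw [pow_one, pow_two]; exact hsq a a.2)⟩
  have hab : ∀ a ∈ A, ∀ c ∈ A, a * c = c * a := by
    intro a ha c hc
    have h1 := hsq _ (A.mul_mem ha hc)
    have h2 : a⁻¹ = a := inv_eq_of_mul_eq_one_left (hsq a ha)
    have h3 : c⁻¹ = c := inv_eq_of_mul_eq_one_left (hsq c hc)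
    have h4 : (a * c)⁻¹ = a * c := inv_eq_of_mul_eq_one_left h1
    rw [← h4, mul_inv_rev, h2, h3]
  have hnc : ¬ IsCyclic A := by
    rintro ⟨g, hg⟩
    have hgg : ((g : G)) * g = 1 := hsq g g.2
    have h1 : ∀ a ∈ A, a = 1 ∨ a = g := by
      intro a ha
      obtain ⟨i, hi⟩ := hg ⟨a, ha⟩
      have hi' : (g : G) ^ i = a := congrArg Subtype.val hi
      rcases Int.even_or_odd' i with ⟨j, hj | hj⟩
      · left
        rw [← hi', hj, zpow_mul, zpow_two, hgg, one_zpow]
      · right
        rw [← hi', hj, zpow_add, zpow_mul, zpow_two, hgg, one_zpow, zpow_one, one_mul]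
    rcases h1 x hxA with h2 | h2
    · exact hx1 h2
    rcases h1 y hyA with h3 | h3
    · exact hy1 h3
    exact hxney (h2.trans h3.symm)
  haveI : Fact (Nat.Prime 2) := ⟨Nat.prime_two⟩
  haveI : Fact p.Prime := ⟨hp⟩
  have hLc : (Nat.card L).Coprime 2 := by
    obtain ⟨n, hn⟩ := IsPGroup.iff_card.1 hL
    rw [hn]
    apply Nat.Coprime.pow_left
    rw [Nat.coprime_primes hp Nat.prime_two]
    omega
  let V : Subgroup G := L ⊓ centralizer {x, y}
  have hLV : L ≤ V := by
    refine CIT.PP.gen_cent hAp hab hnc hLc ?_ ?_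
    · intro a ha l hl
      rcases hA a ha with rfl | rfl | rfl | rfl
      · simpa using hl
      · exact hx l hl
      · exact hy l hl
      · exact hxyL l hl
    · intro a ha ha1 l hl hla
      have hgoal : ∀ l ∈ L, x * l = l * x → y * l = l * y → l ∈ V := by
        intro l hl h1 h2
        refine ⟨hl, ?_⟩
        change l ∈ centralizer {x, y}
        rw [mem_centralizer_iff]
        rintro c (rfl | rfl)
        · exact h1
        · exact h2
      rcases hA a ha with rfl | rfl | rfl | rfl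
      · exact absurd rfl ha1
      · exact hgoal l hl hla.symm (key _ _ h hy l hl hla.symm)
      · have h1 := key _ _ h' hxyL l hl hla.symm
        have h2 := key _ _ h'' hx l hl h1
        exact hgoal l hl h2 hla.symm
      · have h1 := key _ _ h'' hx l hl hla.symm
        exact hgoal l hl h1 (key _ _ h hy l hl h1)
  intro l hl
  have h1 := (mem_centralizer_iff.1 (hLV hl).2)
  exact ⟨h1 x (by simp), h1 y (by simp)⟩

theorem no_odd_aux (Hw : ∀ x y : G, QB σ b x y → ∃ v : W, v ≠ 0 ∧ σ x v = v ∧ σ y v = -v ∧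
      (∀ w, σ x w = w → σ y w = -w → ∃ c : ZMod 3, w = c • v) ∧
      (∀ w, σ x w = w → σ y w = w → σ b w = w))
    (Hr : ∀ x y : G, QB σ b x y → Module.finrank (ZMod 3) (LinearMap.range (σ x - 1)) = 2)
    (Hc : ∀ x y : G, QB σ b x y → ∀ {c : G}, c * x = x * c → c * y = y * c →
      c * b * c⁻¹ * b⁻¹ = 1 ∨ c * b * c⁻¹ * b⁻¹ = x ∨ c * b * c⁻¹ * b⁻¹ = y ∨
        c * b * c⁻¹ * b⁻¹ = x * y)
    (Hz : ∀ x y : G, QB σ b x y →
      (∀ U : Submodule (ZMod 3) W, (∀ g : G, ∀ v ∈ U, σ g v ∈ U) → U = ⊥ ∨ U = ⊤) →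
      ∀ {z : G}, (∀ g, z * g = g * z) → σ z = 1 ∨ σ z = -1)
    (D : Dat σ N b x y) {p : ℕ} (hp : p.Prime) (h5 : 5 ≤ p) (L : Subgroup G)
    [hLn : L.Normal] (hLN : L ≤ N) (hL : IsPGroup p L) : L = ⊥ := by
  have h := D.toQB
  have hy2 : y * y = 1 := y2_of h
  have hcent := odd_cent_aux Hw Hr h hp h5 L hL (fun l hl => hLn.conj_mem l hl x)
    (fun l hl => hLn.conj_mem l hl y)
  haveI : Fact p.Prime := ⟨hp⟩
  -- elements of L of order dividing 2 are trivial
  have hsq : ∀ l ∈ L, l * l = 1 → l = 1 := by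
    intro l hl hll
    obtain ⟨k, hk⟩ := hL ⟨l, hl⟩
    have hk' : l ^ (p ^ k) = 1 := congrArg Subtype.val hk
    have h1 : orderOf l ∣ p ^ k := orderOf_dvd_of_pow_eq_one hk'
    have h2 : orderOf l ∣ 2 := orderOf_dvd_of_pow_eq_one (by rw [pow_two]; exact hll)
    have h3 : Nat.Coprime (p ^ k) 2 := by
      apply Nat.Coprime.pow_left
      rw [Nat.coprime_primes hp Nat.prime_two]
      omega
    exact orderOf_eq_one_iff.1 (Nat.eq_one_of_dvd_coprimes h3 h1 h2)
  have hb : ∀ l ∈ L, b * l = l * b := by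
    intro l hl
    obtain ⟨h1, h2⟩ := hcent l hl
    have h3 : l * b * l⁻¹ * b⁻¹ ∈ L := by
      have h4 := L.mul_mem hl (hLn.conj_mem l⁻¹ (L.inv_mem hl) b)
      have e1 : l * (b * l⁻¹ * b⁻¹) = l * b * l⁻¹ * b⁻¹ := by group
      rwa [e1] at h4
    have h4 : l * b * l⁻¹ * b⁻¹ = 1 := by
      rcases Hc x y h h1.symm h2.symm with h5 | h5 | h5 | h5
      · exact h5
      · exact hsq _ h3 (by rw [h5]; exact h.x2)
      · exact hsq _ h3 (by rw [h5]; exact hy2)
      · refine hsq _ h3 ?_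
        rw [h5]
        calc x * y * (x * y) = x * (y * x) * y := by group
          _ = x * (x * y) * y := by rw [h.xy]
          _ = (x * x) * (y * y) := by group
          _ = 1 := by rw [h.x2, hy2, one_mul]
    rw [mul_inv_eq_one, mul_inv_eq_iff_eq_mul] at h4
    exact h4.symm
  have hbC : zpowers b ≤ centralizer (L : Set G) := by
    rw [zpowers_le, mem_centralizer_iff]
    intro l hl
    exact (hb l hl).symm
  have hCn : (centralizer (L : Set G)).Normal := inferInstance
  have hNC : N ≤ centralizer (L : Set G) := by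
    rw [← D.comm]
    exact (Subgroup.commutator_mono le_rfl hbC).trans (Subgroup.commutator_le_right _ _)
  have htop : (⊤ : Subgroup G) ≤ centralizer (L : Set G) := by
    rw [← D.gen]; exact sup_le hNC hbC
  rw [eq_bot_iff]
  intro l hl
  rw [mem_bot]
  have hz : ∀ g, l * g = g * l := by
    intro g
    exact (mem_centralizer_iff.1 (htop (mem_top g))) l hl
  apply hsq l hl
  apply h.faith
  rw [map_mul, map_one]
  rcases Hz x y h D.irr hz with h1 | h1
  · rw [h1, one_mul]
  · rw [h1, neg_mul_neg, one_mul]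

end Cfsg.Agent.H9.AW
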