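import Cfsg.Agent.Star.AWDef
import Cfsg.Agent.H43.AWP1
import Cfsg.Agent.H9.AW2
import Cfsg.Agent.H65.AW5
import Cfsg.Agent.H79.AW.V4
import Cfsg.Agent.S0119

/-! # S4415, piece 7: `case4b` -/

set_option autoImplicit false
set_option linter.all false

namespace Cfsg.Agent.H9.AW7

open Subgroup Cfsg Cfsg.Agent.Star.AW
open Cfsg.Agent.H79.AW
open scoped commutatorElement

universe u v

variable {G : Type u} [Group G] [Finite G] {W : Type v} [AddCommGroup W] [Module (ZMod 3) W]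
  [Finite W] {σ : Representation (ZMod 3) G W} {N : Subgroup G} {b x y : G}

omit [Finite G] in
/-- `b` centralises the abelian normal subgroups of 2-power order whose involutions are central -/
theorem cent_of_omega (hb : b ^ 3 = 1) (K : Subgroup G) [hK : K.Normal] (hab : ∀ u ∈ K, ∀ v ∈ K, u * v = v * u)
    (hom : ∀ u ∈ K, u * u = 1 → ∀ g : G, g * u = u * g) :
    ∀ k : ℕ, ∀ u ∈ K, u ^ (2 ^ k) = 1 → b * u * b⁻¹ = u := by
  intro k
  induction k with
  | zero =>
    intro u _ h1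
    rw [pow_zero, pow_one] at h1
    rw [h1]; group
  | succ k ih =>
    intro u hu h1
    have h2 : (u * u) ^ (2 ^ k) = 1 := by
      rw [← pow_two, ← pow_mul, ← pow_succ']; exact h1
    have h3 := ih (u * u) (K.mul_mem hu hu) h2
    have hc : b * u * b⁻¹ ∈ K := hK.conj_mem u hu b
    obtain ⟨c, hcdef⟩ : ∃ c, c = b * u * b⁻¹ := ⟨_, rfl⟩
    rw [← hcdef] at hc ⊢
    have hcu := hab c hc u hu
    have hcc : c * c = u * u := by
      rw [← h3, hcdef]; group
    have hw : u⁻¹ * c ∈ K := K.mul_mem (K.inv_mem hu) hc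
    have hww : (u⁻¹ * c) * (u⁻¹ * c) = 1 := by
      have hcu' : c * u⁻¹ = u⁻¹ * c := hab _ hc _ (K.inv_mem hu)
      calc (u⁻¹ * c) * (u⁻¹ * c) = u⁻¹ * (c * u⁻¹) * c := by group
        _ = u⁻¹ * u⁻¹ * (c * c) := by rw [hcu']; group
        _ = 1 := by rw [hcc]; group
    obtain ⟨w, hwdef⟩ : ∃ w, w = u⁻¹ * c := ⟨_, rfl⟩
    rw [← hwdef] at hw hww
    have hwc := hom w hw hww
    have e1 : b * u * b⁻¹ = u * w := by rw [← hcdef, hwdef]; group
    have hbw : b * w * b⁻¹ = w := by rw [hwc b]; group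
    have e2 : b * (b * u * b⁻¹) * b⁻¹ = u * w * w := by
      calc b * (b * u * b⁻¹) * b⁻¹ = b * (u * w) * b⁻¹ := by rw [e1]
        _ = (b * u * b⁻¹) * (b * w * b⁻¹) := by group
        _ = u * w * w := by rw [hbw, e1]
    have e3 : b * (b * (b * u * b⁻¹) * b⁻¹) * b⁻¹ = u * w * w * w := by
      calc b * (b * (b * u * b⁻¹) * b⁻¹) * b⁻¹ = b * (u * w * w) * b⁻¹ := by rw [e2]
        _ = (b * u * b⁻¹) * (b * w * b⁻¹) * (b * w * b⁻¹) := by group
        _ = u * w * w * w := by rw [hbw, e1]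
    have e4 : b * (b * (b * u * b⁻¹) * b⁻¹) * b⁻¹ = u := by
      calc b * (b * (b * u * b⁻¹) * b⁻¹) * b⁻¹ = b ^ 3 * u * (b ^ 3)⁻¹ := by
            simp only [pow_succ, pow_zero, one_mul, mul_inv_rev, mul_assoc]
        _ = u := by rw [hb]; group
    rw [e4] at e3
    have e5 : w = 1 := by
      have h5 : w * w * w = 1 := by
        have h6 : u * (w * w * w) = u * 1 := by
          rw [mul_one]
          calc u * (w * w * w) = u * w * w * w := by group
            _ = u := e3.symm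
        exact mul_left_cancel h6
      rwa [hww, one_mul] at h5
    rw [hcdef, e1, e5, mul_one]

/-- **Piece 7.** -/
theorem case4b (D : Dat σ N b x y) (hβ : ∀ A : Subgroup G, A.Normal → A ≤ N →
    (∀ a ∈ A, a * a = 1) → A ≤ Subgroup.center G)
    (h4 : Module.finrank (ZMod 3) W = 4) :
    Cfsg.IsExtraspecial 2 ↥N ∧ Nat.card ↥N = 32 ∧
      ∃ A : Subgroup G, A ≤ N ∧ Cfsg.IsElementaryAbelian 2 A ∧ Nat.card ↥A = 8 := by
  exfalso
  haveI : Fact (Nat.Prime 2) := ⟨Nat.prime_two⟩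
  haveI hNn : N.Normal := D.normal
  haveI : Module.Finite (ZMod 3) W := Module.Finite.of_finite
  have h : QB σ b x y := D.toQB
  have hf4 : ∀ c ∈ N, c * b = b * c → σ c = 1 ∨ σ c = -1 := fun c hc hcb =>
    Cfsg.Agent.H65.AW5.fix4 D h4 (Cfsg.Agent.H43.AWP1.weights h) (Cfsg.Agent.H43.AWP1.fix_dim h) hc hcb
  have hno : ∀ p : ℕ, p.Prime → 5 ≤ p → ∀ L : Subgroup G, L.Normal → L ≤ N → IsPGroup p L → L = ⊥ :=
    fun p hp h5 L hLn hLN hL => by
      haveI := hLn
      exact Cfsg.Agent.H9.AW.no_odd_aux (fun _ _ h => Cfsg.Agent.H43.AWP1.weights h)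
        (fun _ _ h => Cfsg.Agent.H43.AWP1.rank_x h)
        (fun _ _ h _ h1 h2 => Cfsg.Agent.H43.AWP1.comm_cent h h1 h2)
        (fun _ _ h irr _ hz => Cfsg.Agent.H43.AWP1.central h irr hz) D hp h5 L hLN hL
  have hP : IsPGroup 2 N := Cfsg.Agent.H65.AW5.two_group D hf4 hno
  have hbN : ∀ n ∈ N, b * n * b⁻¹ ∈ N := fun n hn => hNn.conj_mem n hn b
  -- the group of automorphisms
  obtain ⟨β, hβdef⟩ : ∃ β : MulAut N, β = MulAut.conjNormal b := ⟨_, rfl⟩
  have hβa : ∀ n : N, ((β n : N) : G) = b * n * b⁻¹ := fun n => by rw [hβdef, MulAut.conjNormal_apply]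
  have hβ3 : β ^ 3 = 1 := by rw [hβdef, ← map_pow, h.b3, map_one]
  have hcardA : Nat.Coprime (Nat.card (zpowers β)) 2 := by
    rw [Nat.card_zpowers]
    have h1 : orderOf β ∣ 3 := orderOf_dvd_of_pow_eq_one hβ3
    exact Nat.Coprime.coprime_dvd_left h1 (by norm_num)
  have hfix1 : ∀ n : N, β n = n → ∀ a ∈ zpowers β, a n = n := by
    intro n hn a ha
    have h1 : zpowers β ≤ MulAction.stabilizer (MulAut N) n := by
      rw [zpowers_le, MulAction.mem_stabilizer_iff]; exact hn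
    exact h1 ha
  have hchar : ∀ H : Subgroup N, H.Characteristic → IsMulCommutative H →
      ∀ a ∈ zpowers β, ∀ n ∈ H, a n = n := by
    intro H hH hab a ha n hn
    apply hfix1 _ _ a ha
    haveI hKn : (H.map N.subtype).Normal := ConjAct.normal_of_characteristic_of_normal
    have hKN : H.map N.subtype ≤ N := by
      rintro _ ⟨t, -, rfl⟩; exact t.2
    have hKab : ∀ u ∈ H.map N.subtype, ∀ v ∈ H.map N.subtype, u * v = v * u := by
      rintro _ ⟨s, hs, rfl⟩ _ ⟨t, ht, rfl⟩
      have h1 := hab.is_comm.comm ⟨s, hs⟩ ⟨t, ht⟩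
      have h2 : s * t = t * s := congrArg Subtype.val h1
      exact congrArg Subtype.val h2
    -- the involutions of `K`
    let Om : Subgroup G :=
      { carrier := {g | g ∈ H.map N.subtype ∧ g * g = 1}
        one_mem' := ⟨one_mem _, by simp⟩
        mul_mem' := by
          rintro s t ⟨hs, hss⟩ ⟨ht, htt⟩
          refine ⟨mul_mem hs ht, ?_⟩
          calc s * t * (s * t) = s * (t * s) * t := by group
            _ = (s * s) * (t * t) := by rw [hKab t ht s hs]; group
            _ = 1 := by rw [hss, htt, one_mul]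
        inv_mem' := by
          rintro s ⟨hs, hss⟩
          refine ⟨inv_mem hs, ?_⟩
          rw [← mul_inv_rev, hss, inv_one] }
    have hOmn : Om.Normal := by
      constructor
      rintro s ⟨hs, hss⟩ g
      refine ⟨hKn.conj_mem s hs g, ?_⟩
      calc g * s * g⁻¹ * (g * s * g⁻¹) = g * (s * s) * g⁻¹ := by group
        _ = 1 := by rw [hss]; group
    have hOmc : Om ≤ center G := hβ Om hOmn (fun s hs => hKN hs.1) (fun s hs => hs.2)
    have h1 := cent_of_omega h.b3 (H.map N.subtype) hKab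
      (fun u hu huu g => (mem_center_iff.1 (hOmc ⟨hu, huu⟩) g))
    obtain ⟨k, hk⟩ := hP n
    apply Subtype.ext
    rw [hβa]
    exact h1 k n ⟨n, hn, rfl⟩ (congrArg Subtype.val hk)
  have hgen : Subgroup.closure {t : N | ∃ g : N, ∃ a ∈ zpowers β, t = g⁻¹ * a g} = ⊤ := by
    rw [eq_top_iff]
    have h1 : N ≤ (Subgroup.closure {t : N | ∃ g : N, ∃ a ∈ zpowers β, t = g⁻¹ * a g}).map N.subtype := by
      conv_lhs => rw [← D.comm]
      rw [Subgroup.commutator_le]
      intro n hn c hc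
      obtain ⟨k, rfl⟩ := mem_zpowers_iff.1 hc
      refine ⟨(⟨n, hn⟩ : N) * (β ^ k) (⟨n, hn⟩ : N)⁻¹, ?_, ?_⟩
      · apply Subgroup.subset_closure
        refine ⟨(⟨n, hn⟩ : N)⁻¹, β ^ k, ⟨k, rfl⟩, ?_⟩
        rw [inv_inv]
      · rw [hβdef, ← map_zpow]
        show ((⟨n, hn⟩ : N) : G) * ((MulAut.conjNormal (b ^ k) (⟨n, hn⟩ : N)⁻¹ : N) : G) = ⁅n, b ^ k⁆
        rw [MulAut.conjNormal_apply, commutatorElement_def]
        show n * (b ^ k * n⁻¹ * (b ^ k)⁻¹) = _
        group
    intro t _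
    obtain ⟨s, hs, hst⟩ := h1 t.2
    have : s = t := Subtype.ext hst
    rwa [← this]
  obtain ⟨hsp, hcen⟩ := Cfsg.Agent.S0119.result (p := 2) hP (zpowers β) hcardA hgen hchar
  -- elements of the center of `N` are central in `G`
  have hcen' : ∀ n : N, n ∈ center N → ∀ g : G, g * (n : G) = n * g := by
    intro n hn
    have h1 : β n = n := (hcen n).1 hn β (mem_zpowers β)
    have h2 : b * n * b⁻¹ = n := by rw [← hβa, h1]
    have h3 : (n : G) * b = b * n := by
      calc (n : G) * b = (b * n * b⁻¹) * b := by rw [h2]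
        _ = b * n := by group
    intro g
    apply D.faith
    rw [map_mul, map_mul]
    rcases hf4 n n.2 h3 with h5 | h5
    · rw [h5]; simp
    · rw [h5]; simp
  have hcomm : ∀ n m : N, n * m * n⁻¹ * m⁻¹ ∈ center N := by
    intro n m
    have h1 : commutator N = center N := hsp.2.2
    rw [← h1]
    exact Subgroup.commutator_mem_commutator (Subgroup.mem_top n) (Subgroup.mem_top m)
  -- the subgroup `V Z(N)`
  have hxN : x ∈ N := D.xN
  have hyN : y ∈ N := by rw [← h.bx]; exact hbN x hxN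
  have hVN : QBF.V h ≤ N := by
    rintro v (rfl | rfl | rfl | rfl)
    · exact one_mem _
    · exact hxN
    · exact hyN
    · exact mul_mem hxN hyN
  let A : Subgroup G :=
    { carrier := {g | ∃ v ∈ QBF.V h, ∃ c ∈ N, (∀ t : G, t * c = c * t) ∧ c * c = 1 ∧ g = v * c}
      one_mem' := ⟨1, one_mem _, 1, one_mem _, fun t => by simp, by simp, by simp⟩
      mul_mem' := by
        rintro _ _ ⟨v, hv, c, hc, hc1, hc2, rfl⟩ ⟨v', hv', c', hc', hc1', hc2', rfl⟩
        refine ⟨v * v', mul_mem hv hv', c * c', mul_mem hc hc', ?_, ?_, ?_⟩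
        · intro t
          calc t * (c * c') = (t * c) * c' := by group
            _ = c * (t * c') := by rw [hc1]; group
            _ = c * c' * t := by rw [hc1']; group
        · calc c * c' * (c * c') = c * (c' * c) * c' := by group
            _ = (c * c) * (c' * c') := by rw [hc1 c']; group
            _ = 1 := by rw [hc2, hc2', one_mul]
        · calc v * c * (v' * c') = v * (c * v') * c' := by group
            _ = v * v' * (c * c') := by rw [← hc1 v']; group
      inv_mem' := by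
        rintro _ ⟨v, hv, c, hc, hc1, hc2, rfl⟩
        refine ⟨v⁻¹, inv_mem hv, c, hc, hc1, hc2, ?_⟩
        have h1 : c⁻¹ = c := inv_eq_of_mul_eq_one_left hc2
        rw [mul_inv_rev, h1, hc1] }
  have hAN : A ≤ N := by
    rintro _ ⟨v, hv, c, hc, -, -, rfl⟩
    exact mul_mem (hVN hv) hc
  have hA2 : ∀ a ∈ A, a * a = 1 := by
    rintro _ ⟨v, hv, c, hc, hc1, hc2, rfl⟩
    calc v * c * (v * c) = v * (c * v) * c := by group
      _ = (v * v) * (c * c) := by rw [← hc1 v]; group
      _ = 1 := by rw [QBF.V_sq h hv, hc2, one_mul]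
  have hbA : ∀ a ∈ A, b * a * b⁻¹ ∈ A := by
    rintro _ ⟨v, hv, c, hc, hc1, hc2, rfl⟩
    refine ⟨b * v * b⁻¹, QBF.V_conj h hv, c, hc, hc1, hc2, ?_⟩
    calc b * (v * c) * b⁻¹ = b * v * (c * b⁻¹) := by group
      _ = b * v * b⁻¹ * c := by rw [← hc1 b⁻¹]; group
  have hnA : ∀ n ∈ N, ∀ a ∈ A, n * a * n⁻¹ ∈ A := by
    rintro n hn _ ⟨v, hv, c, hc, hc1, hc2, rfl⟩
    obtain ⟨d, hd⟩ : ∃ d : N, d = ⟨n, hn⟩ * ⟨v, hVN hv⟩ * ⟨n, hn⟩⁻¹ * ⟨v, hVN hv⟩⁻¹ := ⟨_, rfl⟩
    have hdc : d ∈ center N := by rw [hd]; exact hcomm _ _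
    have hd1 := hcen' d hdc
    have hd2 : (d : G) * d = 1 := by
      apply D.faith
      have h1 : β d = d := (hcen d).1 hdc β (mem_zpowers β)
      have h2 : b * d * b⁻¹ = d := by rw [← hβa, h1]
      have h3 : (d : G) * b = b * d := by
        calc (d : G) * b = (b * d * b⁻¹) * b := by rw [h2]
          _ = b * d := by group
      rw [map_mul, map_one]
      rcases hf4 d d.2 h3 with h5 | h5
      · rw [h5]; simp
      · rw [h5]; simp
    have hd3 : (d : G) = n * v * n⁻¹ * v⁻¹ := by rw [hd]; rfl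
    refine ⟨v, hv, d * c, mul_mem d.2 hc, ?_, ?_, ?_⟩
    · intro t
      calc t * (d * c) = (t * d) * c := by group
        _ = d * (t * c) := by rw [hd1]; group
        _ = d * c * t := by rw [hc1]; group
    · calc (d : G) * c * (d * c) = d * (c * d) * c := by group
        _ = (d * d) * (c * c) := by rw [← hc1 d]; group
        _ = 1 := by rw [hd2, hc2, one_mul]
    · calc n * (v * c) * n⁻¹ = n * v * (c * n⁻¹) := by group
        _ = (n * v * n⁻¹ * v⁻¹) * v * c := by rw [← hc1 n⁻¹]; group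
        _ = d * v * c := by rw [← hd3]
        _ = v * (d * c) := by rw [← hd1 v]; group
  have hAn : A.Normal := by
    constructor
    intro a ha g
    have hg : g ∈ N ⊔ zpowers b := by rw [D.gen]; exact mem_top g
    rw [Subgroup.mem_sup_of_normal_left] at hg
    obtain ⟨n, hn, c, hc, rfl⟩ := hg
    have hfo : IsOfFinOrder b := isOfFinOrder_iff_pow_eq_one.2 ⟨3, by norm_num, h.b3⟩
    obtain ⟨k, rfl⟩ := hfo.mem_powers_iff_mem_zpowers.2 hc
    have h1 : ∀ j : ℕ, b ^ j * a * (b ^ j)⁻¹ ∈ A := by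
      intro j
      induction j with
      | zero => simpa using ha
      | succ j ih =>
        have h2 := hbA _ ih
        have h3 : b ^ (j + 1) * a * (b ^ (j + 1))⁻¹ = b * (b ^ j * a * (b ^ j)⁻¹) * b⁻¹ := by
          rw [pow_succ']; group
        rw [h3]; exact h2
    have h2 := hnA n hn _ (h1 k)
    have h3 : n * b ^ k * a * (n * b ^ k)⁻¹ = n * (b ^ k * a * (b ^ k)⁻¹) * n⁻¹ := by
      rw [mul_inv_rev]; simp only [mul_assoc]
    rw [show (fun x => b ^ x) k = b ^ k from rfl, h3]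
    exact h2
  have hAc := hβ A hAn hAN hA2
  have hxA : x ∈ A := ⟨x, QBF.xV h, 1, one_mem _, fun t => by simp, by simp, by simp⟩
  have hxc := mem_center_iff.1 (hAc hxA) b
  apply QBF.ne h
  rw [← h.bx, hxc]
  group

end Cfsg.Agent.H9.AW7
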