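import Mathlib
import Cfsg.Agent.Cop.Basic

/-!
# Dade's extension theorem for extraspecial 2-groups, ring part (owner: helper9)
-/

set_option autoImplicit false
set_option linter.unusedSectionVars false

namespace Cfsg.Agent.H9.Dade

open Subgroup

variable {Γ : Type*} [Group Γ] [Finite Γ] {B : Type*} [Ring B] [Algebra ℂ B]

/-- finset of a subgroup -/
noncomputable def fs (D : Subgroup Γ) : Finset Γ := (Set.toFinite (D : Set Γ)).toFinset

theorem mem_fs {D : Subgroup Γ} {y : Γ} : y ∈ fs D ↔ y ∈ D := by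
  unfold fs; simp

theorem card_fs (D : Subgroup Γ) : (fs D).card = Nat.card D := by
  unfold fs
  rw [← Nat.card_eq_card_finite_toFinset]; rfl

theorem sum_left {M : Type*} [AddCommMonoid M] {D : Subgroup Γ} {x : Γ} (hx : x ∈ D) (f : Γ → M) :
    ∑ y ∈ fs D, f (x * y) = ∑ y ∈ fs D, f y := by
  refine Finset.sum_equiv (Equiv.mulLeft x) (fun y => ?_) (fun y _ => rfl)
  rw [mem_fs, mem_fs, Equiv.coe_mulLeft, D.mul_mem_cancel_left hx]

theorem sum_right {M : Type*} [AddCommMonoid M] {D : Subgroup Γ} {x : Γ} (hx : x ∈ D) (f : Γ → M) :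
    ∑ y ∈ fs D, f (y * x) = ∑ y ∈ fs D, f y := by
  refine Finset.sum_equiv (Equiv.mulRight x) (fun y => ?_) (fun y _ => rfl)
  rw [mem_fs, mem_fs, Equiv.coe_mulRight, D.mul_mem_cancel_right hx]

theorem sum_inv {M : Type*} [AddCommMonoid M] {D : Subgroup Γ} (f : Γ → M) :
    ∑ y ∈ fs D, f y⁻¹ = ∑ y ∈ fs D, f y := by
  refine Finset.sum_equiv (Equiv.inv Γ) (fun y => ?_) (fun y _ => rfl)
  rw [mem_fs, mem_fs, Equiv.inv_apply, D.inv_mem_iff]

theorem sum_conj {M : Type*} [AddCommMonoid M] {D : Subgroup Γ} {g : Γ}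
    (hg : g ∈ normalizer (D : Set Γ)) (f : Γ → M) :
    ∑ y ∈ fs D, f (g * y * g⁻¹) = ∑ y ∈ fs D, f y := by
  refine Finset.sum_equiv (MulAut.conj g).toEquiv (fun y => ?_) (fun y _ => rfl)
  rw [mem_fs, mem_fs]
  exact mem_normalizer_iff.1 hg y

/-- `b` lies in the corner of `e` and centralizes `S`. -/
structure Cor (e : B) (S : Set B) (b : B) : Prop where
  left : e * b = b
  right : b * e = b
  comm : ∀ s ∈ S, s * b = b * s

theorem Cor.mul {e : B} {S : Set B} {a b : B} (ha : Cor e S a) (hb : Cor e S b) : Cor e S (a * b) :=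
  ⟨by rw [← mul_assoc, ha.left], by rw [mul_assoc, hb.right],
    fun s hs => by rw [← mul_assoc, ha.comm s hs, mul_assoc, hb.comm s hs, mul_assoc]⟩

theorem Cor.smul {e : B} {S : Set B} {b : B} (c : ℂ) (hb : Cor e S b) : Cor e S (c • b) :=
  ⟨by rw [mul_smul_comm, hb.left], by rw [smul_mul_assoc, hb.right],
    fun s hs => by rw [mul_smul_comm, hb.comm s hs, smul_mul_assoc]⟩

theorem Cor.sum {e : B} {S : Set B} {ι : Type*} (s : Finset ι) (f : ι → B)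
    (hf : ∀ i ∈ s, Cor e S (f i)) : Cor e S (∑ i ∈ s, f i) :=
  ⟨by rw [Finset.mul_sum]; exact Finset.sum_congr rfl fun i hi => (hf i hi).left,
   by rw [Finset.sum_mul]; exact Finset.sum_congr rfl fun i hi => (hf i hi).right,
   fun t ht => by
     rw [Finset.mul_sum, Finset.sum_mul]
     exact Finset.sum_congr rfl fun i hi => (hf i hi).comm t ht⟩

theorem Cor.mono {e : B} {S T : Set B} {b : B} (h : S ⊆ T) (hb : Cor e T b) : Cor e S b :=
  ⟨hb.left, hb.right, fun s hs => hb.comm s (h hs)⟩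

/-- representation on a corner, function style -/
structure Rp (e : B) (S : Set B) (E : Subgroup Γ) (ρ : Γ → B) : Prop where
  one : ρ 1 = e
  mul : ∀ x ∈ E, ∀ y ∈ E, ρ (x * y) = ρ x * ρ y
  cor : ∀ x ∈ E, Cor e S (ρ x)

variable {e : B} {S : Set B} {E D : Subgroup Γ} {ρ : Γ → B}

theorem Rp.mono_left {T : Set B} (h : Rp e S E ρ) (hD : D ≤ E) (hT : T ⊆ S) : Rp e T D ρ :=
  ⟨h.one, fun x hx y hy => h.mul x (hD hx) y (hD hy), fun x hx => (h.cor x (hD hx)).mono hT⟩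

theorem Rp.cor_one (h : Rp e S E ρ) : Cor e S e := by
  have := h.cor 1 E.one_mem
  rwa [h.one] at this

theorem Rp.idem (h : Rp e S E ρ) : e * e = e := h.cor_one.left

theorem Rp.mul_inv (h : Rp e S E ρ) {x : Γ} (hx : x ∈ E) : ρ x * ρ x⁻¹ = e := by
  rw [← h.mul x hx x⁻¹ (E.inv_mem hx), mul_inv_cancel, h.one]

theorem Rp.inv_mul (h : Rp e S E ρ) {x : Γ} (hx : x ∈ E) : ρ x⁻¹ * ρ x = e := by
  rw [← h.mul x⁻¹ (E.inv_mem hx) x hx, inv_mul_cancel, h.one]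

theorem Rp.ne_zero (h : Rp e S E ρ) (he : e ≠ 0) {x : Γ} (hx : x ∈ E) : ρ x ≠ 0 := by
  intro h0
  apply he
  rw [← h.mul_inv hx, h0, zero_mul]

/-- average -/
noncomputable def av (D : Subgroup Γ) (ρ : Γ → B) (b : B) : B := ∑ y ∈ fs D, ρ y * b * ρ y⁻¹

theorem av_cor (h : Rp e S D ρ) {b : B} (hb : Cor e S b) : Cor e S (av D ρ b) :=
  Cor.sum _ _ fun y hy =>
    ((h.cor y (mem_fs.1 hy)).mul hb).mul (h.cor _ (D.inv_mem (mem_fs.1 hy)))

theorem av_comm (h : Rp e S D ρ) (b : B) {x : Γ} (hx : x ∈ D) :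
    av D ρ b * ρ x = ρ x * av D ρ b := by
  unfold av
  rw [Finset.mul_sum, Finset.sum_mul, ← sum_left hx]
  refine Finset.sum_congr rfl fun y hy => ?_
  have hy := mem_fs.1 hy
  rw [h.mul x hx y hy, mul_inv_rev, mul_assoc (ρ x * ρ y * b),
    ← h.mul _ (D.mul_mem (D.inv_mem hy) (D.inv_mem hx)) _ hx, inv_mul_cancel_right]
  simp only [mul_assoc]

theorem av_of_comm (h : Rp e S D ρ) {b : B} (hb : Cor e ∅ b) (hc : ∀ x ∈ D, b * ρ x = ρ x * b) :
    av D ρ b = (Nat.card D : ℂ) • b := by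
  unfold av
  rw [Finset.sum_congr rfl (g := fun _ => b) fun y hy => ?_, Finset.sum_const, card_fs,
    ← Nat.cast_smul_eq_nsmul ℂ]
  have hy := mem_fs.1 hy
  rw [← hc y hy, mul_assoc, h.mul_inv hy, hb.right]

theorem av_mul_right (D : Subgroup Γ) {ρ : Γ → B} (a b : B) (hc : ∀ x ∈ D, b * ρ x = ρ x * b) :
    av D ρ (a * b) = av D ρ a * b := by
  unfold av
  rw [Finset.sum_mul]
  refine Finset.sum_congr rfl fun y hy => ?_
  have hy := mem_fs.1 hy
  rw [← mul_assoc, mul_assoc _ b, hc _ (D.inv_mem hy), mul_assoc]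
  simp only [mul_assoc]

theorem av_mul_left (D : Subgroup Γ) {ρ : Γ → B} (a b : B) (hc : ∀ x ∈ D, b * ρ x = ρ x * b) :
    av D ρ (b * a) = b * av D ρ a := by
  unfold av
  rw [Finset.mul_sum]
  refine Finset.sum_congr rfl fun y hy => ?_
  have hy := mem_fs.1 hy
  rw [← mul_assoc (ρ y), ← hc y hy]
  simp only [mul_assoc]

/-- commutators are scalars -/
def CommSc (e : B) (D : Subgroup Γ) (ρ : Γ → B) : Prop :=
  ∀ x ∈ D, ∀ y ∈ D, ∃ c : ℂ, ρ (x * y * x⁻¹ * y⁻¹) = c • e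

theorem conj_eq_smul (h : Rp e S D ρ) (hcs : CommSc e D ρ) {x y : Γ} (hx : x ∈ D) (hy : y ∈ D) :
    ∃ c : ℂ, ρ x * ρ y * ρ x⁻¹ = c • ρ y := by
  obtain ⟨c, hc⟩ := hcs x hx y hy
  refine ⟨c, ?_⟩
  have hx' := D.inv_mem hx
  have hy' := D.inv_mem hy
  have h1 : ρ x * ρ y * ρ x⁻¹ = ρ (x * y * x⁻¹ * y⁻¹) * ρ y := by
    rw [← h.mul x hx y hy, ← h.mul _ (D.mul_mem hx hy) _ hx',
      ← h.mul _ (D.mul_mem (D.mul_mem (D.mul_mem hx hy) hx') hy') _ hy, inv_mul_cancel_right]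
  rw [h1, hc, smul_mul_assoc, (h.cor y hy).left]

theorem av_eq_zero (h : Rp e S D ρ) (hcs : CommSc e D ρ) {y x : Γ} (hy : y ∈ D) (hx : x ∈ D)
    (hxy : ρ x * ρ y ≠ ρ y * ρ x) : av D ρ (ρ y) = 0 := by
  have h1 : ∃ s : ℂ, av D ρ (ρ y) = s • ρ y := by
    have h2 : ∀ z : Γ, ∃ c : ℂ, z ∈ D → ρ z * ρ y * ρ z⁻¹ = c • ρ y := by
      intro z
      by_cases hz : z ∈ D
      · obtain ⟨c, hc⟩ := conj_eq_smul h hcs hz hy
        exact ⟨c, fun _ => hc⟩
      · exact ⟨0, fun h => absurd h hz⟩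
    choose c hc using h2
    refine ⟨∑ z ∈ fs D, c z, ?_⟩
    unfold av
    rw [Finset.sum_smul]
    exact Finset.sum_congr rfl fun z hz => hc z (mem_fs.1 hz)
  obtain ⟨s, hs⟩ := h1
  have h2 := av_comm h (ρ y) hx
  rw [hs, smul_mul_assoc, mul_smul_comm] at h2
  have h3 : s • (ρ y * ρ x - ρ x * ρ y) = 0 := by rw [smul_sub, h2, sub_self]
  rcases smul_eq_zero.1 h3 with h4 | h4
  · rw [hs, h4, zero_smul]
  · exact absurd (sub_eq_zero.1 h4).symm hxy

/-- nondegeneracy -/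
def ND (e : B) (D : Subgroup Γ) (ρ : Γ → B) : Prop :=
  ∀ y ∈ D, (∀ x ∈ D, ρ x * ρ y = ρ y * ρ x) → ∃ c : ℂ, ρ y = c • e

theorem reconstruct (h : Rp e S D ρ) (hcs : CommSc e D ρ) (hnd : ND e D ρ) :
    ∃ N : ℂ, N ≠ 0 ∧ ∀ U : B, e * U = U → U * e = U →
      ∑ b ∈ fs D, av D ρ (U * ρ b) * ρ b⁻¹ = N • U := by
  classical
  let Zs := (fs D).filter fun y => ∀ x ∈ D, ρ x * ρ y = ρ y * ρ x
  refine ⟨((Zs.card * Nat.card D : ℕ) : ℂ), ?_, ?_⟩
  · rw [Nat.cast_ne_zero]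
    apply Nat.mul_ne_zero
    · rw [← Nat.pos_iff_ne_zero, Finset.card_pos]
      refine ⟨1, Finset.mem_filter.2 ⟨mem_fs.2 D.one_mem, fun x hx => ?_⟩⟩
      rw [h.one, (h.cor x hx).left, (h.cor x hx).right]
    · exact Nat.card_pos.ne'
  intro U hU1 hU2
  have h1 : ∑ b ∈ fs D, av D ρ (U * ρ b) * ρ b⁻¹ = ∑ y ∈ fs D, ρ y * U * av D ρ (ρ y⁻¹) := by
    unfold av
    simp only [Finset.sum_mul, Finset.mul_sum]
    rw [Finset.sum_comm]
    refine Finset.sum_congr rfl fun y _ => Finset.sum_congr rfl fun b _ => ?_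
    simp only [mul_assoc]
  rw [h1]
  have h2 : ∀ y ∈ fs D, ρ y * U * av D ρ (ρ y⁻¹) =
      if (∀ x ∈ D, ρ x * ρ y = ρ y * ρ x) then (Nat.card D : ℂ) • U else 0 := by
    intro y hy
    have hy := mem_fs.1 hy
    split_ifs with hc
    · obtain ⟨c, hcy⟩ := hnd y hy hc
      have h3 : ∀ x ∈ D, ρ y⁻¹ * ρ x = ρ x * ρ y⁻¹ := by
        intro x hx
        have h4 := hc x hx
        calc ρ y⁻¹ * ρ x = ρ y⁻¹ * (ρ x * (ρ y * ρ y⁻¹)) := by
              rw [h.mul_inv hy, (h.cor x hx).right]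
          _ = ρ y⁻¹ * (ρ x * ρ y) * ρ y⁻¹ := by simp only [mul_assoc]
          _ = (ρ y⁻¹ * ρ y) * ρ x * ρ y⁻¹ := by rw [h4]; simp only [mul_assoc]
          _ = ρ x * ρ y⁻¹ := by rw [h.inv_mul hy, (h.cor x hx).left]
      have hyc := h.cor _ (D.inv_mem hy)
      rw [av_of_comm h (hyc.mono (Set.empty_subset _)) h3, mul_smul_comm]
      congr 1
      rw [hcy, smul_mul_assoc, hU1]
      calc (c • U) * ρ y⁻¹ = U * ((c • e) * ρ y⁻¹) := by
            rw [smul_mul_assoc, smul_mul_assoc, hyc.left, mul_smul_comm]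
        _ = U := by rw [← hcy, h.mul_inv hy, hU2]
    · push Not at hc
      obtain ⟨x, hx, hxy⟩ := hc
      have hyx : ρ x * ρ y⁻¹ ≠ ρ y⁻¹ * ρ x := by
        intro h4
        apply hxy
        calc ρ x * ρ y = (ρ y * ρ y⁻¹) * (ρ x * ρ y) := by
              rw [h.mul_inv hy, ← mul_assoc, (h.cor x hx).left]
          _ = ρ y * (ρ y⁻¹ * ρ x) * ρ y := by simp only [mul_assoc]
          _ = ρ y * ρ x * (ρ y⁻¹ * ρ y) := by rw [← h4]; simp only [mul_assoc]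
          _ = ρ y * ρ x := by rw [h.inv_mul hy, mul_assoc, (h.cor x hx).right]
      rw [av_eq_zero h hcs (D.inv_mem hy) hx hyx, mul_zero]
  rw [Finset.sum_congr rfl h2, ← Finset.sum_filter, Finset.sum_const,
    ← Nat.cast_smul_eq_nsmul ℂ, smul_smul, Nat.cast_mul]

end Cfsg.Agent.H9.Dade
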