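import Cfsg.Agent.H9.Dade8

/-!
# Dade's extension theorem for extraspecial 2-groups, main induction (owner: helper9)
-/

set_option autoImplicit false
set_option linter.unusedSectionVars false
set_option linter.style.haveILetI false

namespace Cfsg.Agent.H9.Dade

open Subgroup

variable {Γ : Type*} [Group Γ] [Finite Γ] {B : Type*} [Ring B] [Algebra ℂ B]
variable {e : B} {S : Set B} {E A P K N : Subgroup Γ} {ρ : Γ → B}

theorem rho_inv_congr (h : Rp e S E ρ) {x y : Γ} (hx : x ∈ E) (hy : y ∈ E) (hxy : ρ y = ρ x) :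
    ρ y⁻¹ = ρ x⁻¹ := by
  calc ρ y⁻¹ = ρ y⁻¹ * (ρ x * ρ x⁻¹) := by rw [h.mul_inv hx, (h.cor _ (E.inv_mem hy)).right]
    _ = ρ y⁻¹ * ρ y * ρ x⁻¹ := by rw [hxy, mul_assoc]
    _ = ρ x⁻¹ := by rw [h.inv_mul hy, (h.cor _ (E.inv_mem hx)).left]

/-- odd order elements acting trivially modulo scalars act trivially -/
theorem trivial_of_odd (h : Dt E K P e S ρ) {c x : Γ} (hc : c ∈ K) (hx : x ∈ E)
    (hcx : c * x * c⁻¹ * x⁻¹ ∈ Zs h.cf.toRp) : ρ (c * x * c⁻¹) = ρ x := by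
  have hcf := h.cf
  obtain ⟨u, u', hu, hu', h1, h2, h3⟩ := h.hiK c hc
  obtain ⟨-, d, hd⟩ := hcx
  have hE : ∀ y ∈ E, c * y * c⁻¹ ∈ E := fun y hy => nconj h.hKE hc hy
  have hdx : ρ (c * x * c⁻¹) = d • ρ x := by
    have e1 : c * x * c⁻¹ = (c * x * c⁻¹ * x⁻¹) * x := by group
    rw [e1, hcf.mul _ (E.mul_mem (hE x hx) (E.inv_mem hx)) _ hx, hd, smul_mul_assoc,
      (hcf.cor x hx).left]
  have hj : ∀ j : ℕ, c ^ j * x * (c ^ j)⁻¹ ∈ E ∧ ρ (c ^ j * x * (c ^ j)⁻¹) = d ^ j • ρ x := by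
    intro j
    induction j with
    | zero => simpa using hx
    | succ j ih =>
      have e1 : c ^ (j + 1) * x * (c ^ (j + 1))⁻¹ = c * (c ^ j * x * (c ^ j)⁻¹) * c⁻¹ := by
        rw [pow_succ']; group
      rw [e1]
      refine ⟨hE _ ih.1, ?_⟩
      rw [imp_eq hcf.toRp (h.hKE hc) h1 h3 ih.1, ih.2, mul_smul_comm, smul_mul_assoc,
        ← imp_eq hcf.toRp (h.hKE hc) h1 h3 hx, hdx, smul_smul, pow_succ]
  have hm : ∀ m : ℕ, ρ ((c * x * c⁻¹) ^ m) = d ^ m • ρ (x ^ m) := by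
    intro m
    induction m with
    | zero => simp
    | succ m ih =>
      rw [pow_succ, pow_succ x, hcf.mul _ (E.pow_mem (hE x hx) m) _ (hE x hx),
        hcf.mul _ (E.pow_mem hx m) _ hx, ih, hdx, smul_mul_smul_comm, pow_succ]
  have hpow : ∀ (X : Subgroup Γ) (y : Γ), y ∈ X → y ^ Nat.card X = 1 := by
    intro X y hy
    have h3 := congrArg (Subtype.val) (pow_card_eq_one' (x := (⟨y, hy⟩ : X)))
    rwa [Subgroup.coe_pow] at h3
  have hd1 : d ^ Nat.card K = 1 := by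
    have h4 := (hj (Nat.card K)).2
    rw [hpow K c hc, one_mul, inv_one, mul_one] at h4
    have h5 : (1 - d ^ Nat.card K) • ρ x = 0 := by rw [sub_smul, ← h4, one_smul, sub_self]
    rcases smul_eq_zero.1 h5 with h6 | h6
    · exact (sub_eq_zero.1 h6).symm
    · exact absurd h6 (hcf.toRp.ne_zero h.he hx)
  have hd2 : d ^ Nat.card E = 1 := by
    have h4 := hm (Nat.card E)
    rw [hpow E _ (hE x hx), hpow E x hx, hcf.one] at h4
    have h5 : (1 - d ^ Nat.card E) • e = 0 := by rw [sub_smul, ← h4, one_smul, sub_self]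
    rcases smul_eq_zero.1 h5 with h6 | h6
    · exact (sub_eq_zero.1 h6).symm
    · exact absurd h6 h.he
  have hd3 : d = 1 := by
    have h4 : d ^ (Nat.card K).gcd (Nat.card E) = 1 := pow_gcd_eq_one.2 ⟨hd1, hd2⟩
    rwa [(two_coprime h.hE2 h.hK : Nat.gcd _ _ = 1), pow_one] at h4
  rw [hdx, hd3, one_smul]

theorem case_prim (h : Dt E K P e S ρ)
    (hirr : ∀ M : Subgroup Γ, Zs h.cf.toRp ≤ M → M ≤ E → K ≤ normalizer (M : Set Γ) →
      P ≤ normalizer (M : Set Γ) → M ≤ Zs h.cf.toRp ∨ E ≤ M)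
    (hEZ : ¬ E ≤ Zs h.cf.toRp) {C : Subgroup Γ}
    (hCmem : ∀ k, k ∈ C ↔ k ∈ K ∧ ∀ x ∈ E, k * x * k⁻¹ * x⁻¹ ∈ Zs h.cf.toRp)
    (hCK : C ≤ K) (hPC : P ≤ normalizer (C : Set Γ))
    (hKK : ∀ k ∈ K, ∀ l ∈ K, k * l * k⁻¹ * l⁻¹ ∈ C)
    {r : ℕ} (hr : r.Prime) (hpow : ∀ l ∈ K, l ^ r ∈ C)
    (hfpf : ∀ k ∈ K, k ∉ C → ∀ x ∈ E, k * x * k⁻¹ * x⁻¹ ∈ Zs h.cf.toRp → x ∈ Zs h.cf.toRp) :
    ExtP e S E ρ P := by
  have hcf := h.cf
  have hKZ := Zs_norm hcf.toRp h.hKE h.hiK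
  have hPZ := Zs_norm hcf.toRp h.hPE h.hiP
  set Z := Zs hcf.toRp with hZ
  have hgh : GH E Z := hcf.gh
  have hEZ' : ∃ x ∈ E, x ∉ Z := by
    by_contra hcon
    push Not at hcon
    exact hEZ hcon
  have hcK : cen hgh K ≤ Z := cen_K hgh h.hE2 h.hK h.hKE hKZ fun x hx hfx => ⟨hx, h.hfix x hx hfx⟩
  obtain ⟨k₀, hk₀, hgen⟩ := exists_gen hgh h.hE2 h.hK h.hKE hKZ hEZ'
    (fun c hc x hx => ((hCmem c).1 hc).2 x hx) hKK hfpf
  have hk₀C : k₀ ∉ C := by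
    intro hk
    apply hEZ
    intro x hx
    refine hcK ⟨hx, fun k hk' => ?_⟩
    obtain ⟨i, hi⟩ := hgen k hk'
    have h1 := C.mul_mem (C.zpow_mem hk i) hi
    have e1 : k₀ ^ i * (k₀ ^ (-i) * k) = k := by group
    rw [e1] at h1
    exact ((hCmem k).1 h1).2 x hx
  have hCn : (C.subgroupOf K).Normal := ⟨fun n hn g => by
    rw [mem_subgroupOf] at hn ⊢
    have h1 := C.mul_mem (hKK g g.2 n n.2) hn
    simpa using h1⟩
  obtain ⟨t, htP, ht⟩ := exists_gen_P hCK hCn h.hPK hPC hr hk₀ hgen (hpow k₀ hk₀) hk₀C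
  let N : Subgroup Γ :=
    { carrier := {p | p ∈ P ∧ ∀ k ∈ K, p * k * p⁻¹ * k⁻¹ ∈ C}
      one_mem' := ⟨P.one_mem, fun k _ => by
        have : (1 : Γ) * k * 1⁻¹ * k⁻¹ = 1 := by group
        rw [this]; exact C.one_mem⟩
      mul_mem' := by
        rintro p q ⟨hp, hp'⟩ ⟨hq, hq'⟩
        refine ⟨P.mul_mem hp hq, fun k hk => ?_⟩
        have h1 := C.mul_mem (nconj hPC hp (hq' k hk)) (hp' k hk)
        have e1 : p * (q * k * q⁻¹ * k⁻¹) * p⁻¹ * (p * k * p⁻¹ * k⁻¹) =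
            p * q * k * (p * q)⁻¹ * k⁻¹ := by group
        rwa [e1] at h1
      inv_mem' := by
        rintro p ⟨hp, hp'⟩
        refine ⟨P.inv_mem hp, fun k hk => ?_⟩
        have h1 := nconj hPC (P.inv_mem hp) (C.inv_mem (hp' k hk))
        have e1 : p⁻¹ * (p * k * p⁻¹ * k⁻¹)⁻¹ * p⁻¹⁻¹ = p⁻¹ * k * p⁻¹⁻¹ * k⁻¹ := by group
        rwa [e1] at h1 }
  have hNP : N ≤ P := fun p hp => hp.1
  have hNn : ∀ p ∈ P, ∀ n ∈ N, p * n * p⁻¹ ∈ N := by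
    rintro p hp n ⟨hn, hn'⟩
    refine ⟨P.mul_mem (P.mul_mem hp hn) (P.inv_mem hp), fun k hk => ?_⟩
    have hk' := nconj h.hPK (P.inv_mem hp) hk
    have h1 := nconj hPC hp (hn' _ hk')
    have e1 : p * (n * (p⁻¹ * k * p⁻¹⁻¹) * n⁻¹ * (p⁻¹ * k * p⁻¹⁻¹)⁻¹) * p⁻¹ =
        p * n * p⁻¹ * k * (p * n * p⁻¹)⁻¹ * k⁻¹ := by group
    rwa [e1] at h1
  have hcomm : ∀ n ∈ N, ∀ k ∈ K, n⁻¹ * k⁻¹ * n * k ∈ C := by
    intro n hn k hk
    have h1 := (N.inv_mem hn).2 k⁻¹ (K.inv_mem hk)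
    have e1 : n⁻¹ * k⁻¹ * n⁻¹⁻¹ * k⁻¹⁻¹ = n⁻¹ * k⁻¹ * n * k := by group
    rwa [e1] at h1
  have hNPn : P ≤ normalizer (N : Set Γ) := le_normalizer_of hNn
  have hNE := hNP.trans h.hPE
  have hNZ := hNP.trans hPZ
  -- step a
  have hEM : E ≤ cen hgh N := by
    rcases hirr (cen hgh N) (le_cen hNZ) cen_le (le_normalizer_of fun k hk x hx => by
      refine ⟨nconj h.hKE hk hx.1, fun n hn => ?_⟩
      have hc := hcomm n hn k hk
      have z1 := nconj hNZ hn (((hCmem _).1 hc).2 x hx.1)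
      have z2 := hx.2 n hn
      have h1 := nconj hKZ hk (Z.mul_mem z1 z2)
      have e1 : k * (n * (n⁻¹ * k⁻¹ * n * k * x * (n⁻¹ * k⁻¹ * n * k)⁻¹ * x⁻¹) * n⁻¹ *
          (n * x * n⁻¹ * x⁻¹)) * k⁻¹ = n * (k * x * k⁻¹) * n⁻¹ * (k * x * k⁻¹)⁻¹ := by group
      rwa [e1] at h1) (cen_norm hgh h.hPE hPZ hNPn) with h1 | h1
    · exfalso
      obtain ⟨x, hx, hxZ, hxN⟩ := exists_two_fixed hgh h.hE2 (h.hP2.to_le hNP) hNE hNZ hEZ'
      exact hxZ (h1 ⟨hx, hxN⟩)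
    · exact h1
  -- the conjugation formula
  have hform : ∀ n ∈ N, ∀ k ∈ K, ∀ x ∈ E, ∀ u u' : B, u * u' = e → Imp E ρ k u →
      ρ (n * (k * x * k⁻¹) * n⁻¹) = u * ρ (n * x * n⁻¹) * u' := by
    intro n hn k hk x hx u u' huu hui
    obtain ⟨v, v', hv, hv', hv1, hv2, hvi⟩ := h.hiP n (hNP hn)
    set c := n⁻¹ * k⁻¹ * n * k with hc
    have hcC : c ∈ C := hcomm n hn k hk
    have hcK := hCK hcC
    have hcx : c * x * c⁻¹ ∈ E := nconj h.hKE hcK hx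
    have e1 : n * (k * x * k⁻¹) * n⁻¹ = k * (n * (c * x * c⁻¹) * n⁻¹) * k⁻¹ := by
      rw [hc]; group
    rw [e1, imp_eq hcf.toRp (h.hKE hk) huu hui (nconj hNE hn hcx),
      imp_eq hcf.toRp (hNE hn) hv1 hvi hcx, trivial_of_odd h hcK hx (((hCmem _).1 hcC).2 x hx),
      ← imp_eq hcf.toRp (hNE hn) hv1 hvi hx]
  -- step b
  let M : Subgroup Γ :=
    { carrier := {x | x ∈ E ∧ ∀ n ∈ N, ρ (n * x * n⁻¹) = ρ x}
      one_mem' := ⟨E.one_mem, fun n _ => by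
        have : n * 1 * n⁻¹ = 1 := by group
        rw [this]⟩
      mul_mem' := by
        rintro x y ⟨hx, hx'⟩ ⟨hy, hy'⟩
        refine ⟨E.mul_mem hx hy, fun n hn => ?_⟩
        have e1 : n * (x * y) * n⁻¹ = (n * x * n⁻¹) * (n * y * n⁻¹) := by group
        rw [e1, hcf.mul _ (nconj hNE hn hx) _ (nconj hNE hn hy), hx' n hn, hy' n hn,
          hcf.mul x hx y hy]
      inv_mem' := by
        rintro x ⟨hx, hx'⟩
        refine ⟨E.inv_mem hx, fun n hn => ?_⟩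
        have e1 : n * x⁻¹ * n⁻¹ = (n * x * n⁻¹)⁻¹ := by group
        rw [e1]
        exact rho_inv_congr hcf.toRp hx (nconj hNE hn hx) (hx' n hn) }
  have hME : M ≤ E := fun x hx => hx.1
  have hZM : Z ≤ M := by
    rintro x ⟨hx, c, hc⟩
    refine ⟨hx, fun n hn => ?_⟩
    rw [sc_conj hcf.toRp (hNE hn) (h.hiP n (hNP hn)) hx hc, hc]
  have hKM : K ≤ normalizer (M : Set Γ) := by
    refine le_normalizer_of fun k hk x hx => ⟨nconj h.hKE hk hx.1, fun n hn => ?_⟩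
    obtain ⟨u, u', hu, hu', h1, h2, h3⟩ := h.hiK k hk
    rw [hform n hn k hk x hx.1 u u' h1 h3, hx.2 n hn, imp_eq hcf.toRp (h.hKE hk) h1 h3 hx.1]
  have hPM : P ≤ normalizer (M : Set Γ) := by
    refine le_normalizer_of fun p hp x hx => ⟨nconj h.hPE hp hx.1, fun n hn => ?_⟩
    obtain ⟨u, u', hu, hu', h1, h2, h3⟩ := h.hiP p hp
    have hn' : p⁻¹ * n * p⁻¹⁻¹ ∈ N := hNn _ (P.inv_mem hp) n hn
    have e1 : n * (p * x * p⁻¹) * n⁻¹ = p * ((p⁻¹ * n * p⁻¹⁻¹) * x * (p⁻¹ * n * p⁻¹⁻¹)⁻¹) * p⁻¹ := by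
      group
    rw [e1, imp_eq hcf.toRp (h.hPE hp) h1 h3 (nconj hNE hn' hx.1), hx.2 _ hn',
      imp_eq hcf.toRp (h.hPE hp) h1 h3 hx.1]
  have hEM' : E ≤ M := by
    rcases hirr M hZM hME hKM hPM with h1 | h1
    swap
    · exact h1
    exfalso
    apply hEZ
    intro x hx
    refine hcK ⟨hx, fun k hk => h1 ?_⟩
    have hkx := nconj h.hKE hk hx
    refine ⟨E.mul_mem hkx (E.inv_mem hx), fun n hn => ?_⟩
    obtain ⟨u, u', hu, hu', k1, k2, k3⟩ := h.hiK k hk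
    obtain ⟨-, d, hd⟩ := (hEM hx).2 n hn
    have hnx := nconj hNE hn hx
    have hdx : ρ (n * x * n⁻¹) = d • ρ x := by
      have e1 : n * x * n⁻¹ = (n * x * n⁻¹ * x⁻¹) * x := by group
      rw [e1, hcf.mul _ (E.mul_mem hnx (E.inv_mem hx)) _ hx, hd, smul_mul_assoc,
        (hcf.cor x hx).left]
    have hkd : ρ (n * (k * x * k⁻¹) * n⁻¹) = d • ρ (k * x * k⁻¹) := by
      rw [hform n hn k hk x hx u u' k1 k3, hdx, mul_smul_comm, smul_mul_assoc,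
        imp_eq hcf.toRp (h.hKE hk) k1 k3 hx]
    have hnx' := nconj hNE hn (E.inv_mem hx)
    have hinv : d • ρ (n * x⁻¹ * n⁻¹) = ρ x⁻¹ := by
      have h4 : ρ (n * x * n⁻¹) * ρ (n * x⁻¹ * n⁻¹) = e := by
        rw [← hcf.mul _ hnx _ hnx']
        have e1 : n * x * n⁻¹ * (n * x⁻¹ * n⁻¹) = 1 := by group
        rw [e1, hcf.one]
      rw [hdx, smul_mul_assoc] at h4
      calc d • ρ (n * x⁻¹ * n⁻¹) = ρ x⁻¹ * (d • (ρ x * ρ (n * x⁻¹ * n⁻¹))) := by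
            rw [mul_smul_comm, ← mul_assoc, hcf.inv_mul hx, (hcf.cor _ hnx').left]
        _ = ρ x⁻¹ := by rw [h4, (hcf.cor _ (E.inv_mem hx)).right]
    have e2 : n * (k * x * k⁻¹ * x⁻¹) * n⁻¹ = (n * (k * x * k⁻¹) * n⁻¹) * (n * x⁻¹ * n⁻¹) := by
      group
    rw [e2, hcf.mul _ (nconj hNE hn hkx) _ hnx', hkd, smul_mul_assoc, ← mul_smul_comm, hinv,
      hcf.mul _ hkx _ (E.inv_mem hx)]
  obtain ⟨u, u', hu, hu', k1, k2, k3⟩ := h.hiP t htP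
  refine glue (N := N) (R := fun _ => e) h.he hcf hNP hNn htP ?_ h.hPE
    ⟨rfl, fun _ _ _ _ => hcf.idem.symm, fun _ _ => hcf.cor_one⟩ ?_ hu hu' k1 k2 k3 ?_
  · intro x hx
    obtain ⟨i, hi⟩ := ht x hx
    exact ⟨i, P.mul_mem (P.zpow_mem htP _) hx, hi⟩
  · intro n hn x hx
    change e * ρ x = ρ (n * x * n⁻¹) * e
    rw [(hEM' hx).2 n hn, (hcf.cor x hx).left, (hcf.cor x hx).right]
  · intro n _
    change u * e = e * u
    rw [hu.left, hu.right]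

theorem case_irr (h : Dt E K P e S ρ) (IH : IHyp Γ B (Nat.card E + Nat.card K))
    (hirr : ∀ M : Subgroup Γ, Zs h.cf.toRp ≤ M → M ≤ E → K ≤ normalizer (M : Set Γ) →
      P ≤ normalizer (M : Set Γ) → M ≤ Zs h.cf.toRp ∨ E ≤ M)
    (hEZ : ¬ E ≤ Zs h.cf.toRp) : ExtP e S E ρ P := by
  classical
  have hcf := h.cf
  have hKZ := Zs_norm hcf.toRp h.hKE h.hiK
  have hPZ := Zs_norm hcf.toRp h.hPE h.hiP
  have hgh : GH E (Zs h.cf.toRp) := hcf.gh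
  have hcK : cen hgh K ≤ Zs h.cf.toRp :=
    cen_K hgh h.hE2 h.hK h.hKE hKZ fun x hx hfx => ⟨hx, h.hfix x hx hfx⟩
  by_cases hmin : ∃ K₁ : Subgroup Γ, K₁ ≤ K ∧ K₁ ≠ K ∧ P ≤ normalizer (K₁ : Set Γ) ∧
      ∀ x ∈ E, (∀ k ∈ K₁, k * x * k⁻¹ = x) → ∃ c : ℂ, ρ x = c • e
  · obtain ⟨K₁, h1, h2, h3, h4⟩ := hmin
    exact IH E K₁ P e S ρ (Nat.add_lt_add_left (card_lt_of h1 h2) _)
      ⟨h.he, h.cf, h.hE2, h.hP2, h.hK.of_dvd_nat (Subgroup.card_dvd_of_le h1), h1.trans h.hKE,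
        h.hPE, h3, fun g hg => h.hiK g (h1 hg), h.hiP, h4⟩
  push Not at hmin
  let C : Subgroup Γ :=
    { carrier := {k | k ∈ K ∧ ∀ x ∈ E, k * x * k⁻¹ * x⁻¹ ∈ Zs h.cf.toRp}
      one_mem' := ⟨K.one_mem, fun x hx => (stb (Zs h.cf.toRp) K hKZ x).one_mem.2⟩
      mul_mem' := by
        rintro k l ⟨hk, hk'⟩ ⟨hl, hl'⟩
        exact ⟨K.mul_mem hk hl, fun x hx =>
          ((stb (Zs h.cf.toRp) K hKZ x).mul_mem ⟨hk, hk' x hx⟩ ⟨hl, hl' x hx⟩).2⟩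
      inv_mem' := by
        rintro k ⟨hk, hk'⟩
        exact ⟨K.inv_mem hk, fun x hx =>
          ((stb (Zs h.cf.toRp) K hKZ x).inv_mem ⟨hk, hk' x hx⟩).2⟩ }
  have hCK : C ≤ K := fun k hk => hk.1
  have hCmem : ∀ k, k ∈ C ↔ k ∈ K ∧ ∀ x ∈ E, k * x * k⁻¹ * x⁻¹ ∈ Zs h.cf.toRp := fun k => Iff.rfl
  have hXC : ∀ X : Subgroup Γ, X ≤ normalizer (K : Set Γ) → X ≤ normalizer (E : Set Γ) →
      X ≤ normalizer ((Zs h.cf.toRp : Subgroup Γ) : Set Γ) → X ≤ normalizer (C : Set Γ) := by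
    intro X hXK hXE hXZ
    refine le_normalizer_of fun g hg k hk => ⟨nconj hXK hg hk.1, fun x hx => ?_⟩
    have hx' := nconj hXE (X.inv_mem hg) hx
    have h1 := nconj hXZ hg (hk.2 _ hx')
    have e1 : g * (k * (g⁻¹ * x * g⁻¹⁻¹) * k⁻¹ * (g⁻¹ * x * g⁻¹⁻¹)⁻¹) * g⁻¹ =
        g * k * g⁻¹ * x * (g * k * g⁻¹)⁻¹ * x⁻¹ := by group
    rwa [e1] at h1
  have hKC := hXC K le_normalizer h.hKE hKZ
  have hPC := hXC P h.hPK h.hPE hPZ
  have hCne : C ≠ K := by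
    intro h1
    apply hEZ
    intro x hx
    exact hcK ⟨hx, fun k hk => ((hCmem k).1 (by rw [h1]; exact hk)).2 x hx⟩
  have hG2 : ∀ K₁ : Subgroup Γ, K₁ ≤ K → K₁ ≠ K → P ≤ normalizer (K₁ : Set Γ) →
      K ≤ normalizer (K₁ : Set Γ) → K₁ ≤ C := by
    intro K₁ h1 h2 h3 h4
    obtain ⟨x, hx, hx1, hx2⟩ := hmin K₁ h1 h2 h3
    rcases hirr (cen hgh K₁) (le_cen (h1.trans hKZ)) cen_le (cen_norm hgh h.hKE hKZ h4)
      (cen_norm hgh h.hPE hPZ h3) with h5 | h5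
    · exfalso
      have h6 : x ∈ cen hgh K₁ := ⟨hx, fun k hk => by
        rw [hx1 k hk, mul_inv_cancel]; exact Subgroup.one_mem _⟩
      obtain ⟨-, c, hc⟩ := h5 h6
      exact hx2 c hc
    · intro k hk
      exact ⟨h1 hk, fun x hx => (h5 hx).2 k hk⟩
  have hCn : (C.subgroupOf K).Normal := ⟨fun n hn g => by
    rw [mem_subgroupOf] at hn ⊢
    exact nconj hKC g.2 hn⟩
  have hKsol : Group.IsSolvable K := S0205.result h.hK
  have hKKle : ⁅K, K⁆ ≤ K := by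
    rw [Subgroup.commutator_le]
    intro a ha b hb
    exact K.mul_mem (K.mul_mem (K.mul_mem ha hb) (K.inv_mem ha)) (K.inv_mem hb)
  have hXKK : ∀ X : Subgroup Γ, X ≤ normalizer (K : Set Γ) → X ≤ normalizer (C : Set Γ) →
      X ≤ normalizer ((⁅K, K⁆ ⊔ C : Subgroup Γ) : Set Γ) := by
    intro X hXK hXC'
    have h1 : ∀ g ∈ X, (⁅K, K⁆ ⊔ C : Subgroup Γ) ≤
        (⁅K, K⁆ ⊔ C : Subgroup Γ).comap (MulAut.conj g).toMonoidHom := by
      intro g hg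
      refine sup_le ?_ ?_
      · rw [Subgroup.commutator_le]
        intro a ha b hb
        have h2 : g * a * g⁻¹ * (g * b * g⁻¹) * (g * a * g⁻¹)⁻¹ * (g * b * g⁻¹)⁻¹ ∈
            (⁅K, K⁆ ⊔ C : Subgroup Γ) :=
          (le_sup_left : ⁅K, K⁆ ≤ _) (Subgroup.commutator_mem_commutator (nconj hXK hg ha)
            (nconj hXK hg hb))
        have e1 : g * a * g⁻¹ * (g * b * g⁻¹) * (g * a * g⁻¹)⁻¹ * (g * b * g⁻¹)⁻¹ =
            g * (a * b * a⁻¹ * b⁻¹) * g⁻¹ := by group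
        rw [e1] at h2
        exact h2
      · intro c hc
        exact (le_sup_right : C ≤ _) (nconj hXC' hg hc)
    exact le_normalizer_of fun g hg x hx => h1 g hg hx
  have hKK : ∀ k ∈ K, ∀ l ∈ K, k * l * k⁻¹ * l⁻¹ ∈ C := by
    have h1 := hG2 (⁅K, K⁆ ⊔ C) (sup_le hKKle hCK) (commutator_sup_ne hKsol hCK hCn hCne)
      (hXKK P h.hPK hPC) (hXKK K le_normalizer hKC)
    intro k hk l hl
    exact h1 ((le_sup_left : ⁅K, K⁆ ≤ _) (Subgroup.commutator_mem_commutator hk hl))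
  obtain ⟨r, K₂, hr, hCK₂, hK₂K, hK₂ne, hK₂mem⟩ := exists_prime_powers hCK hCne hKK
  have hXK₂ : ∀ X : Subgroup Γ, X ≤ normalizer (K : Set Γ) → X ≤ normalizer (C : Set Γ) →
      X ≤ normalizer (K₂ : Set Γ) := by
    intro X hXK hXC'
    refine le_normalizer_of fun g hg x hx => ?_
    obtain ⟨hx1, l, hl, hxl⟩ := (hK₂mem x).1 hx
    refine (hK₂mem _).2 ⟨nconj hXK hg hx1, g * l * g⁻¹, nconj hXK hg hl, ?_⟩
    have h1 := nconj hXC' hg hxl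
    have e1 : (g * x * g⁻¹)⁻¹ * (g * l * g⁻¹) ^ r = g * (x⁻¹ * l ^ r) * g⁻¹ := by
      rw [conj_pow]; group
    rwa [e1]
  have hpow : ∀ l ∈ K, l ^ r ∈ C := by
    intro l hl
    have h1 := hG2 K₂ hK₂K hK₂ne (hXK₂ P h.hPK hPC) (hXK₂ K le_normalizer hKC)
    refine h1 ((hK₂mem _).2 ⟨K.pow_mem hl r, l, hl, ?_⟩)
    rw [inv_mul_cancel]
    exact C.one_mem
  have hKL : ∀ M : Subgroup Γ, C ≤ M → M ≤ K → K ≤ normalizer (M : Set Γ) := by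
    intro M hCM hMK
    refine le_normalizer_of fun k hk x hx => ?_
    have h1 := M.mul_mem (hCM (hKK k hk x (hMK hx))) hx
    have e1 : k * x * k⁻¹ * x⁻¹ * x = k * x * k⁻¹ := by group
    rwa [e1] at h1
  -- a maximal component
  obtain ⟨L, ⟨hCL, hLK, hLZ⟩, hLmax⟩ := Set.exists_max_image
    {M : Subgroup Γ | C ≤ M ∧ M ≤ K ∧ ¬ cen hgh M ≤ Zs h.cf.toRp} (fun M => Nat.card M)
    (Set.toFinite _) ⟨C, le_rfl, hCK, fun h1 => hEZ fun x hx => h1 ⟨hx, fun k hk => hk.2 x hx⟩⟩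
  have hmax : ∀ M : Subgroup Γ, C ≤ M → M ≤ K → ¬ cen h.cf.gh M ≤ Zs h.cf.toRp →
      Nat.card M ≤ Nat.card L := fun M h1 h2 h3 => hLmax M ⟨h1, h2, h3⟩
  by_cases hPL : P ≤ normalizer (L : Set Γ)
  swap
  · exact case_imprim h IH hirr hmax hKL hPC hCL hLK rfl hLZ hPL
  have hEL : E ≤ cen hgh L := by
    rcases hirr (cen hgh L) (le_cen (hLK.trans hKZ)) cen_le
      (cen_norm hgh h.hKE hKZ (hKL L hCL hLK)) (cen_norm hgh h.hPE hPZ hPL) with h5 | h5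
    · exact absurd h5 hLZ
    · exact h5
  have hLC : L ≤ C := fun k hk => ⟨hLK hk, fun x hx => (hEL hx).2 k hk⟩
  have hLC' : L = C := le_antisymm hLC hCL
  refine case_prim h hirr hEZ hCmem hCK hPC hKK hr hpow ?_
  intro k hk hkC x hx hkx
  by_contra hxZ
  have h1 : C ⊔ zpowers k ≤ stb (Zs h.cf.toRp) K hKZ x := by
    refine sup_le (fun c hc => ⟨hc.1, hc.2 x hx⟩) ?_
    rw [zpowers_le]
    exact ⟨hk, hkx⟩
  have h2 := hmax (C ⊔ zpowers k) le_sup_left (sup_le hCK (by rwa [zpowers_le]))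
    (fun h3 => hxZ (h3 ⟨hx, fun k hk => (h1 hk).2⟩))
  rw [hLC'] at h2
  have h3 : C = C ⊔ zpowers k := Subgroup.eq_of_le_of_card_ge le_sup_left h2
  apply hkC
  rw [h3]
  exact (le_sup_right : zpowers k ≤ _) (mem_zpowers k)

theorem main (n : ℕ) : ∀ (E K P : Subgroup Γ) (e : B) (S : Set B) (ρ : Γ → B),
    Nat.card E + Nat.card K = n → Dt E K P e S ρ → ExtP e S E ρ P := by
  classical
  induction n using Nat.strong_induction_on with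
  | _ n ih =>
  intro E K P e S ρ hn h
  have IH : IHyp Γ B (Nat.card E + Nat.card K) := by
    intro E' K' P' e' S' ρ' hlt h'
    exact ih _ (by rw [← hn]; exact hlt) E' K' P' e' S' ρ' rfl h'
  have hcf := h.cf
  have hKZ := Zs_norm hcf.toRp h.hKE h.hiK
  have hPZ := Zs_norm hcf.toRp h.hPE h.hiP
  by_cases hEZ : E ≤ Zs hcf.toRp
  · exact case_scalar h fun x hx => (hEZ hx).2
  -- a minimal invariant subgroup above the scalars
  obtain ⟨A, ⟨hZA, hA, hKA, hPA, hAZ⟩, hAmin⟩ := Set.exists_min_image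
    {M : Subgroup Γ | Zs hcf.toRp ≤ M ∧ M ≤ E ∧ K ≤ normalizer (M : Set Γ) ∧
      P ≤ normalizer (M : Set Γ) ∧ ¬ M ≤ Zs hcf.toRp} (fun M => Nat.card M)
    (Set.toFinite _) ⟨E, fun _ hx => hx.1, le_rfl, h.hKE, h.hPE, hEZ⟩
  have hmin : ∀ M : Subgroup Γ, Zs hcf.toRp ≤ M → M ≤ A → K ≤ normalizer (M : Set Γ) →
      P ≤ normalizer (M : Set Γ) → M ≤ Zs hcf.toRp ∨ A ≤ M := by
    intro M h1 h2 h3 h4
    by_cases h5 : M ≤ Zs hcf.toRp
    · exact Or.inl h5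
    · right
      have h6 := hAmin M ⟨h1, h2.trans hA, h3, h4, h5⟩
      exact (Subgroup.eq_of_le_of_card_ge h2 h6).ge
  have hKp := perp_norm hcf.toRp hA h.hKE hKA h.hiK
  have hPp := perp_norm hcf.toRp hA h.hPE hPA h.hiP
  rcases hmin (A ⊓ perp hcf.toRp A hA) (le_inf hZA (Zs_le_perp _ _)) inf_le_left
    (le_normalizer_of fun g hg x hx => ⟨nconj hKA hg hx.1, nconj hKp hg hx.2⟩)
    (le_normalizer_of fun g hg x hx => ⟨nconj hPA hg hx.1, nconj hPp hg hx.2⟩) with h1 | h1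
  · by_cases hne : A = E
    · refine case_irr h IH ?_ hEZ
      intro M k1 k2 k3 k4
      exact (hmin M k1 (k2.trans hne.ge) k3 k4).imp_right fun h5 => hne.ge.trans h5
    · exact case_split h IH hA hAZ hZA hKA hPA h1 hne
  · exact case_iso h IH hA hAZ hKA hPA (h1.trans inf_le_right)

end Cfsg.Agent.H9.Dade
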