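import Cfsg.Prelude.Def_Transfer
import Cfsg.Agent.H9.Dade9
import Cfsg.Agent.Char.ExtThm
import Cfsg.Agent.Char.CentralChar

/-!
# Dade's extension theorem for extraspecial 2-groups, top level (owner: helper9)
-/

set_option autoImplicit false
open Cfsg

namespace Cfsg.Agent.H9.Dade

open Subgroup Cfsg.Agent.Char Cfsg.Agent.CharBase

section Top

variable {G : Type*} [Group G] [Finite G]

theorem center_facts {E : Subgroup G} [hEn : E.Normal] (hE : Cfsg.IsExtraspecial 2 ↥E) :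
    (∀ x ∈ E, (∀ y ∈ E, x * y = y * x) → ∀ g : G, g * x * g⁻¹ = x) ∧
    (∀ x ∈ E, ∀ y ∈ E, ∀ w ∈ E, x * y * x⁻¹ * y⁻¹ * w = w * (x * y * x⁻¹ * y⁻¹)) ∧
    ∃ z : E, z ∈ Subgroup.center E ∧ z ≠ 1 := by
  have h2 : Nat.card (Subgroup.center E) = 2 := hE.2
  refine ⟨?_, ?_, ?_⟩
  · intro x hx hxc g
    by_cases h1 : x = 1
    · rw [h1]; group
    have hcen : ∀ w : G, (hw : w ∈ E) → (∀ y ∈ E, w * y = y * w) →
        (⟨w, hw⟩ : E) ∈ Subgroup.center E := fun w hw h => by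
      rw [Subgroup.mem_center_iff]
      intro y
      exact Subtype.ext (h y y.2).symm
    have hgx : g * x * g⁻¹ ∈ E := hEn.conj_mem x hx g
    have hgc : ∀ y ∈ E, g * x * g⁻¹ * y = y * (g * x * g⁻¹) := by
      intro y hy
      have h3 := hxc (g⁻¹ * y * g) (by simpa using hEn.conj_mem y hy g⁻¹)
      calc g * x * g⁻¹ * y = g * (x * (g⁻¹ * y * g)) * g⁻¹ := by group
        _ = g * (g⁻¹ * y * g * x) * g⁻¹ := by rw [h3]
        _ = y * (g * x * g⁻¹) := by group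
    obtain ⟨a, b, hab, hu⟩ := Nat.card_eq_two_iff.1 h2
    have hmem : ∀ c : Subgroup.center E, c = a ∨ c = b := by
      intro c
      have : c ∈ ({a, b} : Set _) := by rw [hu]; trivial
      simpa using this
    have key : ∀ c d : Subgroup.center E, c ≠ 1 → d ≠ 1 → c = d := by
      intro c d hc hd
      rcases hmem c with h3 | h3 <;> rcases hmem d with h4 | h4 <;> rcases hmem 1 with h5 | h5
      · rw [h3, h4]
      · rw [h3, h4]
      · exact absurd (h3.trans h5.symm) hc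
      · exact absurd (h4.trans h5.symm) hd
      · exact absurd (h4.trans h5.symm) hd
      · exact absurd (h3.trans h5.symm) hc
      · rw [h3, h4]
      · rw [h3, h4]
    have h6 := key ⟨⟨g * x * g⁻¹, hgx⟩, hcen _ hgx hgc⟩ ⟨⟨x, hx⟩, hcen _ hx hxc⟩
      (fun h => h1 (by
        have h7 : g * x * g⁻¹ = 1 := congrArg (fun q : Subgroup.center E => ((q : E) : G)) h
        rw [mul_inv_eq_one] at h7
        exact mul_eq_left.1 h7))
      (fun h => h1 (congrArg (fun q : Subgroup.center E => ((q : E) : G)) h))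
    exact congrArg (fun q : Subgroup.center E => ((q : E) : G)) h6
  · intro x hx y hy w hw
    have h3 : (⟨x, hx⟩ : E) * ⟨y, hy⟩ * (⟨x, hx⟩ : E)⁻¹ * (⟨y, hy⟩ : E)⁻¹ ∈
        Subgroup.center E := by
      rw [← hE.1.2.2]
      exact Subgroup.commutator_mem_commutator (Subgroup.mem_top _) (Subgroup.mem_top _)
    have h4 := (Subgroup.mem_center_iff.1 h3) ⟨w, hw⟩
    exact (congrArg (Subtype.val) h4).symm
  · have h3 : Nontrivial (Subgroup.center E) := by
      rw [← Finite.one_lt_card_iff_nontrivial, h2]; norm_num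
    obtain ⟨z, hz⟩ := exists_ne (1 : Subgroup.center E)
    exact ⟨z, z.2, fun h => hz (Subtype.ext h)⟩

theorem fixed_central {E K : Subgroup G} [hEn : E.Normal] (hE : Cfsg.IsExtraspecial 2 ↥E)
    (hEK : ⁅E, K⁆ = E) {x : G} (hx : x ∈ E) (hfx : ∀ k ∈ K, k * x * k⁻¹ = x) :
    ∀ y ∈ E, x * y = y * x := by
  obtain ⟨hc1, hc2, -⟩ := center_facts hE
  have h1 : ⁅E, K⁆ ≤ centralizer ({x} : Set G) := by
    rw [Subgroup.commutator_le]
    intro a ha k hk
    rw [Subgroup.mem_centralizer_singleton_iff]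
    -- z := x a x⁻¹ a⁻¹ is central in G
    have h2 : ∀ g : G, g * (x * a * x⁻¹ * a⁻¹) * g⁻¹ = x * a * x⁻¹ * a⁻¹ := hc1 _
      (E.mul_mem (E.mul_mem (E.mul_mem hx ha) (E.inv_mem hx)) (E.inv_mem ha))
      (hc2 x hx a ha)
    have h3 : ∀ g : G, g * (x * a * x⁻¹ * a⁻¹) = (x * a * x⁻¹ * a⁻¹) * g := fun g =>
      mul_inv_eq_iff_eq_mul.1 (h2 g)
    have h4 : x * k = k * x := by
      have := hfx k hk
      rw [mul_inv_eq_iff_eq_mul] at this
      exact this.symm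
    have h5 : x * k * x⁻¹ = k := by rw [h4]; group
    have h6 : x * (a * k * a⁻¹ * k⁻¹) * x⁻¹ = a * k * a⁻¹ * k⁻¹ := by
      have e1 : x * (a * k * a⁻¹ * k⁻¹) * x⁻¹ =
          (x * a * x⁻¹ * a⁻¹) * a * (x * k * x⁻¹) * ((x * a * x⁻¹ * a⁻¹) * a)⁻¹ *
            (x * k * x⁻¹)⁻¹ := by group
      rw [e1, h5]
      have e2 : (x * a * x⁻¹ * a⁻¹) * a * k * ((x * a * x⁻¹ * a⁻¹) * a)⁻¹ * k⁻¹ =
          (x * a * x⁻¹ * a⁻¹) * (a * k * a⁻¹) * (x * a * x⁻¹ * a⁻¹)⁻¹ * k⁻¹ := by group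
      rw [e2, ← h3]
      group
    have h7 : x * (a * k * a⁻¹ * k⁻¹) = (a * k * a⁻¹ * k⁻¹) * x := mul_inv_eq_iff_eq_mul.1 h6
    exact h7.symm
  intro y hy
  have h2 : y ∈ centralizer ({x} : Set G) := h1 (by rw [hEK]; exact hy)
  rw [Subgroup.mem_centralizer_singleton_iff] at h2
  exact h2.symm

theorem theta_invariant {E : Subgroup G} [hEn : E.Normal] (hE : Cfsg.IsExtraspecial 2 ↥E)
    {θ : E → ℂ} (hirr : IsIrrCharacter E θ) (hθ : ∀ e : E, θ e = θ 1 → e = 1) :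
    (∀ x : E, x ∉ Subgroup.center E → θ x = 0) ∧ ∀ g : G, cj E g θ = θ := by
  obtain ⟨hc1, hc2, z, hz, hz1⟩ := center_facts hE
  haveI : Fact (Nat.Prime 2) := ⟨Nat.prime_two⟩
  haveI := Fintype.ofFinite E
  have hvan : ∀ x : E, x ∉ Subgroup.center E → θ x = 0 := fun x hx =>
    CC.extraspecial_vanish hE hirr hz (fun h => hz1 (hθ z h)) x hx
  refine ⟨hvan, fun g => funext fun n => ?_⟩
  rw [cj_apply]
  by_cases hn : n ∈ Subgroup.center E
  · congr 1
    apply Subtype.ext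
    refine hc1 n n.2 (fun y hy => ?_) g
    have h1 := (Subgroup.mem_center_iff.1 hn) ⟨y, hy⟩
    exact (congrArg Subtype.val h1).symm
  · rw [hvan n hn, hvan]
    intro h
    apply hn
    rw [Subgroup.mem_center_iff] at h ⊢
    intro y
    have h1 := h ⟨g * y * g⁻¹, hEn.conj_mem y y.2 g⟩
    have h2 : g * y * g⁻¹ * (g * n * g⁻¹) = g * n * g⁻¹ * (g * y * g⁻¹) :=
      congrArg Subtype.val h1
    apply Subtype.ext
    change (y : G) * n = n * y
    calc (y : G) * n = g⁻¹ * (g * y * g⁻¹ * (g * n * g⁻¹)) * g := by group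
      _ = g⁻¹ * (g * n * g⁻¹ * (g * y * g⁻¹)) * g := by rw [h2]
      _ = n * y := by group

/-- the extension of the representation to a 2-group of automorphisms -/
theorem extend_two {E H K : Subgroup G} [hEn : E.Normal] (hE : Cfsg.IsExtraspecial 2 ↥E)
    (hKn : ∀ h ∈ H, ∀ k ∈ K, h * k * h⁻¹ ∈ K) (hKodd : Odd (Nat.card ↥K))
    (hEK : ⁅E, K⁆ = E) {d : ℕ} (ρ : Representation ℂ E (Fin d → ℂ)) (hρ : ρ.IsIrreducible)
    (hinv : ∀ g : G, cj E g ρ.character = ρ.character) (P : Subgroup G) (hPH : P ≤ H)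
    (hP2 : IsPGroup 2 P) :
    ∃ T : G → Module.End ℂ (Fin d → ℂ), T 1 = 1 ∧ (∀ p ∈ P, ∀ q ∈ P, T (p * q) = T p * T q) ∧
      ∀ p ∈ P, ∀ n : E, T p * ρ n = ρ ⟨p * n * p⁻¹, hEn.conj_mem (n : G) n.2 p⟩ * T p := by
  classical
  obtain ⟨T, hT⟩ := exists_twist E ρ hρ hinv
  obtain ⟨hc1, hc2, -⟩ := center_facts hE
  have hnt := nontrivial_of_irreducible_rep ρ hρ
  set ρ' : G → Module.End ℂ (Fin d → ℂ) := fun x => if hx : x ∈ E then ρ ⟨x, hx⟩ else 0 with hρ'
  have hval : ∀ (x : G) (hx : x ∈ E), ρ' x = ρ ⟨x, hx⟩ := fun x hx => by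
    simp only [hρ', hx, dif_pos]
  have hrp : Rp (1 : Module.End ℂ (Fin d → ℂ)) ∅ E ρ' := by
    refine ⟨?_, ?_, ?_⟩
    · rw [hval 1 E.one_mem]
      exact map_one ρ
    · intro x hx y hy
      rw [hval x hx, hval y hy, hval (x * y) (E.mul_mem hx hy), ← map_mul]
      rfl
    · intro x _
      exact ⟨one_mul _, mul_one _, fun s hs => absurd hs (Set.notMem_empty s)⟩
  have hcor : ∀ b : Module.End ℂ (Fin d → ℂ), Cor (1 : Module.End ℂ (Fin d → ℂ)) ∅ b := fun b =>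
    ⟨one_mul _, mul_one _, fun s hs => absurd hs (Set.notMem_empty s)⟩
  have hschur : ∀ b : Module.End ℂ (Fin d → ℂ), (∀ x ∈ E, b * ρ' x = ρ' x * b) →
      ∃ c : ℂ, b = c • (1 : Module.End ℂ (Fin d → ℂ)) := by
    intro b hb
    refine exists_smul_one_of_commute ρ hρ b fun g => ?_
    have := hb g g.2
    rw [hval g g.2] at this
    exact this
  have hcen : ∀ x ∈ E, (∀ y ∈ E, x * y = y * x) →
      ∃ c : ℂ, ρ' x = c • (1 : Module.End ℂ (Fin d → ℂ)) := by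
    intro x hx hxc
    refine hschur _ fun y hy => ?_
    rw [← hrp.mul x hx y hy, ← hrp.mul y hy x hx, hxc y hy]
  have himp : ∀ g : G, HasImp (1 : Module.End ℂ (Fin d → ℂ)) ∅ E ρ' g := by
    intro g
    refine ⟨T g, ((T g)⁻¹ : (Module.End ℂ (Fin d → ℂ))ˣ), hcor _, hcor _, Units.mul_inv _,
      Units.inv_mul _, ?_⟩
    intro x hx
    rw [hval x hx, hval _ (hEn.conj_mem x hx g)]
    exact hT.inter g ⟨x, hx⟩
  have hnorm : ∀ X : Subgroup G, X ≤ normalizer (E : Set G) := fun X => by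
    rw [normalizer_eq_top (H := E)]; exact le_top
  have hdt : Dt E K P (1 : Module.End ℂ (Fin d → ℂ)) ∅ ρ' := by
    refine ⟨one_ne_zero, ⟨hrp, ?_, ?_⟩, hE.1.1, hP2, hKodd, hnorm K, hnorm P, ?_, fun g _ => himp g,
      fun g _ => himp g, ?_⟩
    · intro b _ hb
      exact hschur b hb
    · intro x hx y hy
      exact hcen _ (E.mul_mem (E.mul_mem (E.mul_mem hx hy) (E.inv_mem hx)) (E.inv_mem hy))
        (hc2 x hx y hy)
    · exact le_normalizer_of fun g hg x hx => hKn g (hPH hg) x hx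
    · intro x hx hfx
      exact hcen x hx (fixed_central hE hEK hx hfx)
  obtain ⟨T', hT', hT2⟩ := main _ E K P 1 ∅ ρ' rfl hdt
  refine ⟨T', hT'.one, hT'.mul, fun p hp n => ?_⟩
  have := hT2 p hp n n.2
  rw [hval n n.2, hval _ (hEn.conj_mem (n : G) n.2 p)] at this
  exact this

end Top

end Cfsg.Agent.H9.Dade
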