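import Cfsg.Agent.H9.Dade1

/-!
# Dade's extension theorem for extraspecial 2-groups, tensor products (owner: helper9)
-/

set_option autoImplicit false
set_option linter.unusedSectionVars false

namespace Cfsg.Agent.H9.Dade

open Subgroup

variable {Γ : Type*} [Group Γ] [Finite Γ] {B : Type*} [Ring B] [Algebra ℂ B]

/-- `u` implements `g` on `E`. -/
def Imp (E : Subgroup Γ) (ρ : Γ → B) (g : Γ) (u : B) : Prop :=
  ∀ x ∈ E, u * ρ x = ρ (g * x * g⁻¹) * u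

/-- `g` has an invertible implementer. -/
def HasImp (e : B) (S : Set B) (E : Subgroup Γ) (ρ : Γ → B) (g : Γ) : Prop :=
  ∃ u u' : B, Cor e S u ∧ Cor e S u' ∧ u * u' = e ∧ u' * u = e ∧ Imp E ρ g u

/-- irreducible configurations with scalar commutators -/
structure Cf (e : B) (S : Set B) (E : Subgroup Γ) (ρ : Γ → B) : Prop extends Rp e S E ρ where
  schur : ∀ b, Cor e S b → (∀ x ∈ E, b * ρ x = ρ x * b) → ∃ c : ℂ, b = c • e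
  csc : CommSc e E ρ

/-- the conclusion -/
def ExtP (e : B) (S : Set B) (E : Subgroup Γ) (ρ : Γ → B) (P : Subgroup Γ) : Prop :=
  ∃ T : Γ → B, Rp e S P T ∧ ∀ p ∈ P, Imp E ρ p (T p)

variable {e : B} {S : Set B} {E E₁ E₂ P : Subgroup Γ} {ρ : Γ → B}

theorem imp_inv {g : Γ} (hρ : Rp e S E ρ) (hg : g ∈ normalizer (E : Set Γ)) {u u' : B}
    (_ : Cor e S u') (h1 : u * u' = e) (h2 : u' * u = e) (h : Imp E ρ g u) :
    Imp E ρ g⁻¹ u' := by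
  intro x hx
  have hx' : g⁻¹ * x * g⁻¹⁻¹ ∈ E := (mem_normalizer_iff.1 (inv_mem hg) x).1 hx
  have h3 := h _ hx'
  have h4 : g * (g⁻¹ * x * g⁻¹⁻¹) * g⁻¹ = x := by group
  rw [h4] at h3
  calc u' * ρ x = u' * ρ x * (u * u') := by
        rw [h1, mul_assoc, (hρ.cor x hx).right]
    _ = u' * (ρ x * u) * u' := by simp only [mul_assoc]
    _ = (u' * u) * ρ (g⁻¹ * x * g⁻¹⁻¹) * u' := by rw [← h3]; simp only [mul_assoc]
    _ = ρ (g⁻¹ * x * g⁻¹⁻¹) * u' := by rw [h2, (hρ.cor _ hx').left]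

theorem imp_eq {g : Γ} (hρ : Rp e S E ρ) (hg : g ∈ normalizer (E : Set Γ)) {u u' : B}
    (h1 : u * u' = e) (h : Imp E ρ g u) {x : Γ} (hx : x ∈ E) :
    ρ (g * x * g⁻¹) = u * ρ x * u' := by
  have hx' : g * x * g⁻¹ ∈ E := (mem_normalizer_iff.1 hg x).1 hx
  rw [h x hx, mul_assoc (ρ (g * x * g⁻¹)) u u', h1, (hρ.cor _ hx').right]

theorem sc_conj {g : Γ} (hρ : Rp e S E ρ) (hg : g ∈ normalizer (E : Set Γ))
    (h : HasImp e S E ρ g) {x : Γ} (hx : x ∈ E) {c : ℂ} (hc : ρ x = c • e) :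
    ρ (g * x * g⁻¹) = c • e := by
  obtain ⟨u, u', hu, hu', h1, h2, h3⟩ := h
  rw [imp_eq hρ hg h1 h3 hx, hc, mul_smul_comm, hu.right, smul_mul_assoc, h1]

theorem imp_mul {g k : Γ} (hk : k ∈ normalizer (E : Set Γ)) {u v : B} (hu : Imp E ρ g u)
    (hv : Imp E ρ k v) : Imp E ρ (g * k) (u * v) := by
  intro x hx
  have hx' : k * x * k⁻¹ ∈ E := (mem_normalizer_iff.1 hk x).1 hx
  rw [mul_assoc, hv x hx, ← mul_assoc, hu _ hx', mul_assoc]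
  congr 2
  group

theorem Cf.nd_of_factor (h : Cf e S E ρ) (h1 : E₁ ≤ E) (h2 : E₂ ≤ E)
    (hE : ∀ x ∈ E, ∃ x₁ ∈ E₁, ∃ x₂ ∈ E₂, x = x₁ * x₂)
    (hc : ∀ x ∈ E₁, ∀ y ∈ E₂, ρ x * ρ y = ρ y * ρ x) : ND e E₂ ρ := by
  intro y hy hyc
  refine h.schur (ρ y) (h.cor y (h2 hy)) fun x hx => ?_
  obtain ⟨x₁, hx₁, x₂, hx₂, rfl⟩ := hE x hx
  rw [h.mul _ (h1 hx₁) _ (h2 hx₂), ← mul_assoc, ← hc x₁ hx₁ y hy, mul_assoc, ← hyc x₂ hx₂,
    mul_assoc]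

theorem comm_factor (h : Cf e S E ρ) (h1 : E₁ ≤ E) (h2 : E₂ ≤ E)
    (hE : ∀ x ∈ E, ∃ x₁ ∈ E₁, ∃ x₂ ∈ E₂, x = x₁ * x₂) {b : B} (hb1 : ∀ x ∈ E₁, b * ρ x = ρ x * b)
    (hb2 : ∀ x ∈ E₂, b * ρ x = ρ x * b) (x : Γ) (hx : x ∈ E) : b * ρ x = ρ x * b := by
  obtain ⟨x₁, hx₁, x₂, hx₂, rfl⟩ := hE x hx
  rw [h.mul _ (h1 hx₁) _ (h2 hx₂), ← mul_assoc, hb1 x₁ hx₁, mul_assoc, hb2 x₂ hx₂, mul_assoc]

theorem Cf.factor (h : Cf e S E ρ) (h1 : E₁ ≤ E) (h2 : E₂ ≤ E)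
    (hE : ∀ x ∈ E, ∃ x₁ ∈ E₁, ∃ x₂ ∈ E₂, x = x₁ * x₂)
    (hc : ∀ x ∈ E₁, ∀ y ∈ E₂, ρ x * ρ y = ρ y * ρ x) :
    Cf e (S ∪ ρ '' (E₂ : Set Γ)) E₁ ρ where
  one := h.one
  mul := fun x hx y hy => h.mul x (h1 hx) y (h1 hy)
  cor := fun x hx => ⟨(h.cor x (h1 hx)).left, (h.cor x (h1 hx)).right, by
    rintro s (hs | ⟨y, hy, rfl⟩)
    · exact (h.cor x (h1 hx)).comm s hs
    · exact (hc x hx y hy).symm⟩
  schur := fun b hb hb1 => h.schur b (hb.mono Set.subset_union_left)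
    (comm_factor h h1 h2 hE hb1 fun x hx => (hb.comm (ρ x) (Or.inr ⟨x, hx, rfl⟩)).symm)
  csc := fun x hx y hy => h.csc x (h1 hx) y (h1 hy)

theorem factor_imp (he : e ≠ 0) (h : Cf e S E ρ) (h1 : E₁ ≤ E) (h2 : E₂ ≤ E)
    (hE : ∀ x ∈ E, ∃ x₁ ∈ E₁, ∃ x₂ ∈ E₂, x = x₁ * x₂)
    (hc : ∀ x ∈ E₁, ∀ y ∈ E₂, ρ x * ρ y = ρ y * ρ x) {g : Γ}
    (hg : g ∈ normalizer (E : Set Γ)) (hg1 : g ∈ normalizer (E₁ : Set Γ))
    (hi : HasImp e S E ρ g) : HasImp e (S ∪ ρ '' (E₂ : Set Γ)) E₁ ρ g := by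
  classical
  obtain ⟨U, U', hU, hU', hUU', hU'U, hUi⟩ := hi
  have hU'i := imp_inv h.toRp hg hU' hUU' hU'U hUi
  have hr2 : Rp e S E₂ ρ := h.toRp.mono_left h2 subset_rfl
  have hcs2 : CommSc e E₂ ρ := fun x hx y hy => h.csc x (h2 hx) y (h2 hy)
  obtain ⟨N, hN, hrec⟩ := reconstruct hr2 hcs2 (h.nd_of_factor h1 h2 hE hc)
  -- the averaged operators
  have key : ∀ (V : B), Cor e S V → ∀ b ∈ E₂, Cor e (S ∪ ρ '' (E₂ : Set Γ)) (av E₂ ρ (V * ρ b)) := by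
    intro V hV b hb
    have h3 := av_cor hr2 (hV.mul (h.cor b (h2 hb)))
    refine ⟨h3.left, h3.right, ?_⟩
    rintro s (hs | ⟨y, hy, rfl⟩)
    · exact h3.comm s hs
    · exact (av_comm hr2 _ hy).symm
  have keyi : ∀ (V : B) (k : Γ), k ∈ normalizer (E₁ : Set Γ) → Imp E ρ k V → ∀ b ∈ E₂,
      Imp E₁ ρ k (av E₂ ρ (V * ρ b)) := by
    intro V k hk hV b hb x hx
    have hx' : k * x * k⁻¹ ∈ E₁ := (mem_normalizer_iff.1 hk x).1 hx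
    rw [← av_mul_right E₂ _ _ (fun y hy => hc x hx y hy),
      ← av_mul_left E₂ _ _ (fun y hy => hc _ hx' y hy)]
    congr 1
    rw [mul_assoc, ← hc x hx b hb, ← mul_assoc, hV x (h1 hx), mul_assoc]
  -- some `u_b` is nonzero
  have hUne : U ≠ 0 := by
    intro h0
    apply he
    rw [← hUU', h0, zero_mul]
  obtain ⟨b, hb, hub⟩ : ∃ b ∈ E₂, av E₂ ρ (U * ρ b) ≠ 0 := by
    by_contra hcon
    push Not at hcon
    have h3 := hrec U hU.left hU.right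
    rw [Finset.sum_eq_zero] at h3
    · rcases smul_eq_zero.1 h3.symm with h4 | h4
      · exact hN h4
      · exact hUne h4
    · intro y hy
      rw [hcon y (mem_fs.1 hy), zero_mul]
  set u := av E₂ ρ (U * ρ b) with hu
  have huc := key U hU b hb
  have hui := keyi U g hg1 hUi b hb
  rw [← hu] at huc hui
  obtain ⟨b', hb', hub'⟩ : ∃ b' ∈ E₂, u * av E₂ ρ (U' * ρ b') ≠ 0 := by
    by_contra hcon
    push Not at hcon
    have h3 := hrec U' hU'.left hU'.right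
    have h4 : u * (N • U') = 0 := by
      rw [← h3, Finset.mul_sum]
      refine Finset.sum_eq_zero fun y hy => ?_
      rw [← mul_assoc, hcon y (mem_fs.1 hy), zero_mul]
    rw [mul_smul_comm] at h4
    rcases smul_eq_zero.1 h4 with h5 | h5
    · exact hN h5
    · apply hub
      rw [← huc.right, ← hU'U, ← mul_assoc, h5, zero_mul]
  set u' := av E₂ ρ (U' * ρ b') with hu'
  have hu'c := key U' hU' b' hb'
  have hu'i := keyi U' g⁻¹ (inv_mem hg1) hU'i b' hb'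
  rw [← hu'] at hu'c hu'i
  have hsch : ∀ w, Cor e (S ∪ ρ '' (E₂ : Set Γ)) w → (∀ x ∈ E₁, w * ρ x = ρ x * w) →
      ∃ c : ℂ, w = c • e := (h.factor h1 h2 hE hc).schur
  obtain ⟨c, hc1⟩ := hsch (u * u') (huc.mul hu'c) (by
    intro x hx
    have := imp_mul (inv_mem hg1) hui hu'i x hx
    rwa [mul_inv_cancel, one_mul, inv_one, mul_one] at this)
  obtain ⟨c', hc2⟩ := hsch (u' * u) (hu'c.mul huc) (by
    intro x hx
    have := imp_mul hg1 hu'i hui x hx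
    rwa [inv_mul_cancel, one_mul, inv_one, mul_one] at this)
  have hc0 : c ≠ 0 := by
    rintro rfl
    rw [zero_smul] at hc1
    exact hub' hc1
  have hcc : c = c' := by
    have h3 : c • u = c' • u := by
      calc c • u = (c • e) * u := by rw [smul_mul_assoc, huc.left]
        _ = u * (u' * u) := by rw [← hc1, mul_assoc]
        _ = c' • u := by rw [hc2, mul_smul_comm, huc.right]
    have h4 : (c - c') • u = 0 := by rw [sub_smul, h3, sub_self]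
    rcases smul_eq_zero.1 h4 with h5 | h5
    · exact sub_eq_zero.1 h5
    · exact absurd h5 hub
  refine ⟨u, c⁻¹ • u', huc, hu'c.smul _, ?_, ?_, hui⟩
  · rw [mul_smul_comm, hc1, smul_smul, inv_mul_cancel₀ hc0, one_smul]
  · rw [smul_mul_assoc, hc2, ← hcc, smul_smul, inv_mul_cancel₀ hc0, one_smul]

theorem factor_commute (h : Cf e S E ρ) (h1 : E₁ ≤ E) (h2 : E₂ ≤ E)
    (hE : ∀ x ∈ E, ∃ x₁ ∈ E₁, ∃ x₂ ∈ E₂, x = x₁ * x₂)
    (hE' : ∀ x ∈ E, ∃ x₁ ∈ E₂, ∃ x₂ ∈ E₁, x = x₁ * x₂)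
    (hc : ∀ x ∈ E₁, ∀ y ∈ E₂, ρ x * ρ y = ρ y * ρ x) {a b : B}
    (hb : Cor e (S ∪ ρ '' (E₂ : Set Γ)) b) (ha : Cor e (S ∪ ρ '' (E₁ : Set Γ)) a) :
    a * b = b * a := by
  classical
  have hr1 : Rp e S E₁ ρ := h.toRp.mono_left h1 subset_rfl
  have hcs1 : CommSc e E₁ ρ := fun x hx y hy => h.csc x (h1 hx) y (h1 hy)
  have hnd1 : ND e E₁ ρ := h.nd_of_factor h2 h1 hE' (fun x hx y hy => (hc y hy x hx).symm)
  obtain ⟨N, hN, hrec⟩ := reconstruct hr1 hcs1 hnd1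
  have h3 := hrec b hb.left hb.right
  have hsc : ∀ x ∈ E₁, ∃ c : ℂ, av E₁ ρ (b * ρ x) = c • e := by
    intro x hx
    refine h.schur _ (av_cor hr1 ((hb.mono Set.subset_union_left).mul (h.cor x (h1 hx)))) ?_
    refine comm_factor h h1 h2 hE (fun y hy => av_comm hr1 _ hy) fun y hy => ?_
    rw [← av_mul_right E₁ _ _ (fun z hz => (hc z hz y hy).symm),
      ← av_mul_left E₁ _ _ (fun z hz => (hc z hz y hy).symm)]
    congr 1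
    rw [mul_assoc, hc x hx y hy, ← mul_assoc, ← hb.comm (ρ y) (Or.inr ⟨y, hy, rfl⟩), mul_assoc]
  have h4 : N • (a * b) = N • (b * a) := by
    rw [← mul_smul_comm, ← smul_mul_assoc, ← h3, Finset.mul_sum, Finset.sum_mul]
    refine Finset.sum_congr rfl fun x hx => ?_
    have hx := mem_fs.1 hx
    obtain ⟨c, hcx⟩ := hsc x hx
    have hax := ha.comm (ρ x⁻¹) (Or.inr ⟨x⁻¹, E₁.inv_mem hx, rfl⟩)
    have hx' := (h.cor _ (h1 (E₁.inv_mem hx))).left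
    rw [hcx, smul_mul_assoc, hx', mul_smul_comm, smul_mul_assoc, hax]
  exact smul_right_injective B hN h4

theorem factor_combine (h : Cf e S E ρ) (h1 : E₁ ≤ E) (h2 : E₂ ≤ E)
    (hE : ∀ x ∈ E, ∃ x₁ ∈ E₁, ∃ x₂ ∈ E₂, x = x₁ * x₂)
    (hE' : ∀ x ∈ E, ∃ x₁ ∈ E₂, ∃ x₂ ∈ E₁, x = x₁ * x₂)
    (hc : ∀ x ∈ E₁, ∀ y ∈ E₂, ρ x * ρ y = ρ y * ρ x)
    (hP1 : P ≤ normalizer (E₁ : Set Γ)) (hP2 : P ≤ normalizer (E₂ : Set Γ))
    {T₁ T₂ : Γ → B}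
    (hT1 : Rp e (S ∪ ρ '' (E₂ : Set Γ)) P T₁) (hi1 : ∀ p ∈ P, Imp E₁ ρ p (T₁ p))
    (hT2 : Rp e (S ∪ ρ '' (E₁ : Set Γ)) P T₂) (hi2 : ∀ p ∈ P, Imp E₂ ρ p (T₂ p)) :
    Rp e S P (fun p => T₁ p * T₂ p) ∧ ∀ p ∈ P, Imp E ρ p (T₁ p * T₂ p) := by
  have hcm : ∀ p ∈ P, ∀ q ∈ P, T₂ p * T₁ q = T₁ q * T₂ p := fun p hp q hq =>
    factor_commute h h1 h2 hE hE' hc (hT1.cor q hq) (hT2.cor p hp)
  refine ⟨⟨?_, ?_, ?_⟩, ?_⟩
  · change T₁ 1 * T₂ 1 = e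
    rw [hT1.one, hT2.one, h.idem]
  · intro p hp q hq
    change T₁ (p * q) * T₂ (p * q) = T₁ p * T₂ p * (T₁ q * T₂ q)
    rw [hT1.mul p hp q hq, hT2.mul p hp q hq]
    calc T₁ p * T₁ q * (T₂ p * T₂ q) = T₁ p * (T₁ q * T₂ p) * T₂ q := by simp only [mul_assoc]
      _ = T₁ p * (T₂ p * T₁ q) * T₂ q := by rw [hcm p hp q hq]
      _ = _ := by simp only [mul_assoc]
  · intro p hp
    exact ((hT1.cor p hp).mono Set.subset_union_left).mul ((hT2.cor p hp).mono Set.subset_union_left)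
  · intro p hp x hx
    obtain ⟨x₁, hx₁, x₂, hx₂, rfl⟩ := hE x hx
    have hx₁' : p * x₁ * p⁻¹ ∈ E₁ := (mem_normalizer_iff.1 (hP1 hp) x₁).1 hx₁
    have hx₂' : p * x₂ * p⁻¹ ∈ E₂ := (mem_normalizer_iff.1 (hP2 hp) x₂).1 hx₂
    have e1 : p * (x₁ * x₂) * p⁻¹ = (p * x₁ * p⁻¹) * (p * x₂ * p⁻¹) := by group
    rw [e1, h.mul _ (h1 hx₁) _ (h2 hx₂), h.mul _ (h1 hx₁') _ (h2 hx₂')]
    have c1 := (hT2.cor p hp).comm (ρ x₁) (Or.inr ⟨x₁, hx₁, rfl⟩)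
    have c2 := (hT1.cor p hp).comm (ρ (p * x₂ * p⁻¹)) (Or.inr ⟨_, hx₂', rfl⟩)
    calc T₁ p * T₂ p * (ρ x₁ * ρ x₂) = T₁ p * (T₂ p * ρ x₁) * ρ x₂ := by simp only [mul_assoc]
      _ = (T₁ p * ρ x₁) * (T₂ p * ρ x₂) := by rw [← c1]; simp only [mul_assoc]
      _ = ρ (p * x₁ * p⁻¹) * (T₁ p * ρ (p * x₂ * p⁻¹)) * T₂ p := by
          rw [hi1 p hp x₁ hx₁, hi2 p hp x₂ hx₂]; simp only [mul_assoc]
      _ = _ := by rw [← c2]; simp only [mul_assoc]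

end Cfsg.Agent.H9.Dade
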