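import Cfsg.Agent.H9.Dade2

/-!
# Dade's extension theorem for extraspecial 2-groups, isotropic reduction (owner: helper9)
-/

set_option autoImplicit false
set_option linter.unusedSectionVars false

namespace Cfsg.Agent.H9.Dade

open Subgroup

variable {Γ : Type*} [Group Γ] [Finite Γ] {B : Type*} [Ring B] [Algebra ℂ B]
variable {e : B} {S : Set B} {E A P : Subgroup Γ} {ρ : Γ → B}

theorem Rp.comm_inv (h : Rp e S E ρ) {x : Γ} (hx : x ∈ E) {b : B} (hb1 : e * b = b)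
    (hb2 : b * e = b) (hc : b * ρ x = ρ x * b) : b * ρ x⁻¹ = ρ x⁻¹ * b := by
  calc b * ρ x⁻¹ = (ρ x⁻¹ * ρ x) * b * ρ x⁻¹ := by rw [h.inv_mul hx, hb1]
    _ = ρ x⁻¹ * (b * ρ x) * ρ x⁻¹ := by rw [hc]; simp only [mul_assoc]
    _ = ρ x⁻¹ * b * (ρ x * ρ x⁻¹) := by simp only [mul_assoc]
    _ = ρ x⁻¹ * b := by rw [h.mul_inv hx, mul_assoc, hb2]

/-- the orthogonal of `A` in `E` -/
def perp (h : Rp e S E ρ) (A : Subgroup Γ) (hA : A ≤ E) : Subgroup Γ where
  carrier := {x | x ∈ E ∧ ∀ a ∈ A, ρ x * ρ a = ρ a * ρ x}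
  one_mem' := ⟨E.one_mem, fun a ha => by
    rw [h.one, (h.cor a (hA ha)).left, (h.cor a (hA ha)).right]⟩
  mul_mem' := by
    rintro x y ⟨hx, hx'⟩ ⟨hy, hy'⟩
    refine ⟨E.mul_mem hx hy, fun a ha => ?_⟩
    rw [h.mul x hx y hy, mul_assoc, hy' a ha, ← mul_assoc, hx' a ha, mul_assoc]
  inv_mem' := by
    rintro x ⟨hx, hx'⟩
    refine ⟨E.inv_mem hx, fun a ha => ?_⟩
    exact (h.comm_inv hx (h.cor a (hA ha)).left (h.cor a (hA ha)).right (hx' a ha).symm).symm

theorem mem_perp {h : Rp e S E ρ} {hA : A ≤ E} {x : Γ} :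
    x ∈ perp h A hA ↔ x ∈ E ∧ ∀ a ∈ A, ρ x * ρ a = ρ a * ρ x := Iff.rfl

theorem perp_le {h : Rp e S E ρ} {hA : A ≤ E} : perp h A hA ≤ E := fun _ hx => hx.1

theorem perp_normalized (h : Rp e S E ρ) (hA : A ≤ E) {g : Γ} (hg : g ∈ normalizer (E : Set Γ))
    (hgA : g ∈ normalizer (A : Set Γ)) (hi : HasImp e S E ρ g) {x : Γ} (hx : x ∈ perp h A hA) :
    g * x * g⁻¹ ∈ perp h A hA := by
  obtain ⟨u, u', hu, hu', h1, h2, h3⟩ := hi
  refine ⟨(mem_normalizer_iff.1 hg x).1 hx.1, fun a ha => ?_⟩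
  have ha' : g⁻¹ * a * g⁻¹⁻¹ ∈ A := (mem_normalizer_iff.1 (inv_mem hgA) a).1 ha
  obtain ⟨b, hb, rfl⟩ : ∃ b ∈ A, a = g * b * g⁻¹ := ⟨_, ha', by group⟩
  rw [imp_eq h hg h1 h3 hx.1, imp_eq h hg h1 h3 (hA hb)]
  have h4 := hx.2 b hb
  calc u * ρ x * u' * (u * ρ b * u') = u * (ρ x * ((u' * u) * ρ b)) * u' := by
        simp only [mul_assoc]
    _ = u * (ρ x * ρ b) * u' := by rw [h2, (h.cor b (hA hb)).left]
    _ = u * (ρ b * ((u' * u) * ρ x)) * u' := by rw [h4, h2, (h.cor x hx.1).left]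
    _ = u * ρ b * u' * (u * ρ x * u') := by simp only [mul_assoc]

/-- an invariant linear character of the isotropic subgroup `A` -/
structure Lam (e : B) (A : Subgroup Γ) (ρ : Γ → B) (l : Γ → ℂ) : Prop where
  one : l 1 = 1
  mul : ∀ a ∈ A, ∀ b ∈ A, l (a * b) = l a * l b
  sc : ∀ a ∈ A, ∀ c : ℂ, ρ a = c • e → l a = c

theorem Lam.ne_zero {l : Γ → ℂ} (hl : Lam e A ρ l) {a : Γ} (ha : a ∈ A) : l a ≠ 0 := by
  intro h
  have h1 := hl.mul a ha a⁻¹ (A.inv_mem ha)
  rw [mul_inv_cancel, hl.one, h, zero_mul] at h1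
  exact one_ne_zero h1

theorem Lam.inv_mul {l : Γ → ℂ} (hl : Lam e A ρ l) {a : Γ} (ha : a ∈ A) : l a⁻¹ * l a = 1 := by
  rw [← hl.mul _ (A.inv_mem ha) _ ha, inv_mul_cancel, hl.one]

/-- the idempotent -/
noncomputable def idl (A : Subgroup Γ) (ρ : Γ → B) (l : Γ → ℂ) : B :=
  (Nat.card A : ℂ)⁻¹ • ∑ a ∈ fs A, l a⁻¹ • ρ a

variable {l : Γ → ℂ}

theorem mul_idl (h : Rp e S E ρ) (hA : A ≤ E) (hl : Lam e A ρ l) {a : Γ} (ha : a ∈ A) :
    ρ a * idl A ρ l = l a • idl A ρ l := by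
  unfold idl
  rw [mul_smul_comm, smul_comm (l a)]
  congr 1
  rw [Finset.mul_sum, ← sum_left ha (fun y => l y⁻¹ • ρ y), Finset.smul_sum]
  refine Finset.sum_congr rfl fun b hb => ?_
  have hb := mem_fs.1 hb
  rw [mul_smul_comm, ← h.mul a (hA ha) b (hA hb), smul_smul]
  congr 1
  rw [mul_inv_rev, hl.mul _ (A.inv_mem hb) _ (A.inv_mem ha)]
  have := hl.inv_mul ha
  calc l b⁻¹ = l b⁻¹ * (l a⁻¹ * l a) := by rw [this, mul_one]
    _ = _ := by ring

theorem idl_mul (h : Rp e S E ρ) (hA : A ≤ E) (hl : Lam e A ρ l) {a : Γ} (ha : a ∈ A) :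
    idl A ρ l * ρ a = l a • idl A ρ l := by
  unfold idl
  rw [smul_mul_assoc, smul_comm (l a)]
  congr 1
  rw [Finset.sum_mul, ← sum_right ha (fun y => l y⁻¹ • ρ y), Finset.smul_sum]
  refine Finset.sum_congr rfl fun b hb => ?_
  have hb := mem_fs.1 hb
  rw [smul_mul_assoc, ← h.mul b (hA hb) a (hA ha), smul_smul]
  congr 1
  rw [mul_inv_rev, hl.mul _ (A.inv_mem ha) _ (A.inv_mem hb)]
  have := hl.inv_mul ha
  calc l b⁻¹ = (l a⁻¹ * l a) * l b⁻¹ := by rw [this, one_mul]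
    _ = _ := by ring

theorem idl_cor (h : Rp e S E ρ) (hA : A ≤ E) (l : Γ → ℂ) : Cor e S (idl A ρ l) :=
  (Cor.sum _ _ fun a ha => (h.cor a (hA (mem_fs.1 ha))).smul _).smul _

theorem idl_idem (h : Rp e S E ρ) (hA : A ≤ E) (hl : Lam e A ρ l) :
    idl A ρ l * idl A ρ l = idl A ρ l := by
  conv_lhs => lhs; unfold idl
  rw [smul_mul_assoc, Finset.sum_mul]
  have h1 : ∀ a ∈ fs A, (l a⁻¹ • ρ a) * idl A ρ l = idl A ρ l := by
    intro a ha
    have ha := mem_fs.1 ha
    rw [smul_mul_assoc, mul_idl h hA hl ha, smul_smul, hl.inv_mul ha, one_smul]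
  rw [Finset.sum_congr rfl h1, Finset.sum_const, card_fs, ← Nat.cast_smul_eq_nsmul ℂ, smul_smul,
    inv_mul_cancel₀ (Nat.cast_ne_zero.2 Nat.card_pos.ne'), one_smul]

theorem idl_ne_zero (he : e ≠ 0) (h : Cf e S E ρ) (hA : A ≤ E) (hl : Lam e A ρ l) :
    idl A ρ l ≠ 0 := by
  classical
  intro h0
  have h1 : av E ρ (∑ a ∈ fs A, l a⁻¹ • ρ a) = 0 := by
    have h2 : ∑ a ∈ fs A, l a⁻¹ • ρ a = 0 := by
      unfold idl at h0
      rcases smul_eq_zero.1 h0 with h3 | h3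
      · exact absurd h3 (inv_ne_zero (Nat.cast_ne_zero.2 Nat.card_pos.ne'))
      · exact h3
    rw [h2]
    unfold av
    simp
  have h2 : av E ρ (∑ a ∈ fs A, l a⁻¹ • ρ a) = ∑ a ∈ fs A, l a⁻¹ • av E ρ (ρ a) := by
    unfold av
    simp only [Finset.mul_sum, Finset.sum_mul, Finset.smul_sum]
    rw [Finset.sum_comm]
    refine Finset.sum_congr rfl fun a _ => Finset.sum_congr rfl fun y _ => ?_
    rw [mul_smul_comm, smul_mul_assoc]
  have h3 : ∀ a ∈ fs A, l a⁻¹ • av E ρ (ρ a) =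
      if (∀ x ∈ E, ρ a * ρ x = ρ x * ρ a) then (Nat.card E : ℂ) • e else 0 := by
    intro a ha
    have ha := mem_fs.1 ha
    split_ifs with hc
    · obtain ⟨c, hca⟩ := h.schur _ (h.cor a (hA ha)) hc
      rw [av_of_comm h.toRp ((h.cor a (hA ha)).mono (Set.empty_subset _)) hc, hca, smul_smul,
        smul_smul, ← hl.sc a ha c hca]
      congr 1
      have := hl.inv_mul ha
      calc l a⁻¹ * (Nat.card E : ℂ) * l a = (l a⁻¹ * l a) * Nat.card E := by ring
        _ = _ := by rw [this, one_mul]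
    · push Not at hc
      obtain ⟨x, hx, hxy⟩ := hc
      rw [av_eq_zero h.toRp h.csc (hA ha) hx (fun h => hxy h.symm), smul_zero]
  rw [h2, Finset.sum_congr rfl h3, ← Finset.sum_filter, Finset.sum_const,
    ← Nat.cast_smul_eq_nsmul ℂ, smul_smul] at h1
  rcases smul_eq_zero.1 h1 with h4 | h4
  · rcases mul_eq_zero.1 h4 with h5 | h5
    · rw [Nat.cast_eq_zero, Finset.card_eq_zero] at h5
      have h6 : (1 : Γ) ∈ (fs A).filter fun a => ∀ x ∈ E, ρ a * ρ x = ρ x * ρ a :=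
        Finset.mem_filter.2 ⟨mem_fs.2 A.one_mem, fun x hx => by
          rw [h.one, (h.cor x hx).left, (h.cor x hx).right]⟩
      rw [h5] at h6
      simp at h6
    · exact Nat.card_pos.ne' (Nat.cast_eq_zero.1 h5)
  · exact he h4

theorem idl_kill (h : Cf e S E ρ) (hA : A ≤ E) (hl : Lam e A ρ l) {x : Γ} (hx : x ∈ E)
    (hxp : x ∉ perp h.toRp A hA) : idl A ρ l * ρ x * idl A ρ l = 0 := by
  have h1 : ∃ a ∈ A, ρ x * ρ a ≠ ρ a * ρ x := by
    by_contra hcon
    push Not at hcon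
    exact hxp ⟨hx, hcon⟩
  obtain ⟨a, ha, hne⟩ := h1
  obtain ⟨c, hc⟩ := conj_eq_smul h.toRp h.csc (hA ha) hx
  have h2 : ρ a * ρ x = c • (ρ x * ρ a) := by
    calc ρ a * ρ x = ρ a * ρ x * (ρ a⁻¹ * ρ a) := by
          rw [h.inv_mul (hA ha), mul_assoc, (h.cor x hx).right]
      _ = (ρ a * ρ x * ρ a⁻¹) * ρ a := by simp only [mul_assoc]
      _ = _ := by rw [hc, smul_mul_assoc]
  have hc1 : c ≠ 1 := by
    rintro rfl
    rw [one_smul] at h2
    exact hne h2.symm
  set f := idl A ρ l with hf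
  have h3 : l a • (f * ρ x * f) = (c * l a) • (f * ρ x * f) := by
    calc l a • (f * ρ x * f) = (f * ρ a) * ρ x * f := by
          rw [idl_mul h.toRp hA hl ha, smul_mul_assoc, smul_mul_assoc]
      _ = f * (ρ a * ρ x) * f := by simp only [mul_assoc]
      _ = c • (f * ρ x * (ρ a * f)) := by
          rw [h2, mul_smul_comm, smul_mul_assoc]; simp only [mul_assoc]
      _ = (c * l a) • (f * ρ x * f) := by
          rw [mul_idl h.toRp hA hl ha, mul_smul_comm, smul_smul]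
  have h4 : (l a - c * l a) • (f * ρ x * f) = 0 := by rw [sub_smul, ← h3, sub_self]
  rcases smul_eq_zero.1 h4 with h5 | h5
  · exfalso
    have h6 : (1 - c) * l a = 0 := by rw [← h5]; ring
    rcases mul_eq_zero.1 h6 with h7 | h7
    · exact hc1 (sub_eq_zero.1 h7).symm
    · exact hl.ne_zero ha h7
  · exact h5

theorem idl_perp (h : Rp e S E ρ) (hA : A ≤ E) (l : Γ → ℂ) {x : Γ} (hx : x ∈ perp h A hA) :
    idl A ρ l * ρ x = ρ x * idl A ρ l := by
  unfold idl
  rw [smul_mul_assoc, mul_smul_comm, Finset.sum_mul, Finset.mul_sum]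
  congr 1
  refine Finset.sum_congr rfl fun a ha => ?_
  rw [smul_mul_assoc, mul_smul_comm, hx.2 a (mem_fs.1 ha)]

theorem idl_cf (h : Cf e S E ρ) (hA : A ≤ E) (hl : Lam e A ρ l) :
    Cf (idl A ρ l) S (perp h.toRp A hA) (fun x => ρ x * idl A ρ l) := by
  set f := idl A ρ l with hf
  have hff : f * f = f := idl_idem h.toRp hA hl
  have hfc : Cor e S f := idl_cor h.toRp hA l
  have hcor : ∀ x ∈ perp h.toRp A hA, Cor f S (ρ x * f) := fun x hx =>
    ⟨by rw [← mul_assoc, idl_perp h.toRp hA l hx, mul_assoc, hff],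
     by rw [mul_assoc, hff], ((h.cor x hx.1).mul hfc).comm⟩
  refine ⟨⟨?_, ?_, hcor⟩, ?_, ?_⟩
  · change ρ 1 * f = f
    rw [h.one, hfc.left]
  · intro x hx y hy
    change ρ (x * y) * f = (ρ x * f) * (ρ y * f)
    rw [h.mul x hx.1 y hy.1]
    calc ρ x * ρ y * f = ρ x * (ρ y * f) := by rw [mul_assoc]
      _ = ρ x * (f * (ρ y * f)) := by rw [(hcor y hy).left]
      _ = _ := by simp only [mul_assoc]
  · intro b hb hbc
    have hbe : Cor e S b := by
      refine ⟨?_, ?_, hb.comm⟩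
      · rw [← hb.left, ← mul_assoc, hfc.left]
      · rw [← hb.right, mul_assoc, hfc.right]
    obtain ⟨c, hc⟩ := h.schur (av E ρ b) (av_cor h.toRp hbe) (fun x hx => av_comm h.toRp b hx)
    have h1 : f * av E ρ b * f = (Nat.card (perp h.toRp A hA) : ℂ) • b := by
      classical
      unfold av
      rw [Finset.mul_sum, Finset.sum_mul]
      have h2 : ∀ x ∈ fs E, f * (ρ x * b * ρ x⁻¹) * f = if x ∈ perp h.toRp A hA then b else 0 := by
        intro x hx
        have hx := mem_fs.1 hx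
        have h3 : f * (ρ x * b * ρ x⁻¹) * f = (f * ρ x * f) * b * (ρ x⁻¹ * f) := by
          conv_lhs => rw [← hb.left]
          simp only [mul_assoc]
        rw [h3]
        split_ifs with hxp
        · rw [idl_perp h.toRp hA l hxp, mul_assoc (ρ x) f f, hff, ← hbc x hxp, mul_assoc b]
          have h4 : ρ x * f * (ρ x⁻¹ * f) = f := by
            calc ρ x * f * (ρ x⁻¹ * f) = ρ x * (f * (ρ x⁻¹ * f)) := by simp only [mul_assoc]
              _ = ρ x * (ρ x⁻¹ * f) := by rw [(hcor _ (inv_mem hxp)).left]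
              _ = (ρ x * ρ x⁻¹) * f := by simp only [mul_assoc]
              _ = f := by rw [h.mul_inv hx, hfc.left]
          rw [h4, hb.right]
        · rw [idl_kill h hA hl hx hxp, zero_mul, zero_mul]
      rw [Finset.sum_congr rfl h2, ← Finset.sum_filter, Finset.sum_const, ← Nat.cast_smul_eq_nsmul ℂ]
      congr 2
      rw [← card_fs]
      congr 1
      ext x
      rw [Finset.mem_filter, mem_fs, mem_fs]
      exact ⟨fun hx => hx.2, fun hx => ⟨hx.1, hx⟩⟩
    refine ⟨(Nat.card (perp h.toRp A hA) : ℂ)⁻¹ * c, ?_⟩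
    have h2 : (Nat.card (perp h.toRp A hA) : ℂ) • b = c • f := by
      rw [← h1, hc, mul_smul_comm, smul_mul_assoc, hfc.right, hff]
    rw [mul_smul, ← h2, smul_smul, inv_mul_cancel₀ (Nat.cast_ne_zero.2 Nat.card_pos.ne'), one_smul]
  · intro x hx y hy
    obtain ⟨c, hc⟩ := h.csc x hx.1 y hy.1
    refine ⟨c, ?_⟩
    change ρ (x * y * x⁻¹ * y⁻¹) * f = c • f
    rw [hc, smul_mul_assoc, hfc.left]

theorem imp_idl (h : Rp e S E ρ) (hA : A ≤ E) {g : Γ} (hgA : g ∈ normalizer (A : Set Γ))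
    (hlg : ∀ a ∈ A, l (g * a * g⁻¹) = l a) {u : B} (hu : Imp E ρ g u) :
    u * idl A ρ l = idl A ρ l * u := by
  unfold idl
  rw [mul_smul_comm, smul_mul_assoc, Finset.mul_sum, Finset.sum_mul]
  congr 1
  rw [← sum_conj hgA (fun a => l a⁻¹ • ρ a * u)]
  refine Finset.sum_congr rfl fun a ha => ?_
  have ha := mem_fs.1 ha
  have e1 : (g * a * g⁻¹)⁻¹ = g * a⁻¹ * g⁻¹ := by group
  rw [mul_smul_comm, hu a (hA ha), smul_mul_assoc, e1, hlg _ (A.inv_mem ha)]

theorem idl_hasImp (h : Rp e S E ρ) (hA : A ≤ E) (hl : Lam e A ρ l) {g : Γ}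
    (hgA : g ∈ normalizer (A : Set Γ))
    (hlg : ∀ a ∈ A, l (g * a * g⁻¹) = l a) (hi : HasImp e S E ρ g) :
    HasImp (idl A ρ l) S (perp h A hA) (fun x => ρ x * idl A ρ l) g := by
  obtain ⟨u, u', hu, hu', h1, h2, h3⟩ := hi
  set f := idl A ρ l with hf
  have hff : f * f = f := idl_idem h hA hl
  have hfc : Cor e S f := idl_cor h hA l
  have huf : u * f = f * u := imp_idl h hA hgA hlg h3
  have hu'f : u' * f = f * u' := by
    calc u' * f = u' * f * (u * u') := by rw [h1, mul_assoc, hfc.right]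
      _ = u' * (f * u) * u' := by simp only [mul_assoc]
      _ = (u' * u) * f * u' := by rw [← huf]; simp only [mul_assoc]
      _ = f * u' := by rw [h2, hfc.left]
  refine ⟨u * f, u' * f, ⟨?_, ?_, (hu.mul hfc).comm⟩, ⟨?_, ?_, (hu'.mul hfc).comm⟩, ?_, ?_, ?_⟩
  · rw [← mul_assoc, ← huf, mul_assoc, hff]
  · rw [mul_assoc, hff]
  · rw [← mul_assoc, ← hu'f, mul_assoc, hff]
  · rw [mul_assoc, hff]
  · calc u * f * (u' * f) = u * (f * u') * f := by simp only [mul_assoc]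
      _ = (u * u') * (f * f) := by rw [← hu'f]; simp only [mul_assoc]
      _ = f := by rw [h1, hff, hfc.left]
  · calc u' * f * (u * f) = u' * (f * u) * f := by simp only [mul_assoc]
      _ = (u' * u) * (f * f) := by rw [← huf]; simp only [mul_assoc]
      _ = f := by rw [h2, hff, hfc.left]
  · intro x hx
    change u * f * (ρ x * f) = ρ (g * x * g⁻¹) * f * (u * f)
    have hpx : f * ρ x = ρ x * f := idl_perp h hA l hx
    calc u * f * (ρ x * f) = u * (f * ρ x) * f := by simp only [mul_assoc]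
      _ = (u * ρ x) * (f * f) := by rw [hpx]; simp only [mul_assoc]
      _ = ρ (g * x * g⁻¹) * (u * f) * f := by rw [h3 x hx.1]; simp only [mul_assoc]
      _ = ρ (g * x * g⁻¹) * (f * u) * f := by rw [huf]
      _ = _ := by simp only [mul_assoc]

/-- lifting the extension back from the corner -/
theorem idl_lift (he : e ≠ 0) (h : Cf e S E ρ) (hA : A ≤ E) (hl : Lam e A ρ l)
    (hPE : P ≤ normalizer (E : Set Γ)) (hPA : P ≤ normalizer (A : Set Γ))
    (hlg : ∀ g ∈ P, ∀ a ∈ A, l (g * a * g⁻¹) = l a) (hi : ∀ g ∈ P, HasImp e S E ρ g)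
    (hx : ExtP (idl A ρ l) S (perp h.toRp A hA) (fun x => ρ x * idl A ρ l) P) :
    ExtP e S E ρ P := by
  obtain ⟨T₁, hT1, hT1i⟩ := hx
  have hcf := idl_cf h hA hl
  have hf0 := idl_ne_zero he h hA hl
  set f := idl A ρ l with hf
  have hff : f * f = f := idl_idem h.toRp hA hl
  have hfc : Cor e S f := idl_cor h.toRp hA l
  have hPp : P ≤ normalizer ((perp h.toRp A hA : Subgroup Γ) : Set Γ) := by
    intro p hp
    rw [mem_normalizer_iff]
    intro x
    constructor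
    · exact fun hx => perp_normalized h.toRp hA (hPE hp) (hPA hp) (hi p hp) hx
    · intro hx
      have := perp_normalized h.toRp hA (hPE (inv_mem hp)) (hPA (inv_mem hp)) (hi _ (inv_mem hp)) hx
      have e1 : p⁻¹ * (p * x * p⁻¹) * p⁻¹⁻¹ = x := by group
      rwa [e1] at this
  have key : ∀ p : Γ, ∃ t t' : B, p ∈ P → (Cor e S t ∧ Cor e S t' ∧ t * t' = e ∧ t' * t = e ∧
      Imp E ρ p t ∧ t * f = T₁ p) := by
    intro p
    by_cases hp : p ∈ P
    swap
    · exact ⟨0, 0, fun h => absurd h hp⟩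
    obtain ⟨u, u', hu, hu', h1, h2, h3⟩ := hi p hp
    have huf : u * f = f * u := imp_idl h.toRp hA (hPA hp) (hlg p hp) h3
    have hufc : Cor f S (u * f) := ⟨by rw [← mul_assoc, ← huf, mul_assoc, hff],
      by rw [mul_assoc, hff], (hu.mul hfc).comm⟩
    have hufi : Imp (perp h.toRp A hA) (fun x => ρ x * f) p (u * f) := by
      intro x hx
      change u * f * (ρ x * f) = ρ (p * x * p⁻¹) * f * (u * f)
      have hpx : f * ρ x = ρ x * f := idl_perp h.toRp hA l hx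
      calc u * f * (ρ x * f) = u * (f * ρ x) * f := by simp only [mul_assoc]
        _ = (u * ρ x) * (f * f) := by rw [hpx]; simp only [mul_assoc]
        _ = ρ (p * x * p⁻¹) * (u * f) * f := by rw [h3 x hx.1]; simp only [mul_assoc]
        _ = ρ (p * x * p⁻¹) * (f * u) * f := by rw [huf]
        _ = _ := by simp only [mul_assoc]
    have hprod := imp_mul (hPp (inv_mem hp)) hufi (hT1i _ (inv_mem hp))
    obtain ⟨c, hc⟩ := hcf.schur (u * f * T₁ p⁻¹) (hufc.mul (hT1.cor _ (inv_mem hp))) (by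
      intro x hx
      have := hprod x hx
      rwa [mul_inv_cancel, one_mul, inv_one, mul_one] at this)
    have h4 : u * f = c • T₁ p := by
      calc u * f = u * f * (T₁ p⁻¹ * T₁ p) := by rw [hT1.inv_mul hp, mul_assoc, hff]
        _ = (u * f * T₁ p⁻¹) * T₁ p := by simp only [mul_assoc]
        _ = c • T₁ p := by rw [hc, smul_mul_assoc, (hT1.cor p hp).left]
    have hc0 : c ≠ 0 := by
      rintro rfl
      rw [zero_smul] at h4
      apply hf0
      calc f = (u' * u) * f := by rw [h2, hfc.left]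
        _ = u' * (u * f) := by rw [mul_assoc]
        _ = 0 := by rw [h4, mul_zero]
    refine ⟨c⁻¹ • u, c • u', fun _ => ⟨hu.smul _, hu'.smul _, ?_, ?_, ?_, ?_⟩⟩
    · rw [smul_mul_smul_comm, h1, inv_mul_cancel₀ hc0, one_smul]
    · rw [smul_mul_smul_comm, h2, mul_inv_cancel₀ hc0, one_smul]
    · intro x hx
      rw [smul_mul_assoc, h3 x hx, mul_smul_comm]
    · rw [smul_mul_assoc, h4, smul_smul, inv_mul_cancel₀ hc0, one_smul]
  choose t t' ht using key
  refine ⟨t, ⟨?_, ?_, fun p hp => (ht p hp).1⟩, fun p hp => (ht p hp).2.2.2.2.1⟩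
  · obtain ⟨h1, h2, h3, h4, h5, h6⟩ := ht 1 P.one_mem
    obtain ⟨d, hd⟩ := h.schur _ h1 (by
      intro x hx
      have := h5 x hx
      rwa [one_mul, inv_one, mul_one] at this)
    rw [hd, smul_mul_assoc, hfc.left, hT1.one] at h6
    have h7 : (d - 1) • f = 0 := by rw [sub_smul, h6, one_smul, sub_self]
    rcases smul_eq_zero.1 h7 with h8 | h8
    · rw [hd, sub_eq_zero.1 h8, one_smul]
    · exact absurd h8 hf0
  · intro p hp q hq
    have hpq := P.mul_mem hp hq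
    obtain ⟨a1, a2, a3, a4, a5, a6⟩ := ht p hp
    obtain ⟨b1, b2, b3, b4, b5, b6⟩ := ht q hq
    obtain ⟨c1, c2, c3, c4, c5, c6⟩ := ht (p * q) hpq
    have hinv := imp_inv h.toRp (hPE hpq) c2 c3 c4 c5
    have h1 := imp_mul (hPE (inv_mem hpq)) (imp_mul (hPE hq) a5 b5) hinv
    obtain ⟨d, hd⟩ := h.schur (t p * t q * t' (p * q)) ((a1.mul b1).mul c2) (by
      intro x hx
      have := h1 x hx
      rwa [mul_inv_cancel, one_mul, inv_one, mul_one] at this)
    have h2 : t p * t q = d • t (p * q) := by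
      calc t p * t q = t p * t q * (t' (p * q) * t (p * q)) := by
            rw [c4, mul_assoc, b1.right]
        _ = (t p * t q * t' (p * q)) * t (p * q) := by simp only [mul_assoc]
        _ = d • t (p * q) := by rw [hd, smul_mul_assoc, c1.left]
    have h3 : t p * t q * f = T₁ (p * q) := by
      have h5 : t q * f = f * (t q * f) := by rw [b6, (hT1.cor q hq).left]
      calc t p * t q * f = t p * (t q * f) := by rw [mul_assoc]
        _ = t p * f * (t q * f) := by rw [h5]; simp only [← mul_assoc]; rw [mul_assoc (t p) f f, hff]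
        _ = T₁ (p * q) := by rw [a6, b6, hT1.mul p hp q hq]
    have h5 : T₁ (p * q) = d • T₁ (p * q) := by
      calc T₁ (p * q) = t p * t q * f := h3.symm
        _ = d • T₁ (p * q) := by rw [h2, smul_mul_assoc, c6]
    have h4 : (d - 1) • T₁ (p * q) = 0 := by
      rw [sub_smul, one_smul, ← h5, sub_self]
    rcases smul_eq_zero.1 h4 with h8 | h8
    · rw [h2, sub_eq_zero.1 h8, one_smul]
    · exact absurd h8 (hT1.ne_zero hf0 hpq)

end Cfsg.Agent.H9.Dade
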