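import Cfsg.Agent.H9.Dade3

/-!
# Dade's extension theorem for extraspecial 2-groups, invariant characters (owner: helper9)
-/

set_option autoImplicit false
set_option linter.unusedSectionVars false

namespace Cfsg.Agent.H9.Dade

open Subgroup

variable {Γ : Type*} [Group Γ] [Finite Γ] {B : Type*} [Ring B] [Algebra ℂ B]
variable {e : B} {S : Set B} {E A P K : Subgroup Γ} {ρ : Γ → B}

theorem smul_e_inj (he : e ≠ 0) {c d : ℂ} (h : c • e = d • e) : c = d := by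
  have h1 : (c - d) • e = 0 := by rw [sub_smul, h, sub_self]
  rcases smul_eq_zero.1 h1 with h2 | h2
  · exact sub_eq_zero.1 h2
  · exact absurd h2 he

/-- existence of some linear character of an isotropic subgroup extending the scalar character -/
theorem exists_lam0 (he : e ≠ 0) (h : Rp e S E ρ) (hA : A ≤ E)
    (hiso : ∀ a ∈ A, ∀ b ∈ A, ρ a * ρ b = ρ b * ρ a) : ∃ l : Γ → ℂ, Lam e A ρ l := by
  classical
  let N : Subgroup A :=
    { carrier := {a | ρ (a : Γ) = e}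
      one_mem' := h.one
      mul_mem' := by
        intro a b ha hb
        change ρ ((a : Γ) * b) = e
        have ha : ρ (a : Γ) = e := ha
        have hb : ρ (b : Γ) = e := hb
        rw [h.mul _ (hA a.2) _ (hA b.2), ha, hb, h.idem]
      inv_mem' := by
        intro a ha
        change ρ ((a : Γ)⁻¹) = e
        have ha : ρ (a : Γ) = e := ha
        have h1 := h.mul_inv (hA a.2)
        rw [ha, (h.cor _ (hA (A.inv_mem a.2))).left] at h1
        exact h1 }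
  have hNmem : ∀ a : A, a ∈ N ↔ ρ (a : Γ) = e := fun a => Iff.rfl
  have hcomm : ∀ a b : A, a * b * a⁻¹ * b⁻¹ ∈ N := by
    intro a b
    rw [hNmem]
    change ρ ((a : Γ) * b * (a : Γ)⁻¹ * (b : Γ)⁻¹) = e
    have ha := hA a.2
    have hb := hA b.2
    rw [h.mul _ (E.mul_mem (E.mul_mem ha hb) (E.inv_mem ha)) _ (E.inv_mem hb),
      h.mul _ (E.mul_mem ha hb) _ (E.inv_mem ha), h.mul _ ha _ hb, hiso a a.2 b b.2,
      mul_assoc (ρ (b : Γ)), h.mul_inv ha, (h.cor _ hb).right, h.mul_inv hb]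
  haveI hNn : N.Normal := ⟨by
    intro n hn g
    have h1 := hcomm g n
    have h2 := N.mul_mem h1 hn
    simpa using h2⟩
  letI : CommGroup (A ⧸ N) :=
    { (inferInstance : Group (A ⧸ N)) with
      mul_comm := by
        intro a b
        obtain ⟨a, rfl⟩ := QuotientGroup.mk_surjective a
        obtain ⟨b, rfl⟩ := QuotientGroup.mk_surjective b
        rw [← QuotientGroup.mk_mul, ← QuotientGroup.mk_mul, QuotientGroup.eq]
        have h1 := hcomm b⁻¹ a⁻¹
        have e1 : (a * b)⁻¹ * (b * a) = b⁻¹ * a⁻¹ * b⁻¹⁻¹ * a⁻¹⁻¹ := by group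
        rw [e1]; exact h1 }
  have hQ : ∀ a b : A, (QuotientGroup.mk a : A ⧸ N) = QuotientGroup.mk b → ρ (a : Γ) = ρ b := by
    intro a b hab
    rw [QuotientGroup.eq, hNmem] at hab
    have h1 : ρ (a : Γ) * ρ ((a⁻¹ * b : A) : Γ) = ρ b := by
      rw [← h.mul _ (hA a.2) _ (hA (a⁻¹ * b).2)]
      congr 1
      simp
    rw [hab, (h.cor _ (hA a.2)).right] at h1
    exact h1
  let R : (A ⧸ N) → ℂ → Prop := fun q c => ∃ a : A, QuotientGroup.mk a = q ∧ ρ (a : Γ) = c • e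
  have hRu : ∀ q c d, R q c → R q d → c = d := by
    rintro q c d ⟨a, rfl, ha⟩ ⟨b, hb, hb'⟩
    apply smul_e_inj he
    rw [← ha, ← hb', hQ b a hb]
  have hRm : ∀ q r c d, R q c → R r d → R (q * r) (c * d) := by
    rintro q r c d ⟨a, rfl, ha⟩ ⟨b, rfl, hb⟩
    refine ⟨a * b, rfl, ?_⟩
    change ρ ((a : Γ) * b) = _
    rw [h.mul _ (hA a.2) _ (hA b.2), ha, hb, smul_mul_smul_comm, h.idem]
  have hR1 : R 1 1 := ⟨1, rfl, by rw [one_smul]; exact h.one⟩
  have hR0 : ∀ q c, R q c → c ≠ 0 := by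
    rintro q c ⟨a, rfl, ha⟩ rfl
    rw [zero_smul] at ha
    exact h.ne_zero he (hA a.2) ha
  have hRi : ∀ q c, R q c → R q⁻¹ c⁻¹ := by
    rintro q c hq
    have hc := hR0 q c hq
    obtain ⟨a, rfl, ha⟩ := hq
    refine ⟨a⁻¹, rfl, ?_⟩
    change ρ ((a : Γ)⁻¹) = _
    have h1 := h.mul_inv (hA a.2)
    rw [ha, smul_mul_assoc, (h.cor _ (hA (A.inv_mem a.2))).left] at h1
    rw [← h1, smul_smul, inv_mul_cancel₀ hc, one_smul]
  let H : Subgroup (A ⧸ N) :=
    { carrier := {q | ∃ c, R q c}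
      one_mem' := ⟨1, hR1⟩
      mul_mem' := by
        rintro q r ⟨c, hc⟩ ⟨d, hd⟩
        exact ⟨c * d, hRm q r c d hc hd⟩
      inv_mem' := by
        rintro q ⟨c, hc⟩
        exact ⟨c⁻¹, hRi q c hc⟩ }
  have hH : ∀ q : H, ∃ c, R q c := fun q => q.2
  choose c hc using hH
  let ν : H →* ℂˣ :=
    { toFun := fun q => Units.mk0 (c q) (hR0 _ _ (hc q))
      map_one' := by
        apply Units.ext
        exact hRu _ _ _ (hc 1) hR1
      map_mul' := by
        intro q r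
        apply Units.ext
        exact hRu _ _ _ (hc (q * r)) (hRm _ _ _ _ (hc q) (hc r)) }
  obtain ⟨χ, hχ⟩ := MonoidHom.domRestrict_surjective (G := A ⧸ N) (M := ℂ) H ν
  refine ⟨fun a => if ha : a ∈ A then ((χ (QuotientGroup.mk ⟨a, ha⟩) : ℂˣ) : ℂ) else 1, ?_, ?_, ?_⟩
  · change (if ha : (1 : Γ) ∈ A then ((χ (QuotientGroup.mk ⟨1, ha⟩) : ℂˣ) : ℂ) else 1) = 1
    rw [dif_pos A.one_mem]
    have : (QuotientGroup.mk (⟨1, A.one_mem⟩ : A) : A ⧸ N) = 1 := rfl
    rw [this, map_one, Units.val_one]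
  · intro a ha b hb
    rw [dif_pos ha, dif_pos hb, dif_pos (A.mul_mem ha hb)]
    have : (QuotientGroup.mk (⟨a * b, A.mul_mem ha hb⟩ : A) : A ⧸ N) =
        QuotientGroup.mk ⟨a, ha⟩ * QuotientGroup.mk ⟨b, hb⟩ := rfl
    rw [this, map_mul, Units.val_mul]
  · intro a ha d hd
    rw [dif_pos ha]
    have hR : R (QuotientGroup.mk ⟨a, ha⟩) d := ⟨⟨a, ha⟩, rfl, hd⟩
    have h1 : χ (QuotientGroup.mk ⟨a, ha⟩) = ν ⟨QuotientGroup.mk ⟨a, ha⟩, ⟨d, hR⟩⟩ := by
      rw [← hχ]; rfl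
    rw [h1]
    exact hRu _ _ _ (hc ⟨QuotientGroup.mk ⟨a, ha⟩, ⟨d, hR⟩⟩) hR

/-- a `K`-invariant linear character, trivial on scalars, is trivial -/
theorem lam_unique (hE2 : IsPGroup 2 E) (hA : A ≤ E) (hKodd : Odd (Nat.card K))
    (hKA : K ≤ normalizer (A : Set Γ)) (hfix : ∀ x ∈ E, (∀ k ∈ K, k * x * k⁻¹ = x) → ∃ c : ℂ, ρ x = c • e)
    {m : Γ → ℂ} (hm1 : m 1 = 1) (hmm : ∀ a ∈ A, ∀ b ∈ A, m (a * b) = m a * m b)
    (hmK : ∀ k ∈ K, ∀ a ∈ A, m (k * a * k⁻¹) = m a)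
    (hmz : ∀ a ∈ A, (∃ c : ℂ, ρ a = c • e) → m a = 1) : ∀ a ∈ A, m a = 1 := by
  have hinv : ∀ a ∈ A, m a⁻¹ * m a = 1 := fun a ha => by
    rw [← hmm _ (A.inv_mem ha) _ ha, inv_mul_cancel, hm1]
  have hmi : ∀ a ∈ A, m a = 1 → m a⁻¹ = 1 := by
    intro a ha h
    have := hinv a ha
    rwa [h, mul_one] at this
  let N : Subgroup Γ :=
    { carrier := {a | a ∈ A ∧ m a = 1}
      one_mem' := ⟨A.one_mem, hm1⟩
      mul_mem' := by
        rintro a b ⟨ha, ha'⟩ ⟨hb, hb'⟩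
        exact ⟨A.mul_mem ha hb, by rw [hmm a ha b hb, ha', hb', one_mul]⟩
      inv_mem' := by
        rintro a ⟨ha, ha'⟩
        exact ⟨A.inv_mem ha, hmi a ha ha'⟩ }
  have hNA : N ≤ A := fun a ha => ha.1
  have hconj : ∀ g, g ∈ normalizer (A : Set Γ) → (∀ a ∈ A, m (g * a * g⁻¹) = m a) →
      g ∈ normalizer (N : Set Γ) := by
    intro g hg hgm
    rw [mem_normalizer_iff]
    intro x
    have h1 := mem_normalizer_iff.1 hg x
    constructor
    · rintro ⟨hx, hx'⟩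
      exact ⟨h1.1 hx, by rw [hgm x hx, hx']⟩
    · rintro ⟨hx, hx'⟩
      have hx2 := h1.2 hx
      exact ⟨hx2, by rw [← hgm x hx2, hx']⟩
  have hA2 : IsPGroup 2 A := hE2.to_le hA
  have hAcard : ∃ n, Nat.card A = 2 ^ n := IsPGroup.iff_card.1 hA2
  obtain ⟨n, hn⟩ := hAcard
  have hcop : (Nat.card K).Coprime (Nat.card A) := by
    rw [hn]
    exact Nat.Coprime.pow_right _ (Nat.coprime_two_right.2 hKodd)
  have hAs : Group.IsSolvable A := by
    haveI : Group.IsNilpotent A := hA2.isNilpotent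
    infer_instance
  intro a ha
  obtain ⟨c, hc, hac⟩ := Cop.fixed_points_quotient K A hKA hcop (Or.inr hAs) N hNA
    (fun g hg => hconj g (le_normalizer hg) (fun b hb => by
      rw [hmm _ (A.mul_mem hg hb) _ (A.inv_mem hg), hmm _ hg _ hb]
      have := hinv g hg
      calc m g * m b * m g⁻¹ = (m g⁻¹ * m g) * m b := by ring
        _ = m b := by rw [this, one_mul]))
    (fun g hg => hconj g (hKA hg) (hmK g hg)) a ha (by
      intro k hk
      have hk' : k * a * k⁻¹ ∈ A := (mem_normalizer_iff.1 (hKA hk) a).1 ha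
      refine ⟨A.mul_mem hk' (A.inv_mem ha), ?_⟩
      rw [hmm _ hk' _ (A.inv_mem ha), hmK k hk a ha, mul_comm, hinv a ha])
  have h1 : m c = 1 := hmz c hc.1 (hfix c (hA hc.1) fun k hk => by
    have := (mem_centralizer_iff.1 hc.2) k hk
    rw [this]; group)
  have h2 : m (a⁻¹ * c) = 1 := hac.2
  rw [hmm _ (A.inv_mem ha) _ hc.1, h1, mul_one] at h2
  have := hinv a ha
  rwa [h2, one_mul] at this

theorem exists_lam (he : e ≠ 0) (h : Rp e S E ρ) (hE2 : IsPGroup 2 E) (hA : A ≤ E)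
    (hiso : ∀ a ∈ A, ∀ b ∈ A, ρ a * ρ b = ρ b * ρ a) (hKodd : Odd (Nat.card K))
    (hKE : K ≤ normalizer (E : Set Γ)) (hPE : P ≤ normalizer (E : Set Γ))
    (hKA : K ≤ normalizer (A : Set Γ)) (hPA : P ≤ normalizer (A : Set Γ))
    (hPK : P ≤ normalizer (K : Set Γ))
    (hfix : ∀ x ∈ E, (∀ k ∈ K, k * x * k⁻¹ = x) → ∃ c : ℂ, ρ x = c • e)
    (hiK : ∀ g ∈ K, HasImp e S E ρ g) (hiP : ∀ g ∈ P, HasImp e S E ρ g) :
    ∃ l : Γ → ℂ, Lam e A ρ l ∧ (∀ g ∈ K, ∀ a ∈ A, l (g * a * g⁻¹) = l a) ∧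
      ∀ g ∈ P, ∀ a ∈ A, l (g * a * g⁻¹) = l a := by
  classical
  obtain ⟨l₀, hl₀⟩ := exists_lam0 he h hA hiso
  have hA2 : IsPGroup 2 A := hE2.to_le hA
  obtain ⟨n, hn⟩ := IsPGroup.iff_card.1 hA2
  have hcop : (Nat.card K).Coprime (Nat.card A) := by
    rw [hn]
    exact Nat.Coprime.pow_right _ (Nat.coprime_two_right.2 hKodd)
  obtain ⟨m, hm⟩ : ∃ m : ℕ, Nat.card K * m ≡ 1 [MOD Nat.card A] := by
    rcases Nat.lt_or_ge 1 (Nat.card A) with h1 | h1
    · obtain ⟨m, -, hm⟩ := Nat.exists_mul_mod_eq_one_of_coprime hcop h1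
      exact ⟨m, by rw [Nat.ModEq, hm, Nat.mod_eq_of_lt h1]⟩
    · refine ⟨1, ?_⟩
      have h2 : Nat.card A = 1 := le_antisymm h1 Nat.card_pos
      rw [h2]
      exact Nat.modEq_one
  have hpow : ∀ a ∈ A, l₀ a ^ (Nat.card A) = 1 := by
    intro a ha
    have h1 : ∀ j : ℕ, l₀ (a ^ j) = l₀ a ^ j := by
      intro j
      induction j with
      | zero => rw [pow_zero, pow_zero, hl₀.one]
      | succ j ih => rw [pow_succ, pow_succ, hl₀.mul _ (A.pow_mem ha j) _ ha, ih]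
    rw [← h1]
    have h2 : a ^ (Nat.card A) = 1 := by
      have h3 := congrArg (Subtype.val) (pow_card_eq_one' (x := (⟨a, ha⟩ : A)))
      rwa [Subgroup.coe_pow] at h3
    rw [h2, hl₀.one]
  let l₁ : Γ → ℂ := fun a => ∏ k ∈ fs K, l₀ (k * a * k⁻¹)
  have hkA : ∀ k ∈ K, ∀ a ∈ A, k * a * k⁻¹ ∈ A := fun k hk a ha =>
    (mem_normalizer_iff.1 (hKA hk) a).1 ha
  have hpA : ∀ k ∈ P, ∀ a ∈ A, k * a * k⁻¹ ∈ A := fun k hk a ha =>
    (mem_normalizer_iff.1 (hPA hk) a).1 ha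
  have hlam : Lam e A ρ (fun a => l₁ a ^ m) := by
    refine ⟨?_, ?_, ?_⟩
    · have : l₁ 1 = 1 := by
        refine Finset.prod_eq_one fun k _ => ?_
        rw [mul_one, mul_inv_cancel, hl₀.one]
      simp only [this, one_pow]
    · intro a ha b hb
      have : l₁ (a * b) = l₁ a * l₁ b := by
        simp only [l₁]
        rw [← Finset.prod_mul_distrib]
        refine Finset.prod_congr rfl fun k hk => ?_
        have hk := mem_fs.1 hk
        rw [← hl₀.mul _ (hkA k hk a ha) _ (hkA k hk b hb)]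
        congr 1
        group
      simp only [this, mul_pow]
    · intro a ha c hc
      have h1 : l₁ a = c ^ Nat.card K := by
        simp only [l₁]
        rw [Finset.prod_congr rfl (g := fun _ => c), Finset.prod_const, card_fs]
        intro k hk
        have hk := mem_fs.1 hk
        exact hl₀.sc _ (hkA k hk a ha) c (sc_conj h (hKE hk) (hiK k hk) (hA ha) hc)
      rw [h1, ← pow_mul]
      have h2 : c ^ Nat.card A = 1 := by
        rw [← hl₀.sc a ha c hc]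
        exact hpow a ha
      have h3 : c ^ (Nat.card K * m) = c ^ ((Nat.card K * m) % Nat.card A) :=
        pow_eq_pow_mod _ h2
      have h4 : c ^ 1 = c ^ (1 % Nat.card A) := pow_eq_pow_mod _ h2
      rw [h3, show Nat.card K * m % Nat.card A = 1 % Nat.card A from hm, ← h4, pow_one]
  have hK : ∀ g ∈ K, ∀ a ∈ A, l₁ (g * a * g⁻¹) ^ m = l₁ a ^ m := by
    intro g hg a ha
    congr 1
    simp only [l₁]
    refine Finset.prod_equiv (Equiv.mulRight g) (fun k => ?_) (fun k _ => ?_)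
    · rw [mem_fs, mem_fs, Equiv.coe_mulRight, K.mul_mem_cancel_right hg]
    · rw [Equiv.coe_mulRight]
      congr 1
      group
  refine ⟨fun a => l₁ a ^ m, hlam, hK, ?_⟩
  intro p hp
  -- the quotient character
  have hne : ∀ a ∈ A, l₁ a ^ m ≠ 0 := fun a ha => hlam.ne_zero ha
  have key := lam_unique (ρ := ρ) (e := e) hE2 hA hKodd hKA hfix
    (m := fun a => l₁ (p * a * p⁻¹) ^ m * (l₁ a ^ m)⁻¹) (by
      have := hlam.one
      simp only [mul_one, mul_inv_cancel] at this ⊢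
      rw [this, inv_one, mul_one]) (by
      intro a ha b hb
      have h1 := hlam.mul _ (hpA p hp a ha) _ (hpA p hp b hb)
      have h2 := hlam.mul a ha b hb
      beta_reduce at h1 h2 ⊢
      have e1 : p * (a * b) * p⁻¹ = p * a * p⁻¹ * (p * b * p⁻¹) := by group
      rw [e1, h1, h2, mul_inv]
      ring) (by
      intro k hk a ha
      have hk' : p * k * p⁻¹ ∈ K := (mem_normalizer_iff.1 (hPK hp) k).1 hk
      have e1 : p * (k * a * k⁻¹) * p⁻¹ = (p * k * p⁻¹) * (p * a * p⁻¹) * (p * k * p⁻¹)⁻¹ := by group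
      rw [e1, hK _ hk' _ (hpA p hp a ha), hK k hk a ha]) (by
      rintro a ha ⟨c, hc⟩
      have h1 := hlam.sc a ha c hc
      have h2 := hlam.sc _ (hpA p hp a ha) c (sc_conj h (hPE hp) (hiP p hp) (hA ha) hc)
      beta_reduce at h1 h2
      rw [h2, ← h1, mul_inv_cancel₀ (hne a ha)])
  intro a ha
  have h1 := key a ha
  beta_reduce at h1 ⊢
  exact (mul_inv_eq_one₀ (hne a ha)).1 h1

end Cfsg.Agent.H9.Dade
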