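import Cfsg.Agent.H9.Dade4

/-!
# Dade's extension theorem for extraspecial 2-groups, gluing over cyclic quotients (owner: helper9)

The abstract gluing lemma is adapted from `Cfsg.Agent.Char.ExtCyclic` (owner: helper15).
-/

set_option autoImplicit false
set_option linter.unusedSectionVars false

namespace Cfsg.Agent.H9.Dade

open Subgroup

/-- Abstract gluing: a homomorphism on a normal subgroup extends over a cyclic quotient. -/
theorem exists_hom_glue {G : Type*} [Group G] {U : Type*} [Group U]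
    (N : Subgroup G) [hN : N.Normal] (R : N →* U) (g : G)
    (hg : ∀ x : G, ∃ i : ℤ, g ^ (-i) * x ∈ N) (t : U)
    (ht : ∀ a : N, t * R a * t⁻¹ = R ⟨g * a * g⁻¹, hN.conj_mem (a : G) a.2 g⟩)
    (hm : ∀ (k : ℤ) (hk : g ^ k ∈ N), t ^ k = R ⟨g ^ k, hk⟩) :
    ∃ F : G →* U, (∀ n : N, F n = R n) ∧ F g = t := by
  classical
  -- conjugation by all powers
  have hconj : ∀ (j : ℤ) (a : N) (h : g ^ (-j) * a * g ^ j ∈ N),
      R a * t ^ j = t ^ j * R ⟨g ^ (-j) * a * g ^ j, h⟩ := by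
    let S : Subgroup (G × U) :=
      { carrier := {z | ∀ (a : N) (h : z.1 * a * z.1⁻¹ ∈ N), z.2 * R a * z.2⁻¹ = R ⟨z.1 * a * z.1⁻¹, h⟩}
        one_mem' := by
          intro a h
          have : (⟨(1 : G × U).1 * a * (1 : G × U).1⁻¹, h⟩ : N) = a := Subtype.ext (by simp)
          rw [this]; simp
        mul_mem' := by
          intro x y hx hy a h
          have hya : y.1 * a * y.1⁻¹ ∈ N := hN.conj_mem (a : G) a.2 _
          have h1 := hy a hya
          have hxa : x.1 * (⟨y.1 * a * y.1⁻¹, hya⟩ : N) * x.1⁻¹ ∈ N := hN.conj_mem _ hya _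
          have h2 := hx ⟨y.1 * a * y.1⁻¹, hya⟩ hxa
          have h3 : (⟨(x * y).1 * a * (x * y).1⁻¹, h⟩ : N) =
              ⟨x.1 * (⟨y.1 * a * y.1⁻¹, hya⟩ : N) * x.1⁻¹, hxa⟩ := Subtype.ext (by
            simp only [Prod.fst_mul, mul_inv_rev]; group)
          rw [h3, ← h2, ← h1]
          simp only [Prod.snd_mul, mul_inv_rev]; group
        inv_mem' := by
          intro x hx a h
          have h2 : x.1 * (⟨x⁻¹.1 * a * x⁻¹.1⁻¹, h⟩ : N) * x.1⁻¹ ∈ N := hN.conj_mem _ h _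
          have h1 := hx ⟨x⁻¹.1 * a * x⁻¹.1⁻¹, h⟩ h2
          have h3 : (⟨x.1 * (⟨x⁻¹.1 * a * x⁻¹.1⁻¹, h⟩ : N) * x.1⁻¹, h2⟩ : N) = a := Subtype.ext (by
            simp only [Prod.fst_inv]; group)
          rw [h3] at h1
          rw [← h1]
          simp only [Prod.snd_inv]; group }
    have hgt : ((g, t) : G × U) ∈ S := fun a h => ht a
    intro j a h
    have h1 := S.zpow_mem hgt (-j) a (by simpa using h)
    have h2 : (⟨((g, t) ^ (-j) : G × U).1 * a * ((g, t) ^ (-j) : G × U).1⁻¹, by simpa using h⟩ : N) =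
        ⟨g ^ (-j) * a * g ^ j, h⟩ := Subtype.ext (by simp)
    rw [h2] at h1
    rw [← h1]
    simp [mul_assoc]
  choose i hi using hg
  obtain ⟨F, hF⟩ : ∃ F : G → U, ∀ x, F x = t ^ (i x) * R ⟨g ^ (-(i x)) * x, hi x⟩ := ⟨_, fun _ => rfl⟩
  have hwell : ∀ (x : G) (j : ℤ) (hj : g ^ (-j) * x ∈ N), F x = t ^ j * R ⟨g ^ (-j) * x, hj⟩ := by
    intro x j hj
    have hk : g ^ (i x - j) ∈ N := by
      have h1 : g ^ (i x - j) = (g ^ (-j) * x) * (g ^ (-(i x)) * x)⁻¹ := by
        rw [mul_inv_rev, mul_assoc, mul_inv_cancel_left, ← zpow_neg, ← zpow_add]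
        congr 1; ring
      rw [h1]
      exact N.mul_mem hj (N.inv_mem (hi x))
    have h1 : (⟨g ^ (-j) * x, hj⟩ : N) = ⟨g ^ (i x - j), hk⟩ * ⟨g ^ (-(i x)) * x, hi x⟩ :=
      Subtype.ext (by
        change g ^ (-j) * x = g ^ (i x - j) * (g ^ (-(i x)) * x)
        rw [← mul_assoc, ← zpow_add]
        congr 2; ring)
    rw [h1, map_mul, ← hm _ hk, ← mul_assoc, ← zpow_add, hF]
    congr 2; ring
  have hone : F 1 = 1 := by
    rw [hwell 1 0 (by simp)]
    have : (⟨g ^ (-(0 : ℤ)) * 1, by simp⟩ : N) = 1 := Subtype.ext (by simp)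
    rw [this]; simp
  refine ⟨⟨⟨F, hone⟩, fun x y => ?_⟩, fun n => ?_, ?_⟩
  · change F (x * y) = F x * F y
    have h1 : g ^ (-(i y)) * (⟨g ^ (-(i x)) * x, hi x⟩ : N) * g ^ (i y) ∈ N := by
      have := hN.conj_mem _ (hi x) (g ^ (-(i y)))
      simpa using this
    have h2 : g ^ (-(i x + i y)) * (x * y) ∈ N := by
      have h3 := N.mul_mem h1 (hi y)
      have h4 : g ^ (-(i y)) * (⟨g ^ (-(i x)) * x, hi x⟩ : N) * g ^ (i y) * (g ^ (-(i y)) * y) =
          g ^ (-(i x + i y)) * (x * y) := by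
        simp only []
        rw [neg_add, add_comm, zpow_add]; group
      rwa [h4] at h3
    rw [hwell (x * y) (i x + i y) h2, hF x, hF y]
    have h3 : (⟨g ^ (-(i x + i y)) * (x * y), h2⟩ : N) =
        ⟨g ^ (-(i y)) * (⟨g ^ (-(i x)) * x, hi x⟩ : N) * g ^ (i y), h1⟩ * ⟨g ^ (-(i y)) * y, hi y⟩ :=
      Subtype.ext (by
        change g ^ (-(i x + i y)) * (x * y) =
          g ^ (-(i y)) * (g ^ (-(i x)) * x) * g ^ (i y) * (g ^ (-(i y)) * y)
        rw [neg_add, add_comm, zpow_add]; group)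
    rw [h3, map_mul, zpow_add]
    have h4 := hconj (i y) ⟨g ^ (-(i x)) * x, hi x⟩ h1
    calc t ^ i x * t ^ i y * (R ⟨_, h1⟩ * R ⟨g ^ (-(i y)) * y, hi y⟩)
        = t ^ i x * (t ^ i y * R ⟨_, h1⟩) * R ⟨g ^ (-(i y)) * y, hi y⟩ := by group
      _ = t ^ i x * (R ⟨g ^ (-(i x)) * x, hi x⟩ * t ^ i y) * R ⟨g ^ (-(i y)) * y, hi y⟩ := by rw [h4]
      _ = _ := by group
  · change F n = R n
    rw [hwell n 0 (by simp)]
    have : (⟨g ^ (-(0 : ℤ)) * n, by simp⟩ : N) = n := Subtype.ext (by simp)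
    rw [this]; simp
  · change F g = t
    rw [hwell g 1 (by simp)]
    have : (⟨g ^ (-(1 : ℤ)) * g, by simp⟩ : N) = 1 := Subtype.ext (by simp)
    rw [this]; simp

variable {Γ : Type*} [Group Γ] [Finite Γ] {B : Type*} [Ring B] [Algebra ℂ B]
variable {e : B} {S : Set B} {E A P K N : Subgroup Γ} {ρ : Γ → B}

/-- units of the corner, embedded in the units of `B` -/
def UU (e : B) (S : Set B) : Subgroup Bˣ where
  carrier := {v | (v : B) * e = e * v ∧ (v : B) * (1 - e) = 1 - e ∧ ∀ s ∈ S, s * (v : B) = v * s}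
  one_mem' := by
    refine ⟨?_, ?_, ?_⟩
    · rw [Units.val_one, one_mul, mul_one]
    · rw [Units.val_one, one_mul]
    · intro s _
      rw [Units.val_one, one_mul, mul_one]
  mul_mem' := by
    rintro v w ⟨h1, h2, h3⟩ ⟨k1, k2, k3⟩
    refine ⟨?_, ?_, ?_⟩
    · rw [Units.val_mul, mul_assoc, k1, ← mul_assoc, h1, mul_assoc]
    · rw [Units.val_mul, mul_assoc, k2, h2]
    · intro s hs
      rw [Units.val_mul, ← mul_assoc, h3 s hs, mul_assoc, k3 s hs, mul_assoc]
  inv_mem' := by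
    rintro v ⟨h1, h2, h3⟩
    refine ⟨?_, ?_, ?_⟩
    · exact ((show Commute (v : B) e from h1).units_inv_left).eq
    · conv_lhs => rw [← h2]
      rw [← mul_assoc, Units.inv_mul, one_mul]
    · intro s hs
      exact ((show Commute s (v : B) from h3 s hs).units_inv_right).eq

/-- embedding of corner units -/
def mkU (hee : e * e = e) (heS : ∀ s ∈ S, s * e = e * s) {u u' : B} (hu : Cor e S u)
    (hu' : Cor e S u') (h1 : u * u' = e) (h2 : u' * u = e) : UU e S :=
  ⟨⟨u + (1 - e), u' + (1 - e), by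
      have := hu.right; have := hu'.left
      have e1 : (1 - e) * u' = 0 := by rw [sub_mul, one_mul, hu'.left, sub_self]
      have e2 : u * (1 - e) = 0 := by rw [mul_sub, mul_one, hu.right, sub_self]
      have e3 : (1 - e) * (1 - e) = 1 - e := by
        rw [mul_sub, mul_one, sub_mul, one_mul, hee, sub_self, sub_zero]
      rw [add_mul, mul_add, mul_add, h1, e1, e2, e3, add_zero, zero_add, add_sub_cancel], by
      have e1 : (1 - e) * u = 0 := by rw [sub_mul, one_mul, hu.left, sub_self]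
      have e2 : u' * (1 - e) = 0 := by rw [mul_sub, mul_one, hu'.right, sub_self]
      have e3 : (1 - e) * (1 - e) = 1 - e := by
        rw [mul_sub, mul_one, sub_mul, one_mul, hee, sub_self, sub_zero]
      rw [add_mul, mul_add, mul_add, h2, e1, e2, e3, add_zero, zero_add, add_sub_cancel]⟩, by
    have e3 : (1 - e) * (1 - e) = 1 - e := by
      rw [mul_sub, mul_one, sub_mul, one_mul, hee, sub_self, sub_zero]
    refine ⟨?_, ?_, ?_⟩
    · change (u + (1 - e)) * e = e * (u + (1 - e))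
      rw [add_mul, mul_add, hu.right, hu.left, sub_mul, mul_sub, one_mul, mul_one]
    · change (u + (1 - e)) * (1 - e) = 1 - e
      rw [add_mul, e3, mul_sub, mul_one, hu.right, sub_self, zero_add]
    · intro s hs
      change s * (u + (1 - e)) = (u + (1 - e)) * s
      rw [mul_add, add_mul, hu.comm s hs, mul_sub, sub_mul, heS s hs, mul_one, one_mul]⟩

theorem mkU_val (hee : e * e = e) (heS : ∀ s ∈ S, s * e = e * s) {u u' : B} (hu : Cor e S u)
    (hu' : Cor e S u') (h1 : u * u' = e) (h2 : u' * u = e) :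
    (((mkU hee heS hu hu' h1 h2 : UU e S) : Bˣ) : B) = u + (1 - e) := rfl

theorem UU_decomp (v : UU e S) : ((v : Bˣ) : B) = ((v : Bˣ) : B) * e + (1 - e) := by
  conv_rhs => rw [← v.2.2.1]
  rw [← mul_add, add_sub_cancel, mul_one]

theorem UU_ext {v w : UU e S} (h : ((v : Bˣ) : B) * e = ((w : Bˣ) : B) * e) : v = w := by
  apply Subtype.ext
  apply Units.ext
  rw [UU_decomp v, UU_decomp w, h]

theorem UU_cor (hee : e * e = e) (heS : ∀ s ∈ S, s * e = e * s) (v : UU e S) :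
    Cor e S (((v : Bˣ) : B) * e) :=
  ⟨by rw [← mul_assoc, ← v.2.1, mul_assoc, hee], by rw [mul_assoc, hee], fun s hs => by
    rw [← mul_assoc, v.2.2.2 s hs, mul_assoc, heS s hs, mul_assoc]⟩

theorem UU_mul_e (hee : e * e = e) (v w : UU e S) :
    (((v * w : UU e S) : Bˣ) : B) * e = (((v : Bˣ) : B) * e) * (((w : Bˣ) : B) * e) := by
  have h1 : e * (((w : Bˣ) : B) * e) = ((w : Bˣ) : B) * e := by
    rw [← mul_assoc, ← w.2.1, mul_assoc, hee]
  rw [mul_assoc ((v : Bˣ) : B) e, h1]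
  exact mul_assoc _ _ _

/-- scalars of the corner -/
def scU (hee : e * e = e) (heS : ∀ s ∈ S, s * e = e * s) : ℂˣ →* UU e S where
  toFun c := mkU hee heS (u := (c : ℂ) • e) (u' := ((c⁻¹ : ℂˣ) : ℂ) • e)
    ((⟨hee, hee, heS⟩ : Cor e S e).smul _) ((⟨hee, hee, heS⟩ : Cor e S e).smul _)
    (by rw [smul_mul_smul_comm, hee, Units.mul_inv, one_smul])
    (by rw [smul_mul_smul_comm, hee, Units.inv_mul, one_smul])
  map_one' := by
    apply UU_ext
    rw [mkU_val]
    change ((1 : ℂ) • e + (1 - e)) * e = (1 : B) * e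
    rw [one_smul, add_sub_cancel]
  map_mul' c d := by
    apply UU_ext
    rw [UU_mul_e hee, mkU_val, mkU_val, mkU_val]
    have key : ∀ z : ℂ, (z • e + (1 - e)) * e = z • e := by
      intro z
      rw [add_mul, smul_mul_assoc, hee, sub_mul, one_mul, hee, sub_self, add_zero]
    rw [key, key, key, smul_mul_smul_comm, hee, Units.val_mul]

theorem scU_e (hee : e * e = e) (heS : ∀ s ∈ S, s * e = e * s) (c : ℂˣ) :
    (((scU hee heS c : UU e S) : Bˣ) : B) * e = (c : ℂ) • e := by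
  change ((c : ℂ) • e + (1 - e)) * e = _
  rw [add_mul, smul_mul_assoc, hee, sub_mul, one_mul, hee, sub_self, add_zero]

theorem scU_comm (hee : e * e = e) (heS : ∀ s ∈ S, s * e = e * s) (c : ℂˣ) (v : UU e S) :
    scU hee heS c * v = v * scU hee heS c := by
  apply UU_ext
  rw [UU_mul_e hee, UU_mul_e hee, scU_e, smul_mul_assoc, mul_smul_comm,
    (UU_cor hee heS v).left, (UU_cor hee heS v).right]

/-- the extension over a cyclic quotient -/
theorem glue (he : e ≠ 0) (h : Cf e S E ρ) (hNP : N ≤ P)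
    (hN : ∀ p ∈ P, ∀ n ∈ N, p * n * p⁻¹ ∈ N) {t : Γ} (htP : t ∈ P)
    (ht : ∀ x ∈ P, ∃ i : ℤ, t ^ (-i) * x ∈ N) (hPE : P ≤ normalizer (E : Set Γ))
    {R : Γ → B} (hR : Rp e S N R) (hRi : ∀ n ∈ N, Imp E ρ n (R n))
    {u u' : B} (hu : Cor e S u) (hu' : Cor e S u') (h1 : u * u' = e) (h2 : u' * u = e)
    (hui : Imp E ρ t u) (hc : ∀ n ∈ N, u * R n = R (t * n * t⁻¹) * u) : ExtP e S E ρ P := by
  classical
  have hee := h.idem
  have heS := h.cor_one.comm
  let N' : Subgroup P := N.subgroupOf P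
  haveI hN'n : N'.Normal := ⟨fun n hn g => by
    have h3 := hN g g.2 n (mem_subgroupOf.1 hn)
    exact mem_subgroupOf.2 h3⟩
  let g : P := ⟨t, htP⟩
  let τ : UU e S := mkU hee heS hu hu' h1 h2
  have hτe : ((τ : Bˣ) : B) * e = u := by
    change (u + (1 - e)) * e = u
    rw [add_mul, hu.right, sub_mul, one_mul, hee, sub_self, add_zero]
  let Rh : N' →* UU e S :=
    { toFun := fun n => mkU hee heS (hR.cor _ (mem_subgroupOf.1 n.2))
        (hR.cor _ (N.inv_mem (mem_subgroupOf.1 n.2))) (hR.mul_inv (mem_subgroupOf.1 n.2))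
        (hR.inv_mul (mem_subgroupOf.1 n.2))
      map_one' := by
        apply UU_ext
        rw [mkU_val]
        change (R 1 + (1 - e)) * e = (1 : B) * e
        rw [hR.one, add_sub_cancel]
      map_mul' := by
        intro a b
        apply UU_ext
        rw [UU_mul_e hee, mkU_val, mkU_val, mkU_val]
        have key : ∀ z : B, z * e = z → (z + (1 - e)) * e = z := by
          intro z hz
          rw [add_mul, hz, sub_mul, one_mul, hee, sub_self, add_zero]
        rw [key _ (hR.cor _ (mem_subgroupOf.1 (a * b).2)).right,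
          key _ (hR.cor _ (mem_subgroupOf.1 a.2)).right, key _ (hR.cor _ (mem_subgroupOf.1 b.2)).right]
        exact hR.mul _ (mem_subgroupOf.1 a.2) _ (mem_subgroupOf.1 b.2) }
  have hRe : ∀ n : N', (((Rh n : UU e S) : Bˣ) : B) * e = R ((n : P) : Γ) := by
    intro n
    change (R ((n : P) : Γ) + (1 - e)) * e = _
    rw [add_mul, (hR.cor _ (mem_subgroupOf.1 n.2)).right, sub_mul, one_mul, hee, sub_self, add_zero]
  have ht0 : ∀ a : N', τ * Rh a * τ⁻¹ = Rh ⟨g * a * g⁻¹, hN'n.conj_mem (a : P) a.2 g⟩ := by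
    intro a
    rw [mul_inv_eq_iff_eq_mul]
    apply UU_ext
    rw [UU_mul_e hee, UU_mul_e hee, hτe, hRe, hRe]
    exact hc _ (mem_subgroupOf.1 a.2)
  let W : Subgroup (P × UU e S) :=
    { carrier := {z | Imp E ρ (z.1 : Γ) (((z.2 : Bˣ) : B) * e)}
      one_mem' := by
        intro x hx
        change (1 : B) * e * ρ x = ρ (1 * x * 1⁻¹) * ((1 : B) * e)
        rw [one_mul, one_mul, inv_one, mul_one, (h.cor x hx).left, (h.cor x hx).right]
      mul_mem' := by
        intro a b ha hb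
        change Imp E ρ ((a.1 : Γ) * b.1) ((((a.2 * b.2 : UU e S) : Bˣ) : B) * e)
        rw [UU_mul_e hee]
        exact imp_mul (hPE b.1.2) ha hb
      inv_mem' := by
        intro a ha
        change Imp E ρ ((a.1 : Γ)⁻¹) ((((a.2⁻¹ : UU e S) : Bˣ) : B) * e)
        refine imp_inv h.toRp (hPE a.1.2) (UU_cor hee heS a.2⁻¹) ?_ ?_ ha
        · rw [← UU_mul_e hee, mul_inv_cancel]
          exact one_mul e
        · rw [← UU_mul_e hee, inv_mul_cancel]
          exact one_mul e }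
  have hWt : ((g, τ) : P × UU e S) ∈ W := by
    change Imp E ρ t (((τ : Bˣ) : B) * e)
    rw [hτe]; exact hui
  have hWn : ∀ n : N', (((n : P), Rh n) : P × UU e S) ∈ W := by
    intro n
    change Imp E ρ ((n : P) : Γ) ((((Rh n : UU e S) : Bˣ) : B) * e)
    rw [hRe]; exact hRi _ (mem_subgroupOf.1 n.2)
  -- the order of `t` modulo `N`
  obtain ⟨m, hm⟩ : ∃ m, m = orderOf (QuotientGroup.mk g : P ⧸ N') := ⟨_, rfl⟩
  have hmpos : 0 < m := by rw [hm]; exact orderOf_pos _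
  have hmem : ∀ k : ℤ, g ^ k ∈ N' ↔ (m : ℤ) ∣ k := by
    intro k
    rw [← QuotientGroup.eq_one_iff, QuotientGroup.mk_zpow, hm, orderOf_dvd_iff_zpow_eq_one]
  have hgm : g ^ m ∈ N' := by
    have := (hmem m).mpr dvd_rfl
    rwa [zpow_natCast] at this
  have hW1 : ((g ^ m, τ ^ m) : P × UU e S) ∈ W := by
    have := W.pow_mem hWt m
    simpa using this
  have hW2 : ((g ^ m, Rh ⟨g ^ m, hgm⟩) : P × UU e S) ∈ W := hWn ⟨g ^ m, hgm⟩
  have hW3 := W.mul_mem (W.inv_mem hW2) hW1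
  have e3 : ((g ^ m, Rh ⟨g ^ m, hgm⟩) : P × UU e S)⁻¹ * (g ^ m, τ ^ m) =
      (1, (Rh ⟨g ^ m, hgm⟩)⁻¹ * τ ^ m) := by
    simp
  rw [e3] at hW3
  set q : UU e S := (Rh ⟨g ^ m, hgm⟩)⁻¹ * τ ^ m with hq
  obtain ⟨z, hz⟩ := h.schur (((q : Bˣ) : B) * e) (UU_cor hee heS q) (by
    intro x hx
    have h4 : Imp E ρ ((1 : P) : Γ) (((q : Bˣ) : B) * e) := hW3
    have h5 := h4 x hx
    simpa using h5)
  have hz0 : z ≠ 0 := by
    rintro rfl
    rw [zero_smul] at hz
    apply he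
    calc e = ((((q⁻¹ * q : UU e S)) : Bˣ) : B) * e := by rw [inv_mul_cancel]; exact (one_mul e).symm
      _ = (((q⁻¹ : UU e S) : Bˣ) : B) * e * (((q : Bˣ) : B) * e) := UU_mul_e hee _ _
      _ = 0 := by rw [hz, mul_zero]
  have hqz : q = scU hee heS (Units.mk0 z hz0) := by
    apply UU_ext
    rw [hz, scU_e]; rfl
  obtain ⟨w, hw⟩ := IsAlgClosed.exists_pow_nat_eq (z⁻¹) hmpos
  have hw0 : w ≠ 0 := by
    rintro rfl
    rw [zero_pow hmpos.ne'] at hw
    exact inv_ne_zero hz0 hw.symm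
  let σ : UU e S := scU hee heS (Units.mk0 w hw0)
  have hσc : ∀ v : UU e S, σ * v = v * σ := scU_comm hee heS _
  have hσm : σ ^ m * q = 1 := by
    rw [hqz, ← map_pow, ← map_mul]
    convert map_one (scU hee heS)
    apply Units.ext
    rw [Units.val_mul, Units.val_pow_eq_pow_val, Units.val_mk0, Units.val_mk0, hw,
      inv_mul_cancel₀ hz0, Units.val_one]
  have hTm : (σ * τ) ^ m = Rh ⟨g ^ m, hgm⟩ := by
    rw [(show Commute σ τ from hσc τ).mul_pow]
    have h4 : τ ^ m = Rh ⟨g ^ m, hgm⟩ * q := by rw [hq]; group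
    rw [h4, ← mul_assoc, (show Commute σ _ from hσc (Rh ⟨g ^ m, hgm⟩)).pow_left m |>.eq, mul_assoc,
      hσm, mul_one]
  obtain ⟨F, hF1, hF2⟩ := exists_hom_glue N' Rh g (fun x => by
      obtain ⟨i, hi⟩ := ht x x.2
      refine ⟨i, mem_subgroupOf.2 ?_⟩
      simpa using hi) (σ * τ) (fun a => by
      rw [mul_inv_rev]
      calc σ * τ * Rh a * (τ⁻¹ * σ⁻¹) = σ * (τ * Rh a * τ⁻¹) * σ⁻¹ := by group
        _ = τ * Rh a * τ⁻¹ := by rw [hσc]; group
        _ = _ := ht0 a) (fun k hk => by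
      obtain ⟨j, rfl⟩ := (hmem k).1 hk
      rw [zpow_mul, zpow_natCast, hTm, ← map_zpow]
      congr 1
      apply Subtype.ext
      change (g ^ m) ^ j = g ^ ((m : ℤ) * j)
      rw [zpow_mul, zpow_natCast])
  have hWF : ∀ x : P, ((x, F x) : P × UU e S) ∈ W := by
    have hσW : ((1, σ) : P × UU e S) ∈ W := by
      intro x hx
      change ((σ : Bˣ) : B) * e * ρ x = ρ (1 * x * 1⁻¹) * (((σ : Bˣ) : B) * e)
      rw [scU_e, one_mul, inv_one, mul_one, smul_mul_assoc, mul_smul_comm, (h.cor x hx).left,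
        (h.cor x hx).right]
    have hgW : ((g, F g) : P × UU e S) ∈ W := by
      have := W.mul_mem hσW hWt
      rw [hF2]
      simpa using this
    intro x
    obtain ⟨i, hi⟩ := ht x x.2
    have hi' : g ^ (-i) * x ∈ N' := mem_subgroupOf.2 (by simpa using hi)
    have h5 := W.mul_mem (W.zpow_mem hgW i) (hWn ⟨g ^ (-i) * x, hi'⟩)
    rw [← hF1] at h5
    have e4 : ((g, F g) : P × UU e S) ^ i * (((⟨g ^ (-i) * x, hi'⟩ : N') : P), F (⟨g ^ (-i) * x, hi'⟩ : N')) =
        (x, F x) := by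
      apply Prod.ext
      · simp
      · change (F g) ^ i * F (g ^ (-i) * x) = F x
        rw [map_mul, map_zpow]; group
    rw [← e4]; exact h5
  refine ⟨fun x => if hx : x ∈ P then (((F ⟨x, hx⟩ : UU e S) : Bˣ) : B) * e else 0, ⟨?_, ?_, ?_⟩, ?_⟩
  · rw [dif_pos P.one_mem]
    have : F ⟨1, P.one_mem⟩ = 1 := map_one F
    rw [this]
    exact one_mul e
  · intro x hx y hy
    rw [dif_pos hx, dif_pos hy, dif_pos (P.mul_mem hx hy), ← UU_mul_e hee, ← map_mul]
    rfl
  · intro x hx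
    rw [dif_pos hx]
    exact UU_cor hee heS _
  · intro x hx
    simp only [dif_pos hx]
    exact hWF ⟨x, hx⟩

end Cfsg.Agent.H9.Dade
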