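import Mathlib
import Cfsg.Agent.Cop.Basic
import Cfsg.Agent.Cop.GenAb

/-!
# Dade's extension theorem for extraspecial 2-groups, group theory (owner: helper9)
-/

set_option autoImplicit false
set_option linter.unusedSectionVars false
set_option linter.style.haveILetI false

namespace Cfsg.Agent.H9.Dade

open Subgroup

variable {Γ : Type*} [Group Γ] [Finite Γ]

theorem le_normalizer_of {X D : Subgroup Γ} (h : ∀ g ∈ X, ∀ x ∈ D, g * x * g⁻¹ ∈ D) :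
    X ≤ normalizer (D : Set Γ) := by
  intro g hg
  rw [mem_normalizer_iff]
  intro x
  refine ⟨h g hg x, fun hx => ?_⟩
  have := h g⁻¹ (X.inv_mem hg) _ hx
  have e1 : g⁻¹ * (g * x * g⁻¹) * g⁻¹⁻¹ = x := by group
  rwa [e1] at this

theorem nconj {X D : Subgroup Γ} (h : X ≤ normalizer (D : Set Γ)) {g x : Γ} (hg : g ∈ X)
    (hx : x ∈ D) : g * x * g⁻¹ ∈ D := (mem_normalizer_iff.1 (h hg) x).1 hx

/-- `E/Z` is abelian -/
structure GH (E Z : Subgroup Γ) : Prop where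
  hZE : Z ≤ E
  hEE : ∀ x ∈ E, ∀ y ∈ E, x * y * x⁻¹ * y⁻¹ ∈ Z

variable {E Z K P C L : Subgroup Γ}

theorem GH.conj (h : GH E Z) {x z : Γ} (hx : x ∈ E) (hz : z ∈ Z) : x * z * x⁻¹ ∈ Z := by
  have h1 := Z.mul_mem (h.hEE x hx z (h.hZE hz)) hz
  have e1 : x * z * x⁻¹ * z⁻¹ * z = x * z * x⁻¹ := by group
  rwa [e1] at h1

theorem GH.le_norm (h : GH E Z) {M : Subgroup Γ} (hZM : Z ≤ M) (hME : M ≤ E) :
    E ≤ normalizer (M : Set Γ) := by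
  refine le_normalizer_of fun x hx z hz => ?_
  have h1 := M.mul_mem (hZM (h.hEE x hx z (hME hz))) hz
  have e1 : x * z * x⁻¹ * z⁻¹ * z = x * z * x⁻¹ := by group
  rwa [e1] at h1

/-- fixed points modulo `Z` -/
def cen (h : GH E Z) (L : Subgroup Γ) : Subgroup Γ where
  carrier := {x | x ∈ E ∧ ∀ k ∈ L, k * x * k⁻¹ * x⁻¹ ∈ Z}
  one_mem' := ⟨E.one_mem, fun k _ => by
    have : k * 1 * k⁻¹ * 1⁻¹ = 1 := by group
    rw [this]; exact Z.one_mem⟩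
  mul_mem' := by
    rintro x y ⟨hx, hx'⟩ ⟨hy, hy'⟩
    refine ⟨E.mul_mem hx hy, fun k hk => ?_⟩
    have h1 := Z.mul_mem (hx' k hk) (h.conj hx (hy' k hk))
    have e1 : k * x * k⁻¹ * x⁻¹ * (x * (k * y * k⁻¹ * y⁻¹) * x⁻¹) =
        k * (x * y) * k⁻¹ * (x * y)⁻¹ := by group
    rwa [e1] at h1
  inv_mem' := by
    rintro x ⟨hx, hx'⟩
    refine ⟨E.inv_mem hx, fun k hk => ?_⟩
    have h1 := h.conj (E.inv_mem hx) (Z.inv_mem (hx' k hk))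
    have e1 : x⁻¹ * (k * x * k⁻¹ * x⁻¹)⁻¹ * x⁻¹⁻¹ = k * x⁻¹ * k⁻¹ * x⁻¹⁻¹ := by group
    rwa [e1] at h1

theorem mem_cen {h : GH E Z} {x : Γ} :
    x ∈ cen h L ↔ x ∈ E ∧ ∀ k ∈ L, k * x * k⁻¹ * x⁻¹ ∈ Z := Iff.rfl

theorem cen_le {h : GH E Z} : cen h L ≤ E := fun _ hx => hx.1

theorem le_cen {h : GH E Z} (hL : L ≤ normalizer (Z : Set Γ)) : Z ≤ cen h L := fun x hx =>
  ⟨h.hZE hx, fun _ hk => Z.mul_mem (nconj hL hk hx) (Z.inv_mem hx)⟩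

theorem cen_anti {h : GH E Z} {L' : Subgroup Γ} (hL : L ≤ L') : cen h L' ≤ cen h L := fun _ hx =>
  ⟨hx.1, fun k hk => hx.2 k (hL hk)⟩

theorem cen_conj (h : GH E Z) {X : Subgroup Γ} (hE : X ≤ normalizer (E : Set Γ))
    (hZ : X ≤ normalizer (Z : Set Γ)) {g x : Γ} (hg : g ∈ X) (hx : x ∈ cen h L) :
    g * x * g⁻¹ ∈ E ∧ ∀ k, g⁻¹ * k * g ∈ L → k * (g * x * g⁻¹) * k⁻¹ * (g * x * g⁻¹)⁻¹ ∈ Z := by
  refine ⟨nconj hE hg hx.1, fun k hk => ?_⟩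
  have h1 := nconj hZ hg (hx.2 _ hk)
  have e1 : g * (g⁻¹ * k * g * x * (g⁻¹ * k * g)⁻¹ * x⁻¹) * g⁻¹ =
      k * (g * x * g⁻¹) * k⁻¹ * (g * x * g⁻¹)⁻¹ := by group
  rwa [e1] at h1

theorem cen_norm (h : GH E Z) {X : Subgroup Γ} (hE : X ≤ normalizer (E : Set Γ))
    (hZ : X ≤ normalizer (Z : Set Γ)) (hL : X ≤ normalizer (L : Set Γ)) :
    X ≤ normalizer ((cen h L : Subgroup Γ) : Set Γ) := by
  refine le_normalizer_of fun g hg x hx => ?_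
  obtain ⟨h1, h2⟩ := cen_conj h hE hZ hg hx
  refine ⟨h1, fun k hk => h2 k ?_⟩
  have := nconj hL (X.inv_mem hg) hk
  rwa [inv_inv] at this

theorem two_solvable {A : Subgroup Γ} (hA : IsPGroup 2 A) : Group.IsSolvable A := by
  haveI : Group.IsNilpotent A := hA.isNilpotent
  infer_instance

theorem two_coprime {A : Subgroup Γ} (hA : IsPGroup 2 A) (hK : Odd (Nat.card K)) :
    (Nat.card K).Coprime (Nat.card A) := by
  obtain ⟨n, hn⟩ := IsPGroup.iff_card.1 hA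
  rw [hn]
  exact Nat.Coprime.pow_right _ (Nat.coprime_two_right.2 hK)

theorem exists_fixed {M A : Subgroup Γ} (hA : IsPGroup 2 A) (hK : Odd (Nat.card K))
    (hKA : K ≤ normalizer (A : Set Γ)) (hMA : M ≤ A) (hAM : A ≤ normalizer (M : Set Γ))
    (hKM : K ≤ normalizer (M : Set Γ)) {x : Γ} (hx : x ∈ A)
    (hfx : ∀ k ∈ K, k * x * k⁻¹ * x⁻¹ ∈ M) :
    ∃ c ∈ A, (∀ k ∈ K, k * c * k⁻¹ = c) ∧ x⁻¹ * c ∈ M := by
  obtain ⟨c, hc, hc'⟩ := Cop.fixed_points_quotient K A hKA (two_coprime hA hK)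
    (Or.inr (two_solvable hA)) M hMA hAM hKM x hx hfx
  refine ⟨c, hc.1, fun k hk => ?_, hc'⟩
  have := (mem_centralizer_iff.1 hc.2) k hk
  rw [this]; group

theorem cen_K (h : GH E Z) (hE2 : IsPGroup 2 E) (hK : Odd (Nat.card K))
    (hKE : K ≤ normalizer (E : Set Γ)) (hKZ : K ≤ normalizer (Z : Set Γ))
    (hfix : ∀ x ∈ E, (∀ k ∈ K, k * x * k⁻¹ = x) → x ∈ Z) : cen h K ≤ Z := by
  intro x hx
  obtain ⟨c, hc, hc1, hc2⟩ := exists_fixed hE2 hK hKE h.hZE (h.le_norm le_rfl h.hZE) hKZ hx.1 hx.2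
  have h1 := hfix c hc hc1
  have h2 := Z.mul_mem h1 (Z.inv_mem hc2)
  have e1 : c * (x⁻¹ * c)⁻¹ = x := by group
  rwa [e1] at h2

/-- action on a section -/
noncomputable def qact (X G₀ N₀ : Subgroup Γ) (hX : X ≤ normalizer (G₀ : Set Γ))
    (hXN : X ≤ normalizer (N₀ : Set Γ)) [hN : (N₀.subgroupOf G₀).Normal] :
    X →* MulAut (G₀ ⧸ N₀.subgroupOf G₀) where
  toFun x := QuotientGroup.congr _ _ (Subgroup.normalizerMonoidHom G₀ ⟨x, hX x.2⟩) (by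
    ext y
    constructor
    · rintro ⟨z, hz, rfl⟩
      rw [mem_subgroupOf]
      exact nconj hXN x.2 (mem_subgroupOf.1 hz)
    · intro hy
      have hy := mem_subgroupOf.1 hy
      have h1 : (x : Γ)⁻¹ * y * (x : Γ)⁻¹⁻¹ ∈ G₀ := nconj hX (X.inv_mem x.2) y.2
      refine ⟨⟨(x : Γ)⁻¹ * y * (x : Γ)⁻¹⁻¹, h1⟩, mem_subgroupOf.2 (nconj hXN (X.inv_mem x.2) hy), ?_⟩
      apply Subtype.ext
      change (x : Γ) * ((x : Γ)⁻¹ * y * (x : Γ)⁻¹⁻¹) * (x : Γ)⁻¹ = y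
      group)
  map_one' := by
    ext q
    obtain ⟨y, rfl⟩ := QuotientGroup.mk_surjective q
    change (QuotientGroup.mk (Subgroup.normalizerMonoidHom G₀ ⟨1, _⟩ y) : G₀ ⧸ N₀.subgroupOf G₀) = _
    have : Subgroup.normalizerMonoidHom G₀ ⟨1, hX X.one_mem⟩ = 1 := map_one _
    rw [this]; rfl
  map_mul' x x' := by
    ext q
    obtain ⟨y, rfl⟩ := QuotientGroup.mk_surjective q
    change (QuotientGroup.mk (Subgroup.normalizerMonoidHom G₀ ⟨(x : Γ) * x', _⟩ y) :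
      G₀ ⧸ N₀.subgroupOf G₀) = QuotientGroup.mk (Subgroup.normalizerMonoidHom G₀ ⟨(x : Γ), hX x.2⟩
        (Subgroup.normalizerMonoidHom G₀ ⟨(x' : Γ), hX x'.2⟩ y))
    have : Subgroup.normalizerMonoidHom G₀ ⟨(x : Γ) * x', hX (X.mul_mem x.2 x'.2)⟩ =
        Subgroup.normalizerMonoidHom G₀ ⟨(x : Γ), hX x.2⟩ *
          Subgroup.normalizerMonoidHom G₀ ⟨(x' : Γ), hX x'.2⟩ :=
      (Subgroup.normalizerMonoidHom G₀).map_mul ⟨(x : Γ), hX x.2⟩ ⟨(x' : Γ), hX x'.2⟩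
    rw [this]; rfl

theorem qact_mk {X G₀ N₀ : Subgroup Γ} (hX : X ≤ normalizer (G₀ : Set Γ))
    (hXN : X ≤ normalizer (N₀ : Set Γ)) [hN : (N₀.subgroupOf G₀).Normal] (x : X) (y : G₀) :
    qact X G₀ N₀ hX hXN x (QuotientGroup.mk y) =
      QuotientGroup.mk ⟨(x : Γ) * y * (x : Γ)⁻¹, nconj hX x.2 y.2⟩ := rfl

theorem qact_mk_eq {X G₀ N₀ : Subgroup Γ} (hX : X ≤ normalizer (G₀ : Set Γ))
    (hXN : X ≤ normalizer (N₀ : Set Γ)) [hN : (N₀.subgroupOf G₀).Normal] (x : X) (y : G₀) :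
    qact X G₀ N₀ hX hXN x (QuotientGroup.mk y) = QuotientGroup.mk y ↔
      (x : Γ) * y * (x : Γ)⁻¹ * (y : Γ)⁻¹ ∈ N₀ := by
  rw [qact_mk, eq_comm, QuotientGroup.eq, mem_subgroupOf]
  have h1 := hN.conj_mem
  constructor
  · intro h
    have h2 := h1 _ (mem_subgroupOf.2 h) y
    rw [mem_subgroupOf] at h2
    have e1 : ((y * (y⁻¹ * ⟨(x : Γ) * y * (x : Γ)⁻¹, nconj hX x.2 y.2⟩) * y⁻¹ : G₀) : Γ) =
        (x : Γ) * y * (x : Γ)⁻¹ * (y : Γ)⁻¹ := by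
      simp
    rwa [e1] at h2
  · intro h
    have h3 : (⟨(x : Γ) * y * (x : Γ)⁻¹, nconj hX x.2 y.2⟩ * y⁻¹ : G₀) ∈ N₀.subgroupOf G₀ :=
      mem_subgroupOf.2 h
    have h2 := h1 _ h3 y⁻¹
    rw [mem_subgroupOf] at h2
    have e1 : ((y⁻¹ * (⟨(x : Γ) * y * (x : Γ)⁻¹, nconj hX x.2 y.2⟩ * y⁻¹) * y⁻¹⁻¹ : G₀) : Γ) =
        ((y⁻¹ * ⟨(x : Γ) * y * (x : Γ)⁻¹, nconj hX x.2 y.2⟩ : G₀) : Γ) := by
      simp [mul_assoc]
    rwa [e1] at h2

theorem GH.normal (h : GH E Z) : (Z.subgroupOf E).Normal :=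
  ⟨fun n hn g => mem_subgroupOf.2 (h.conj g.2 (mem_subgroupOf.1 hn))⟩

/-- an abelian group acting fixed point freely is cyclic -/
theorem exists_gen (h : GH E Z) (hE2 : IsPGroup 2 E) (hK : Odd (Nat.card K))
    (hKE : K ≤ normalizer (E : Set Γ)) (hKZ : K ≤ normalizer (Z : Set Γ))
    (hEZ : ∃ x ∈ E, x ∉ Z) (hCE : ∀ c ∈ C, ∀ x ∈ E, c * x * c⁻¹ * x⁻¹ ∈ Z)
    (hKK : ∀ k ∈ K, ∀ l ∈ K, k * l * k⁻¹ * l⁻¹ ∈ C)
    (hfpf : ∀ k ∈ K, k ∉ C → ∀ x ∈ E, k * x * k⁻¹ * x⁻¹ ∈ Z → x ∈ Z) :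
    ∃ k₀ ∈ K, ∀ k ∈ K, ∃ i : ℤ, k₀ ^ (-i) * k ∈ C := by
  classical
  haveI := h.normal
  let φ := qact K E Z hKE hKZ
  obtain ⟨x₀, hx₀, hx₀'⟩ := hEZ
  have hker : ∀ k : K, φ k = 1 → (k : Γ) ∈ C := by
    intro k hk
    by_contra hC
    apply hx₀'
    refine hfpf k k.2 hC x₀ hx₀ ?_
    have h1 := (qact_mk_eq hKE hKZ k ⟨x₀, hx₀⟩).1 (by
      change φ k _ = _
      rw [hk]; rfl)
    exact h1
  have hker' : ∀ k : K, (k : Γ) ∈ C → φ k = 1 := by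
    intro k hk
    ext q
    obtain ⟨y, rfl⟩ := QuotientGroup.mk_surjective q
    exact (qact_mk_eq hKE hKZ k y).2 (hCE k hk y y.2)
  have hcomm : ∀ k l : K, φ k * φ l = φ l * φ k := by
    intro k l
    have h1 := hker' (k * l * k⁻¹ * l⁻¹) (hKK k k.2 l l.2)
    rw [map_mul, map_mul, map_mul, map_inv, map_inv, mul_inv_eq_one, mul_inv_eq_iff_eq_mul] at h1
    exact h1
  have hc : IsMulCommutative φ.range := ⟨⟨by
    rintro ⟨_, k, rfl⟩ ⟨_, l, rfl⟩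
    exact Subtype.ext (hcomm k l)⟩⟩
  have hcop : (Nat.card φ.range).Coprime (Nat.card (E ⧸ Z.subgroupOf E)) := by
    have h1 := two_coprime hE2 hK
    refine (h1.coprime_dvd_left (Subgroup.card_range_dvd φ)).coprime_dvd_right ?_
    exact Subgroup.card_quotient_dvd_card _
  have hcyc : IsCyclic φ.range := by
    by_contra hnc
    have h1 := Cop.gen_fix φ.range hc hnc hcop
    have h2 : (⨆ α ∈ {α : MulAut (E ⧸ Z.subgroupOf E) | α ∈ φ.range ∧ α ≠ 1}, Cop.fixSub α) = ⊥ := by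
      rw [eq_bot_iff]
      refine iSup₂_le ?_
      rintro α ⟨⟨k, rfl⟩, hne⟩ q hq
      obtain ⟨y, rfl⟩ := QuotientGroup.mk_surjective q
      rw [Subgroup.mem_bot, QuotientGroup.eq_one_iff, mem_subgroupOf]
      refine hfpf k k.2 (fun hC => hne (hker' k hC)) y y.2 ((qact_mk_eq hKE hKZ k y).1 hq)
    rw [h2] at h1
    have h3 : (QuotientGroup.mk (⟨x₀, hx₀⟩ : E) : E ⧸ Z.subgroupOf E) ∈
        (⊥ : Subgroup (E ⧸ Z.subgroupOf E)) := by rw [h1]; exact Subgroup.mem_top _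
    rw [Subgroup.mem_bot, QuotientGroup.eq_one_iff, mem_subgroupOf] at h3
    exact hx₀' h3
  obtain ⟨⟨_, k₀, rfl⟩, hg⟩ := hcyc.exists_generator
  refine ⟨k₀, k₀.2, fun k hk => ?_⟩
  obtain ⟨i, hi⟩ := Subgroup.mem_zpowers_iff.1 (hg ⟨φ ⟨k, hk⟩, ⟨k, hk⟩, rfl⟩)
  have hi' : (φ k₀) ^ i = φ ⟨k, hk⟩ := congrArg Subtype.val hi
  refine ⟨i, ?_⟩
  have h1 := hker (k₀ ^ (-i) * ⟨k, hk⟩) (by
    rw [map_mul, map_zpow, ← hi', zpow_neg, inv_mul_cancel])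
  simpa using h1

/-- a group acting on a section of prime order is cyclic modulo the kernel -/
theorem exists_gen_P (hCK : C ≤ K) (hC : (C.subgroupOf K).Normal)
    (hPK : P ≤ normalizer (K : Set Γ)) (hPC : P ≤ normalizer (C : Set Γ)) {r : ℕ} (hr : r.Prime)
    {k₀ : Γ} (hk₀ : k₀ ∈ K) (hgen : ∀ k ∈ K, ∃ i : ℤ, k₀ ^ (-i) * k ∈ C) (hk₀r : k₀ ^ r ∈ C)
    (hk₀C : k₀ ∉ C) :
    ∃ t ∈ P, ∀ x ∈ P, ∃ i : ℤ, ∀ k ∈ K, (t ^ (-i) * x) * k * (t ^ (-i) * x)⁻¹ * k⁻¹ ∈ C := by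
  classical
  let Q := K ⧸ C.subgroupOf K
  let q₀ : Q := QuotientGroup.mk ⟨k₀, hk₀⟩
  have hq : ∀ q : Q, q ∈ Subgroup.zpowers q₀ := by
    intro q
    obtain ⟨y, rfl⟩ := QuotientGroup.mk_surjective q
    obtain ⟨i, hi⟩ := hgen y y.2
    refine Subgroup.mem_zpowers_iff.2 ⟨i, ?_⟩
    change (QuotientGroup.mk (⟨k₀, hk₀⟩ ^ i : K) : Q) = _
    rw [QuotientGroup.eq, mem_subgroupOf]
    simpa using hi
  haveI hcyc : IsCyclic Q := ⟨⟨q₀, hq⟩⟩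
  have hord : orderOf q₀ = r := by
    refine orderOf_eq_prime_iff (hp := ⟨hr⟩) |>.2 ⟨?_, ?_⟩
    · change (QuotientGroup.mk (⟨k₀, hk₀⟩ ^ r : K) : Q) = 1
      rw [QuotientGroup.eq_one_iff, mem_subgroupOf]
      exact hk₀r
    · intro h1
      rw [QuotientGroup.eq_one_iff, mem_subgroupOf] at h1
      exact hk₀C h1
  have hcard : Nat.card Q = r := by
    rw [← orderOf_eq_card_of_forall_mem_zpowers hq, hord]
  haveI : IsCyclic (ZMod (Nat.card Q))ˣ := by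
    rw [hcard]
    exact ZMod.isCyclic_units_prime hr
  haveI : IsCyclic (MulAut Q) := isCyclic_of_surjective (IsCyclic.mulAutMulEquiv Q).symm
    (IsCyclic.mulAutMulEquiv Q).symm.surjective
  let ψ := qact P K C hPK hPC
  obtain ⟨⟨_, t, rfl⟩, hg⟩ := (inferInstance : IsCyclic ψ.range).exists_generator
  refine ⟨t, t.2, fun x hx => ?_⟩
  obtain ⟨i, hi⟩ := Subgroup.mem_zpowers_iff.1 (hg ⟨ψ ⟨x, hx⟩, ⟨x, hx⟩, rfl⟩)
  have hi' : (ψ t) ^ i = ψ ⟨x, hx⟩ := congrArg Subtype.val hi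
  refine ⟨i, fun k hk => ?_⟩
  have h1 : ψ (t ^ (-i) * ⟨x, hx⟩) = 1 := by
    rw [map_mul, map_zpow, ← hi', zpow_neg, inv_mul_cancel]
  have h2 := (qact_mk_eq hPK hPC (t ^ (-i) * ⟨x, hx⟩) ⟨k, hk⟩).1 (by
    change ψ _ _ = _
    rw [h1]; rfl)
  simpa using h2

/-- a 2-group has fixed points on a nontrivial section of a 2-group -/
theorem exists_two_fixed (h : GH E Z) (hE2 : IsPGroup 2 E) (hP2 : IsPGroup 2 P)
    (hPE : P ≤ normalizer (E : Set Γ)) (hPZ : P ≤ normalizer (Z : Set Γ))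
    (hEZ : ∃ x ∈ E, x ∉ Z) : ∃ x ∈ E, x ∉ Z ∧ ∀ n ∈ P, n * x * n⁻¹ * x⁻¹ ∈ Z := by
  classical
  haveI := h.normal
  letI : MulAction P (E ⧸ Z.subgroupOf E) := MulAction.compHom _ (qact P E Z hPE hPZ)
  have hsm : ∀ (p : P) (q : E ⧸ Z.subgroupOf E), p • q = qact P E Z hPE hPZ p q := fun _ _ => rfl
  obtain ⟨x₀, hx₀, hx₀'⟩ := hEZ
  have hW2 : IsPGroup 2 (E ⧸ Z.subgroupOf E) := hE2.to_quotient _
  haveI : Nontrivial (E ⧸ Z.subgroupOf E) := by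
    refine ⟨QuotientGroup.mk ⟨x₀, hx₀⟩, 1, fun h1 => hx₀' ?_⟩
    rw [QuotientGroup.eq_one_iff, mem_subgroupOf] at h1
    exact h1
  have hdvd : 2 ∣ Nat.card (E ⧸ Z.subgroupOf E) := by
    obtain ⟨n, hn0, hn⟩ := (IsPGroup.nontrivial_iff_card hW2).1 inferInstance
    rw [hn]
    exact dvd_pow_self 2 hn0.ne'
  obtain ⟨b, hb, hb1⟩ := hP2.exists_fixed_point_of_prime_dvd_card_of_fixed_point _ hdvd
    (a := (1 : E ⧸ Z.subgroupOf E)) (by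
      intro p
      rw [hsm, map_one])
  obtain ⟨y, rfl⟩ := QuotientGroup.mk_surjective b
  refine ⟨y, y.2, fun hy => hb1 ?_, fun n hn => ?_⟩
  · rw [eq_comm, QuotientGroup.eq_one_iff, mem_subgroupOf]
    exact hy
  · exact (qact_mk_eq hPE hPZ ⟨n, hn⟩ y).1 (hb ⟨n, hn⟩)

/-- index two subgroups containing a proper subgroup -/
theorem exists_index_two (hP2 : IsPGroup 2 P) {Q : Subgroup Γ} (hQP : Q ≤ P) (hne : Q ≠ P) :
    ∃ P₁ : Subgroup Γ, Q ≤ P₁ ∧ P₁ ≤ P ∧ P₁ ≠ P ∧ (∀ p ∈ P, ∀ n ∈ P₁, p * n * p⁻¹ ∈ P₁) ∧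
      ∀ s ∈ P, ∀ t ∈ P, s ∉ P₁ → t ∉ P₁ → s * t ∈ P₁ := by
  classical
  obtain ⟨n, hn⟩ := IsPGroup.iff_card.1 hP2
  have hQ2 : IsPGroup 2 (Q.subgroupOf P) := hP2.to_subgroup _
  obtain ⟨m, hm⟩ := IsPGroup.iff_card.1 hQ2
  have hlt : Nat.card (Q.subgroupOf P) < Nat.card P := by
    refine lt_of_le_of_ne (Nat.le_of_dvd Nat.card_pos (Subgroup.card_subgroup_dvd_card _)) ?_
    intro h1
    apply hne
    have h2 := Subgroup.eq_top_of_card_eq _ h1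
    exact le_antisymm hQP (Subgroup.subgroupOf_eq_top.1 h2)
  rw [hm, hn] at hlt
  have hmn : m < n := (Nat.pow_lt_pow_iff_right (by norm_num)).1 hlt
  haveI : Fact (Nat.Prime 2) := ⟨Nat.prime_two⟩
  obtain ⟨H, hH1, hH2⟩ := Sylow.exists_subgroup_card_pow_prime_le 2 (G := P) (n := m) (m := n - 1)
    (by rw [hn]; exact pow_dvd_pow 2 (Nat.sub_le _ _)) (Q.subgroupOf P) hm (by omega)
  have hidx : H.index = 2 := by
    have h1 := H.card_mul_index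
    rw [hH1, hn] at h1
    have h2 : 2 ^ n = 2 ^ (n - 1) * 2 := by
      rw [← pow_succ]; congr 1; omega
    rw [h2] at h1
    exact Nat.eq_of_mul_eq_mul_left (pow_pos (by norm_num : 0 < 2) (n - 1)) h1
  have hHn : H.Normal := Subgroup.normal_of_index_eq_two hidx
  have hmem : ∀ x : P, (x : Γ) ∈ H.map P.subtype ↔ x ∈ H := by
    intro x
    constructor
    · rintro ⟨y, hy, hxy⟩
      rwa [← Subtype.ext hxy]
    · intro hx
      exact ⟨x, hx, rfl⟩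
  refine ⟨H.map P.subtype, ?_, ?_, ?_, ?_, ?_⟩
  · intro x hx
    exact (hmem ⟨x, hQP hx⟩).2 (hH2 (mem_subgroupOf.2 hx))
  · rintro _ ⟨x, -, rfl⟩
    exact x.2
  · intro h1
    have h2 : H = ⊤ := by
      rw [eq_top_iff]
      intro x _
      exact (hmem x).1 (by rw [h1]; exact x.2)
    rw [h2, Subgroup.index_top] at hidx
    exact absurd hidx (by norm_num)
  · rintro p hp _ ⟨x, hx, rfl⟩
    exact (hmem (⟨p, hp⟩ * x * ⟨p, hp⟩⁻¹)).2 (hHn.conj_mem x hx _)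
  · intro s hs t ht hs' ht'
    refine (hmem (⟨s, hs⟩ * ⟨t, ht⟩)).2 ?_
    rw [Subgroup.mul_mem_iff_of_index_two hidx]
    have h1 : (⟨s, hs⟩ : P) ∉ H := fun hx => hs' ((hmem _).2 hx)
    have h2 : (⟨t, ht⟩ : P) ∉ H := fun hx => ht' ((hmem _).2 hx)
    tauto

/-- solvability gives a proper normal subgroup with abelian quotient -/
theorem commutator_sup_ne (hK : Group.IsSolvable K) (hCK : C ≤ K) (hC : (C.subgroupOf K).Normal)
    (hne : C ≠ K) : ⁅K, K⁆ ⊔ C ≠ K := by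
  intro heq
  haveI := hK
  let Q := K ⧸ C.subgroupOf K
  haveI : Nontrivial Q := by
    rw [← not_subsingleton_iff_nontrivial]
    intro hs
    apply hne
    refine le_antisymm hCK fun k hk => ?_
    have h1 : (QuotientGroup.mk (⟨k, hk⟩ : K) : Q) = 1 := Subsingleton.elim _ _
    rw [QuotientGroup.eq_one_iff, mem_subgroupOf] at h1
    exact h1
  haveI : Group.IsSolvable Q := inferInstance
  have h1 := Group.IsSolvable.commutator_lt_top_of_nontrivial Q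
  apply h1.ne
  rw [eq_top_iff]
  intro q _
  obtain ⟨y, rfl⟩ := QuotientGroup.mk_surjective q
  let M : Subgroup Γ := ((commutator Q).comap (QuotientGroup.mk' (C.subgroupOf K))).map K.subtype
  have hM : K ≤ M := by
    rw [← heq]
    refine sup_le ?_ ?_
    · rw [Subgroup.commutator_le]
      intro a ha b hb
      refine ⟨(⟨a, ha⟩ : K) * (⟨b, hb⟩ : K) * (⟨a, ha⟩ : K)⁻¹ * (⟨b, hb⟩ : K)⁻¹, ?_, rfl⟩
      have h2 : (QuotientGroup.mk (⟨a, ha⟩ : K) : Q) * QuotientGroup.mk (⟨b, hb⟩ : K) *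
          (QuotientGroup.mk (⟨a, ha⟩ : K))⁻¹ * (QuotientGroup.mk (⟨b, hb⟩ : K))⁻¹ ∈ commutator Q :=
        Subgroup.commutator_mem_commutator (Subgroup.mem_top _) (Subgroup.mem_top _)
      exact h2
    · intro c hc
      refine ⟨⟨c, hCK hc⟩, ?_, rfl⟩
      change (QuotientGroup.mk (⟨c, hCK hc⟩ : K) : Q) ∈ commutator Q
      have : (QuotientGroup.mk (⟨c, hCK hc⟩ : K) : Q) = 1 := by
        rw [QuotientGroup.eq_one_iff, mem_subgroupOf]; exact hc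
      rw [this]
      exact Subgroup.one_mem _
  obtain ⟨z, hz, hzy⟩ := hM y.2
  have : z = y := Subtype.ext hzy
  rw [← this]
  exact hz

/-- proper subgroup of `r`-th powers -/
theorem exists_prime_powers (hCK : C ≤ K) (hne : C ≠ K)
    (hKK : ∀ k ∈ K, ∀ l ∈ K, k * l * k⁻¹ * l⁻¹ ∈ C) :
    ∃ (r : ℕ) (K₂ : Subgroup Γ), r.Prime ∧ C ≤ K₂ ∧ K₂ ≤ K ∧ K₂ ≠ K ∧
      (∀ x, x ∈ K₂ ↔ x ∈ K ∧ ∃ l ∈ K, x⁻¹ * l ^ r ∈ C) := by
  classical
  haveI hC : (C.subgroupOf K).Normal := ⟨fun n hn g => by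
    rw [mem_subgroupOf] at hn ⊢
    have h1 := C.mul_mem (hKK g g.2 n n.2) hn
    simpa using h1⟩
  let Q := K ⧸ C.subgroupOf K
  letI : CommGroup Q :=
    { (inferInstance : Group Q) with
      mul_comm := by
        intro a b
        obtain ⟨a, rfl⟩ := QuotientGroup.mk_surjective a
        obtain ⟨b, rfl⟩ := QuotientGroup.mk_surjective b
        rw [← QuotientGroup.mk_mul, ← QuotientGroup.mk_mul, QuotientGroup.eq, mem_subgroupOf]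
        have h1 := hKK b⁻¹ (K.inv_mem b.2) a⁻¹ (K.inv_mem a.2)
        have e1 : (((a * b)⁻¹ * (b * a) : K) : Γ) =
            (b : Γ)⁻¹ * (a : Γ)⁻¹ * (b : Γ)⁻¹⁻¹ * (a : Γ)⁻¹⁻¹ := by
          simp [mul_assoc]
        rw [e1]; exact h1 }
  haveI : Nontrivial Q := by
    rw [← not_subsingleton_iff_nontrivial]
    intro hs
    apply hne
    refine le_antisymm hCK fun k hk => ?_
    have h1 : (QuotientGroup.mk (⟨k, hk⟩ : K) : Q) = 1 := Subsingleton.elim _ _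
    rw [QuotientGroup.eq_one_iff, mem_subgroupOf] at h1
    exact h1
  obtain ⟨r, hr, hrd⟩ := Nat.exists_prime_and_dvd (Finite.one_lt_card (α := Q)).ne'
  haveI : Fact r.Prime := ⟨hr⟩
  obtain ⟨q, hq⟩ := exists_prime_orderOf_dvd_card' r hrd
  let R : Subgroup Q := (powMonoidHom r : Q →* Q).range
  have hR : R ≠ ⊤ := by
    intro h1
    have h2 : Function.Surjective (powMonoidHom r : Q →* Q) := MonoidHom.range_eq_top.1 h1
    have h3 := Finite.injective_iff_surjective.2 h2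
    have h4 : q = 1 := h3 (by
      change q ^ r = 1 ^ r
      rw [one_pow, ← hq, pow_orderOf_eq_one])
    rw [h4, orderOf_one] at hq
    exact hr.one_lt.ne hq
  have hmemR : ∀ y : K, (QuotientGroup.mk y : Q) ∈ R ↔ ∃ l ∈ K, (y : Γ)⁻¹ * l ^ r ∈ C := by
    intro y
    constructor
    · rintro ⟨q', hq'⟩
      obtain ⟨l, rfl⟩ := QuotientGroup.mk_surjective q'
      refine ⟨l, l.2, ?_⟩
      have h5 : (QuotientGroup.mk (l ^ r) : Q) = QuotientGroup.mk y := hq'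
      rw [eq_comm, QuotientGroup.eq, mem_subgroupOf] at h5
      simpa using h5
    · rintro ⟨l, hl, hl'⟩
      refine ⟨QuotientGroup.mk ⟨l, hl⟩, ?_⟩
      change (QuotientGroup.mk (⟨l, hl⟩ ^ r : K) : Q) = QuotientGroup.mk y
      rw [eq_comm, QuotientGroup.eq, mem_subgroupOf]
      simpa using hl'
  let K₂ : Subgroup Γ := (R.comap (QuotientGroup.mk' (C.subgroupOf K))).map K.subtype
  have hmem : ∀ x, x ∈ K₂ ↔ x ∈ K ∧ ∃ l ∈ K, x⁻¹ * l ^ r ∈ C := by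
    intro x
    constructor
    · rintro ⟨y, hy, rfl⟩
      exact ⟨y.2, (hmemR y).1 hy⟩
    · rintro ⟨hx, hx'⟩
      exact ⟨⟨x, hx⟩, (hmemR ⟨x, hx⟩).2 hx', rfl⟩
  refine ⟨r, K₂, hr, ?_, fun x hx => ((hmem x).1 hx).1, ?_, hmem⟩
  · intro c hc
    rw [hmem]
    refine ⟨hCK hc, 1, K.one_mem, ?_⟩
    rw [one_pow, mul_one]
    exact C.inv_mem hc
  · intro h1
    apply hR
    rw [eq_top_iff]
    intro q' _
    obtain ⟨y, rfl⟩ := QuotientGroup.mk_surjective q'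
    rw [hmemR]
    exact ((hmem y).1 (by rw [h1]; exact y.2)).2

end Cfsg.Agent.H9.Dade
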