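import Cfsg.Agent.H9.Dade5
import Cfsg.Agent.H9.Dade6

/-!
# Dade's extension theorem for extraspecial 2-groups, reductions (owner: helper9)
-/

set_option autoImplicit false
set_option linter.unusedSectionVars false
set_option linter.style.haveILetI false

namespace Cfsg.Agent.H9.Dade

open Subgroup

variable {Γ : Type*} [Group Γ] [Finite Γ] {B : Type*} [Ring B] [Algebra ℂ B]
variable {e : B} {S : Set B} {E A P K N : Subgroup Γ} {ρ : Γ → B}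

/-- the scalar elements -/
def Zs (h : Rp e S E ρ) : Subgroup Γ where
  carrier := {x | x ∈ E ∧ ∃ c : ℂ, ρ x = c • e}
  one_mem' := ⟨E.one_mem, 1, by rw [h.one, one_smul]⟩
  mul_mem' := by
    rintro x y ⟨hx, c, hc⟩ ⟨hy, d, hd⟩
    exact ⟨E.mul_mem hx hy, c * d, by rw [h.mul x hx y hy, hc, hd, smul_mul_smul_comm, h.idem]⟩
  inv_mem' := by
    rintro x ⟨hx, c, hc⟩
    refine ⟨E.inv_mem hx, ?_⟩
    have h1 := h.mul_inv hx
    have h2 := (h.cor _ (E.inv_mem hx)).left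
    rw [hc, smul_mul_assoc, h2] at h1
    by_cases hc0 : c = 0
    · rw [hc0, zero_smul] at h1
      exact ⟨0, by rw [← h2, ← h1, zero_mul, smul_zero]⟩
    · exact ⟨c⁻¹, by rw [← h1, smul_smul, inv_mul_cancel₀ hc0, one_smul]⟩

theorem mem_Zs {h : Rp e S E ρ} {x : Γ} : x ∈ Zs h ↔ x ∈ E ∧ ∃ c : ℂ, ρ x = c • e := Iff.rfl

theorem Zs_norm (h : Rp e S E ρ) {X : Subgroup Γ} (hX : X ≤ normalizer (E : Set Γ))
    (hi : ∀ g ∈ X, HasImp e S E ρ g) : X ≤ normalizer ((Zs h : Subgroup Γ) : Set Γ) := by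
  refine le_normalizer_of ?_
  rintro g hg x ⟨hx, c, hc⟩
  exact ⟨nconj hX hg hx, c, sc_conj h (hX hg) (hi g hg) hx hc⟩

theorem Cf.gh (h : Cf e S E ρ) : GH E (Zs h.toRp) :=
  ⟨fun _ hx => hx.1, fun x hx y hy =>
    ⟨E.mul_mem (E.mul_mem (E.mul_mem hx hy) (E.inv_mem hx)) (E.inv_mem hy), h.csc x hx y hy⟩⟩

theorem perp_norm (h : Rp e S E ρ) (hA : A ≤ E) {X : Subgroup Γ}
    (hX : X ≤ normalizer (E : Set Γ)) (hXA : X ≤ normalizer (A : Set Γ))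
    (hi : ∀ g ∈ X, HasImp e S E ρ g) : X ≤ normalizer ((perp h A hA : Subgroup Γ) : Set Γ) :=
  le_normalizer_of fun g hg _ hx => perp_normalized h hA (hX hg) (hXA hg) (hi g hg) hx

theorem Zs_le_perp (h : Rp e S E ρ) (hA : A ≤ E) : Zs h ≤ perp h A hA := by
  rintro x ⟨hx, c, hc⟩
  refine ⟨hx, fun a ha => ?_⟩
  rw [hc, smul_mul_assoc, mul_smul_comm, (h.cor a (hA ha)).left, (h.cor a (hA ha)).right]

theorem av_eq_zero' (h : Rp e S E ρ) (hcs : CommSc e E ρ) {D : Subgroup Γ} (hD : D ≤ E) {y x : Γ}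
    (hy : y ∈ E) (hx : x ∈ D) (hxy : ρ x * ρ y ≠ ρ y * ρ x) : av D ρ (ρ y) = 0 := by
  have h1 : ∃ s : ℂ, av D ρ (ρ y) = s • ρ y := by
    have h2 : ∀ z : Γ, ∃ c : ℂ, z ∈ D → ρ z * ρ y * ρ z⁻¹ = c • ρ y := by
      intro z
      by_cases hz : z ∈ D
      · obtain ⟨c, hc⟩ := conj_eq_smul h hcs (hD hz) hy
        exact ⟨c, fun _ => hc⟩
      · exact ⟨0, fun h => absurd h hz⟩
    choose c hc using h2
    refine ⟨∑ z ∈ fs D, c z, ?_⟩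
    unfold av
    rw [Finset.sum_smul]
    exact Finset.sum_congr rfl fun z hz => hc z (mem_fs.1 hz)
  obtain ⟨s, hs⟩ := h1
  have h2 := av_comm (h.mono_left hD subset_rfl) (ρ y) hx
  rw [hs, smul_mul_assoc, mul_smul_comm] at h2
  have h3 : s • (ρ y * ρ x - ρ x * ρ y) = 0 := by rw [smul_sub, h2, sub_self]
  rcases smul_eq_zero.1 h3 with h4 | h4
  · rw [hs, h4, zero_smul]
  · exact absurd (sub_eq_zero.1 h4).symm hxy

theorem exists_perp_mul (he : e ≠ 0) (h : Cf e S E ρ) (hA : A ≤ E)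
    (hnd : A ⊓ perp h.toRp A hA ≤ Zs h.toRp) {x : Γ} (hx : x ∈ E) :
    ∃ p ∈ perp h.toRp A hA, ∃ a ∈ A, x = p * a := by
  have hrA : Rp e S A ρ := h.toRp.mono_left hA subset_rfl
  have hcsA : CommSc e A ρ := fun x hx y hy => h.csc x (hA hx) y (hA hy)
  have hndA : ND e A ρ := by
    intro y hy hyc
    exact (hnd ⟨hy, hA hy, fun a ha => (hyc a ha).symm⟩).2
  obtain ⟨M, hM, hrec⟩ := reconstruct hrA hcsA hndA
  have h1 := hrec (ρ x) (h.cor x hx).left (h.cor x hx).right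
  obtain ⟨b, hb, hne⟩ : ∃ b ∈ A, av A ρ (ρ x * ρ b) ≠ 0 := by
    by_contra hcon
    push Not at hcon
    rw [Finset.sum_eq_zero (fun b hb => by rw [hcon b (mem_fs.1 hb), zero_mul])] at h1
    rcases smul_eq_zero.1 h1.symm with h2 | h2
    · exact hM h2
    · exact h.toRp.ne_zero he hx h2
  refine ⟨x * b, ⟨E.mul_mem hx (hA hb), ?_⟩, b⁻¹, A.inv_mem hb, by group⟩
  intro a ha
  by_contra hcon
  apply hne
  rw [← h.mul x hx b (hA hb)]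
  exact av_eq_zero' h.toRp h.csc hA (E.mul_mem hx (hA hb)) ha fun h3 => hcon h3.symm

/-- all hypotheses of the main theorem -/
structure Dt (E K P : Subgroup Γ) (e : B) (S : Set B) (ρ : Γ → B) : Prop where
  he : e ≠ 0
  cf : Cf e S E ρ
  hE2 : IsPGroup 2 E
  hP2 : IsPGroup 2 P
  hK : Odd (Nat.card K)
  hKE : K ≤ normalizer (E : Set Γ)
  hPE : P ≤ normalizer (E : Set Γ)
  hPK : P ≤ normalizer (K : Set Γ)
  hiK : ∀ g ∈ K, HasImp e S E ρ g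
  hiP : ∀ g ∈ P, HasImp e S E ρ g
  hfix : ∀ x ∈ E, (∀ k ∈ K, k * x * k⁻¹ = x) → ∃ c : ℂ, ρ x = c • e

/-- induction hypothesis -/
def IHyp (Γ : Type*) [Group Γ] [Finite Γ] (B : Type*) [Ring B] [Algebra ℂ B] (n : ℕ) : Prop :=
  ∀ (E K P : Subgroup Γ) (e : B) (S : Set B) (ρ : Γ → B), Nat.card E + Nat.card K < n →
    Dt E K P e S ρ → ExtP e S E ρ P

theorem card_lt_of {X Y : Subgroup Γ} (h : X ≤ Y) (hne : X ≠ Y) : Nat.card X < Nat.card Y := by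
  refine lt_of_le_of_ne (Nat.le_of_dvd Nat.card_pos (Subgroup.card_dvd_of_le h)) fun h1 => hne ?_
  exact Subgroup.eq_of_le_of_card_ge h h1.ge

theorem case_scalar (h : Dt E K P e S ρ) (hsc : ∀ x ∈ E, ∃ c : ℂ, ρ x = c • e) :
    ExtP e S E ρ P := by
  refine ⟨fun _ => e, ⟨rfl, fun _ _ _ _ => h.cf.idem.symm, fun _ _ => h.cf.cor_one⟩, ?_⟩
  intro p hp x hx
  obtain ⟨c, hc⟩ := hsc x hx
  rw [sc_conj h.cf.toRp (h.hPE hp) (h.hiP p hp) hx hc, hc, mul_smul_comm, smul_mul_assoc]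

theorem perp_ne (h : Cf e S E ρ) (hA : A ≤ E) (hAZ : ¬ A ≤ Zs h.toRp) :
    perp h.toRp A hA ≠ E := by
  intro h1
  apply hAZ
  intro a ha
  refine ⟨hA ha, h.schur _ (h.cor a (hA ha)) fun x hx => ?_⟩
  rw [← h1] at hx
  exact (hx.2 a ha).symm

theorem case_iso (h : Dt E K P e S ρ) (IH : IHyp Γ B (Nat.card E + Nat.card K)) (hA : A ≤ E)
    (hAZ : ¬ A ≤ Zs h.cf.toRp) (hKA : K ≤ normalizer (A : Set Γ))
    (hPA : P ≤ normalizer (A : Set Γ)) (hiso : A ≤ perp h.cf.toRp A hA) : ExtP e S E ρ P := by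
  obtain ⟨l, hl, hlK, hlP⟩ := exists_lam h.he h.cf.toRp h.hE2 hA
    (fun a ha b hb => (hiso ha).2 b hb) h.hK h.hKE h.hPE hKA hPA h.hPK h.hfix h.hiK h.hiP
  refine idl_lift h.he h.cf hA hl h.hPE hPA hlP h.hiP ?_
  have hff := idl_idem h.cf.toRp hA hl
  have hfc := idl_cor h.cf.toRp hA l
  refine IH _ K P _ _ _ ?_ ⟨idl_ne_zero h.he h.cf hA hl, idl_cf h.cf hA hl, ?_, h.hP2, h.hK, ?_, ?_,
    h.hPK, ?_, ?_, ?_⟩
  · exact Nat.add_lt_add_right (card_lt_of perp_le (perp_ne h.cf hA hAZ)) _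
  · exact h.hE2.to_le perp_le
  · exact perp_norm h.cf.toRp hA h.hKE hKA h.hiK
  · exact perp_norm h.cf.toRp hA h.hPE hPA h.hiP
  · intro g hg
    exact idl_hasImp h.cf.toRp hA hl (hKA hg) (hlK g hg) (h.hiK g hg)
  · intro g hg
    exact idl_hasImp h.cf.toRp hA hl (hPA hg) (hlP g hg) (h.hiP g hg)
  · intro x hx hfx
    obtain ⟨c, hc⟩ := h.hfix x hx.1 hfx
    refine ⟨c, ?_⟩
    change ρ x * idl A ρ l = c • idl A ρ l
    rw [hc, smul_mul_assoc, hfc.left]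

theorem dt_factor {E₁ E₂ P₁ : Subgroup Γ} (h : Dt E K P e S ρ) (h1 : E₁ ≤ E) (h2 : E₂ ≤ E)
    (hE : ∀ x ∈ E, ∃ x₁ ∈ E₁, ∃ x₂ ∈ E₂, x = x₁ * x₂)
    (hc : ∀ x ∈ E₁, ∀ y ∈ E₂, ρ x * ρ y = ρ y * ρ x) (hP₁ : P₁ ≤ P)
    (hK1 : K ≤ normalizer (E₁ : Set Γ)) (hP1 : P₁ ≤ normalizer (E₁ : Set Γ)) :
    Dt E₁ K P₁ e (S ∪ ρ '' (E₂ : Set Γ)) ρ where
  he := h.he
  cf := h.cf.factor h1 h2 hE hc
  hE2 := h.hE2.to_le h1
  hP2 := h.hP2.to_le hP₁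
  hK := h.hK
  hKE := hK1
  hPE := hP1
  hPK := hP₁.trans h.hPK
  hiK := fun g hg => factor_imp h.he h.cf h1 h2 hE hc (h.hKE hg) (hK1 hg) (h.hiK g hg)
  hiP := fun g hg => factor_imp h.he h.cf h1 h2 hE hc (h.hPE (hP₁ hg)) (hP1 hg) (h.hiP g (hP₁ hg))
  hfix := fun x hx => h.hfix x (h1 hx)

theorem case_split (h : Dt E K P e S ρ) (IH : IHyp Γ B (Nat.card E + Nat.card K)) (hA : A ≤ E)
    (hAZ : ¬ A ≤ Zs h.cf.toRp) (hZA : Zs h.cf.toRp ≤ A) (hKA : K ≤ normalizer (A : Set Γ))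
    (hPA : P ≤ normalizer (A : Set Γ)) (hnd : A ⊓ perp h.cf.toRp A hA ≤ Zs h.cf.toRp)
    (hne : A ≠ E) : ExtP e S E ρ P := by
  set D := perp h.cf.toRp A hA with hD
  have hDE : D ≤ E := perp_le
  have hKD : K ≤ normalizer (D : Set Γ) := perp_norm h.cf.toRp hA h.hKE hKA h.hiK
  have hPD : P ≤ normalizer (D : Set Γ) := perp_norm h.cf.toRp hA h.hPE hPA h.hiP
  have hE' : ∀ x ∈ E, ∃ x₁ ∈ D, ∃ x₂ ∈ A, x = x₁ * x₂ := fun x hx =>
    exists_perp_mul h.he h.cf hA hnd hx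
  have hEA := h.cf.gh.le_norm hZA hA
  have hE : ∀ x ∈ E, ∃ x₁ ∈ A, ∃ x₂ ∈ D, x = x₁ * x₂ := by
    intro x hx
    obtain ⟨p, hp, a, ha, rfl⟩ := hE' x hx
    exact ⟨p * a * p⁻¹, nconj hEA (hDE hp) ha, p, hp, by group⟩
  have hc : ∀ x ∈ A, ∀ y ∈ D, ρ x * ρ y = ρ y * ρ x := fun x hx y hy => (hy.2 x hx).symm
  have hc' : ∀ x ∈ D, ∀ y ∈ A, ρ x * ρ y = ρ y * ρ x := fun x hx y hy => hx.2 y hy
  obtain ⟨T₁, hT1, hT1i⟩ := IH A K P e _ ρ (Nat.add_lt_add_right (card_lt_of hA hne) _)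
    (dt_factor h hA hDE hE hc le_rfl hKA hPA)
  obtain ⟨T₂, hT2, hT2i⟩ := IH D K P e _ ρ
    (Nat.add_lt_add_right (card_lt_of hDE (perp_ne h.cf hA hAZ)) _)
    (dt_factor h hDE hA hE' hc' le_rfl hKD hPD)
  exact ⟨_, factor_combine h.cf hA hDE hE hE' hc hPA hPD hT1 hT1i hT2 hT2i⟩

end Cfsg.Agent.H9.Dade
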