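import Cfsg.Agent.H9.Dade7
import Cfsg.Agent.S0205

/-!
# Dade's extension theorem for extraspecial 2-groups, irreducible case (owner: helper9)
-/

set_option autoImplicit false
set_option linter.unusedSectionVars false
set_option linter.style.haveILetI false

namespace Cfsg.Agent.H9.Dade

open Subgroup

variable {Γ : Type*} [Group Γ] [Finite Γ] {B : Type*} [Ring B] [Algebra ℂ B]
variable {e : B} {S : Set B} {E A P K N : Subgroup Γ} {ρ : Γ → B}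

/-- elements of `K` fixing `x` modulo `Z` -/
def stb (Z K : Subgroup Γ) (hKZ : K ≤ normalizer (Z : Set Γ)) (x : Γ) : Subgroup Γ where
  carrier := {k | k ∈ K ∧ k * x * k⁻¹ * x⁻¹ ∈ Z}
  one_mem' := ⟨K.one_mem, by
    have : (1 : Γ) * x * 1⁻¹ * x⁻¹ = 1 := by group
    rw [this]; exact Z.one_mem⟩
  mul_mem' := by
    rintro k l ⟨hk, hk'⟩ ⟨hl, hl'⟩
    refine ⟨K.mul_mem hk hl, ?_⟩
    have h1 := Z.mul_mem (nconj hKZ hk hl') hk'
    have e1 : k * (l * x * l⁻¹ * x⁻¹) * k⁻¹ * (k * x * k⁻¹ * x⁻¹) =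
        k * l * x * (k * l)⁻¹ * x⁻¹ := by group
    rwa [e1] at h1
  inv_mem' := by
    rintro k ⟨hk, hk'⟩
    refine ⟨K.inv_mem hk, ?_⟩
    have h1 := nconj hKZ (K.inv_mem hk) (Z.inv_mem hk')
    have e1 : k⁻¹ * (k * x * k⁻¹ * x⁻¹)⁻¹ * k⁻¹⁻¹ = k⁻¹ * x * k⁻¹⁻¹ * x⁻¹ := by group
    rwa [e1] at h1

theorem comm_of_inv (h : Rp e S E ρ) {x y : Γ} (hx : x ∈ E) (hy : y ∈ E)
    (hxy : ρ x * ρ y = ρ y * ρ x) : ρ x * ρ y⁻¹ = ρ y⁻¹ * ρ x :=
  h.comm_inv hy (h.cor x hx).left (h.cor x hx).right hxy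

/-- `k x k⁻¹ x⁻¹` commutes with `y` as soon as `k` centralizes `y` modulo scalars -/
theorem comm_comm (he : e ≠ 0) (h : Cf e S E ρ) {k x y : Γ} (hk : k ∈ normalizer (E : Set Γ))
    (hi : HasImp e S E ρ k) (hx : x ∈ E) (hy : y ∈ E) (hky : k * y * k⁻¹ * y⁻¹ ∈ Zs h.toRp) :
    ρ (k * x * k⁻¹ * x⁻¹) * ρ y = ρ y * ρ (k * x * k⁻¹ * x⁻¹) := by
  obtain ⟨u, u', hu, hu', h1, h2, h3⟩ := hi
  obtain ⟨c, hc⟩ := conj_eq_smul h.toRp h.csc hx hy
  have hkx : k * x * k⁻¹ ∈ E := (mem_normalizer_iff.1 hk x).1 hx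
  have hky' : k * y * k⁻¹ ∈ E := (mem_normalizer_iff.1 hk y).1 hy
  -- `ρ x ρ y = c ρ y ρ x`
  have hxy : ρ x * ρ y = c • (ρ y * ρ x) := by
    calc ρ x * ρ y = (ρ x * ρ y * ρ x⁻¹) * ρ x := by
          rw [mul_assoc, h.inv_mul hx, mul_assoc, (h.cor y hy).right]
      _ = c • (ρ y * ρ x) := by rw [hc, smul_mul_assoc]
  have hyx : ρ y * ρ x⁻¹ = c • (ρ x⁻¹ * ρ y) := by
    calc ρ y * ρ x⁻¹ = ρ x⁻¹ * (ρ x * ρ y * ρ x⁻¹) := by
          simp only [← mul_assoc]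
          rw [h.inv_mul hx, (h.cor y hy).left]
      _ = c • (ρ x⁻¹ * ρ y) := by rw [hc, mul_smul_comm]
  -- conjugated relation
  have hxy2 : ρ (k * x * k⁻¹) * ρ (k * y * k⁻¹) = c • (ρ (k * y * k⁻¹) * ρ (k * x * k⁻¹)) := by
    rw [imp_eq h.toRp hk h1 h3 hx, imp_eq h.toRp hk h1 h3 hy]
    calc u * ρ x * u' * (u * ρ y * u') = u * (ρ x * ((u' * u) * ρ y)) * u' := by
          simp only [mul_assoc]
      _ = u * (ρ x * ρ y) * u' := by rw [h2, (h.cor y hy).left]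
      _ = c • (u * (ρ y * ρ x) * u') := by rw [hxy, mul_smul_comm, smul_mul_assoc]
      _ = c • (u * (ρ y * ((u' * u) * ρ x)) * u') := by rw [h2, (h.cor x hx).left]
      _ = _ := by simp only [mul_assoc]
  obtain ⟨-, d, hd⟩ := hky
  have hyd : ρ (k * y * k⁻¹) = d • ρ y := by
    have e1 : k * y * k⁻¹ = (k * y * k⁻¹ * y⁻¹) * y := by group
    rw [e1, h.mul _ (E.mul_mem hky' (E.inv_mem hy)) _ hy, hd, smul_mul_assoc, (h.cor y hy).left]
  have hd0 : d ≠ 0 := by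
    rintro rfl
    rw [zero_smul] at hyd
    exact h.toRp.ne_zero he hky' hyd
  have hxy3 : ρ (k * x * k⁻¹) * ρ y = c • (ρ y * ρ (k * x * k⁻¹)) := by
    rw [hyd, mul_smul_comm, smul_mul_assoc, smul_comm c d] at hxy2
    exact smul_right_injective B hd0 hxy2
  rw [h.mul _ hkx _ (E.inv_mem hx)]
  calc ρ (k * x * k⁻¹) * ρ x⁻¹ * ρ y = ρ (k * x * k⁻¹) * (ρ x⁻¹ * ρ y) := by rw [mul_assoc]
    _ = ρ y * (ρ (k * x * k⁻¹) * ρ x⁻¹) := by
      by_cases hc0 : c = 0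
      · exfalso
        rw [hc0, zero_smul] at hxy
        have : ρ (x * y) = 0 := by rw [h.mul x hx y hy, hxy]
        exact h.toRp.ne_zero he (E.mul_mem hx hy) this
      · apply smul_right_injective B hc0
        change c • _ = c • _
        rw [← mul_smul_comm, ← hyx, ← mul_assoc, hxy3, smul_mul_assoc, mul_assoc]

/-- orthogonality of maximal components -/
theorem orth (h : Dt E K P e S ρ) {C : Subgroup Γ} {m : ℕ}
    (hmax : ∀ M : Subgroup Γ, C ≤ M → M ≤ K → ¬ cen h.cf.gh M ≤ Zs h.cf.toRp → Nat.card M ≤ m)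
    (hKL : ∀ M : Subgroup Γ, C ≤ M → M ≤ K → K ≤ normalizer (M : Set Γ))
    {L L' : Subgroup Γ} (hCL : C ≤ L) (hLK : L ≤ K) (hCL' : C ≤ L') (hL'K : L' ≤ K)
    (hL : Nat.card L = m) (hL' : Nat.card L' = m) (hne : L ≠ L') {x y : Γ}
    (hx : x ∈ cen h.cf.gh L) (hy : y ∈ cen h.cf.gh L') : ρ x * ρ y = ρ y * ρ x := by
  have hcf := h.cf
  have hKZ := Zs_norm hcf.toRp h.hKE h.hiK
  set W' := cen hcf.gh L' with hW'
  have hW'E : W' ≤ E := cen_le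
  set D := cen hcf.gh L ⊓ perp hcf.toRp W' hW'E with hD
  by_contra hcon
  have hxD : x ∉ D := fun hxD => hcon (hxD.2.2 y hy)
  have hZD : Zs hcf.toRp ≤ D := le_inf (le_cen (hLK.trans hKZ)) (Zs_le_perp hcf.toRp hW'E)
  have hDE : D ≤ E := inf_le_left.trans cen_le
  have hKcL := cen_norm hcf.gh h.hKE hKZ (hKL L hCL hLK)
  have hKcL' := cen_norm hcf.gh h.hKE hKZ (hKL L' hCL' hL'K)
  have hKp := perp_norm hcf.toRp hW'E h.hKE hKcL' h.hiK
  have hKD : K ≤ normalizer (D : Set Γ) := le_normalizer_of fun g hg z hz =>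
    ⟨nconj hKcL hg hz.1, nconj hKp hg hz.2⟩
  have hfx : ∀ k ∈ L', k * x * k⁻¹ * x⁻¹ ∈ D := by
    intro k hk
    have hkK := hL'K hk
    have h1 : k * x * k⁻¹ * x⁻¹ ∈ cen hcf.gh L :=
      Subgroup.mul_mem _ (nconj hKcL hkK hx) (Subgroup.inv_mem _ hx)
    refine ⟨h1, h1.1, fun z hz => ?_⟩
    exact comm_comm h.he hcf (h.hKE hkK) (h.hiK k hkK) hx.1 hz.1 (hz.2 k hk)
  have hL'odd : Odd (Nat.card L') := h.hK.of_dvd_nat (Subgroup.card_dvd_of_le hL'K)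
  obtain ⟨c, hc, hc1, hc2⟩ := exists_fixed (K := L') (M := D) (A := cen hcf.gh L)
    (h.hE2.to_le cen_le) hL'odd (hL'K.trans hKcL) inf_le_left
    (cen_le.trans (hcf.gh.le_norm hZD hDE)) (hL'K.trans hKD) hx hfx
  have hcD : c ∉ D := by
    intro hcD
    apply hxD
    have h2 := D.mul_mem hcD (D.inv_mem hc2)
    have e1 : c * (x⁻¹ * c)⁻¹ = x := by group
    rwa [e1] at h2
  have h3 : L ⊔ L' ≤ stb (Zs hcf.toRp) K hKZ c := by
    refine sup_le (fun k hk => ⟨hLK hk, hc.2 k hk⟩) fun k hk => ⟨hL'K hk, ?_⟩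
    rw [hc1 k hk, mul_inv_cancel]
    exact Subgroup.one_mem _
  have h4 : ¬ cen hcf.gh (L ⊔ L') ≤ Zs hcf.toRp := by
    intro h5
    apply hcD
    exact hZD (h5 ⟨hc.1, fun k hk => (h3 hk).2⟩)
  have h5 := hmax (L ⊔ L') (hCL.trans le_sup_left) (sup_le hLK hL'K) h4
  have h6 : L = L ⊔ L' := Subgroup.eq_of_le_of_card_ge le_sup_left (by rw [hL]; exact h5)
  have h7 : L' ≤ L := by rw [h6]; exact le_sup_right
  exact hne (Subgroup.eq_of_le_of_card_ge h7 (by rw [hL, hL'])).symm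

theorem closure_conj {s : Set Γ} {g : Γ} (hs : ∀ x ∈ s, g * x * g⁻¹ ∈ closure s) {x : Γ}
    (hx : x ∈ closure s) : g * x * g⁻¹ ∈ closure s := by
  have h1 : closure s ≤ (closure s).comap (MulAut.conj g).toMonoidHom := by
    rw [closure_le]
    exact hs
  exact h1 hx

theorem mem_sup_mul {X Y : Subgroup Γ} (hYX : Y ≤ normalizer (X : Set Γ)) {x : Γ}
    (hx : x ∈ X ⊔ Y) : ∃ a ∈ X, ∃ b ∈ Y, x = a * b := by
  let M : Subgroup Γ :=
    { carrier := {x | ∃ a ∈ X, ∃ b ∈ Y, x = a * b}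
      one_mem' := ⟨1, X.one_mem, 1, Y.one_mem, by group⟩
      mul_mem' := by
        rintro _ _ ⟨a, ha, b, hb, rfl⟩ ⟨c, hc, d, hd, rfl⟩
        exact ⟨a * (b * c * b⁻¹), X.mul_mem ha (nconj hYX hb hc), b * d, Y.mul_mem hb hd, by group⟩
      inv_mem' := by
        rintro _ ⟨a, ha, b, hb, rfl⟩
        exact ⟨b⁻¹ * a⁻¹ * b⁻¹⁻¹, nconj hYX (Y.inv_mem hb) (X.inv_mem ha), b⁻¹, Y.inv_mem hb,
          by group⟩ }
  have h1 : X ⊔ Y ≤ M := sup_le (fun a ha => ⟨a, ha, 1, Y.one_mem, by group⟩)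
    fun b hb => ⟨1, X.one_mem, b, hb, by group⟩
  exact h1 hx

/-- elements of `E` commuting with a fixed `b` -/
def cb (h : Rp e S E ρ) (b : Γ) (hb : b ∈ E) : Subgroup Γ where
  carrier := {a | a ∈ E ∧ ρ b * ρ a = ρ a * ρ b}
  one_mem' := ⟨E.one_mem, by rw [h.one, (h.cor b hb).left, (h.cor b hb).right]⟩
  mul_mem' := by
    rintro x y ⟨hx, hx'⟩ ⟨hy, hy'⟩
    exact ⟨E.mul_mem hx hy, by rw [h.mul x hx y hy, ← mul_assoc, hx', mul_assoc, hy', mul_assoc]⟩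
  inv_mem' := by
    rintro x ⟨hx, hx'⟩
    exact ⟨E.inv_mem hx, comm_of_inv h hb hx hx'⟩

/-- the imprimitive case -/
theorem case_imprim (h : Dt E K P e S ρ) (IH : IHyp Γ B (Nat.card E + Nat.card K))
    (hirr : ∀ M : Subgroup Γ, Zs h.cf.toRp ≤ M → M ≤ E → K ≤ normalizer (M : Set Γ) →
      P ≤ normalizer (M : Set Γ) → M ≤ Zs h.cf.toRp ∨ E ≤ M)
    {C L : Subgroup Γ} {m : ℕ}
    (hmax : ∀ M : Subgroup Γ, C ≤ M → M ≤ K → ¬ cen h.cf.gh M ≤ Zs h.cf.toRp → Nat.card M ≤ m)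
    (hKL : ∀ M : Subgroup Γ, C ≤ M → M ≤ K → K ≤ normalizer (M : Set Γ))
    (hPC : P ≤ normalizer (C : Set Γ))
    (hCL : C ≤ L) (hLK : L ≤ K) (hL : Nat.card L = m) (hLZ : ¬ cen h.cf.gh L ≤ Zs h.cf.toRp)
    (hPL : ¬ P ≤ normalizer (L : Set Γ)) : ExtP e S E ρ P := by
  classical
  have hcf := h.cf
  have hKZ := Zs_norm hcf.toRp h.hKE h.hiK
  have hPZ := Zs_norm hcf.toRp h.hPE h.hiP
  set Z := Zs hcf.toRp with hZ
  set W := cen hcf.gh L with hW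
  have hWE : W ≤ E := cen_le
  have hZW : Z ≤ W := le_cen (hLK.trans hKZ)
  have hKW := cen_norm hcf.gh h.hKE hKZ (hKL L hCL hLK)
  rw [← hW] at hKW
  obtain ⟨P₁, hQ, hP₁P, hP₁ne, hP₁n, hP₁2⟩ := exists_index_two h.hP2
    (Q := P ⊓ normalizer (L : Set Γ)) inf_le_left (fun h1 => hPL (inf_eq_left.1 h1))
  obtain ⟨t, htP, htP₁⟩ : ∃ t ∈ P, t ∉ P₁ := by
    by_contra hcon
    push Not at hcon
    exact hP₁ne (le_antisymm hP₁P hcon)
  let s₁ : Set Γ := {x | ∃ p ∈ P₁, ∃ y ∈ W, x = p * y * p⁻¹}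
  let s₂ : Set Γ := {x | ∃ p ∈ P, p ∉ P₁ ∧ ∃ y ∈ W, x = p * y * p⁻¹}
  let E₁ := closure s₁
  let E₂ := closure s₂
  have hs₁E : s₁ ⊆ E := by
    rintro _ ⟨p, hp, y, hy, rfl⟩
    exact nconj h.hPE (hP₁P hp) (hWE hy)
  have hs₂E : s₂ ⊆ E := by
    rintro _ ⟨p, hp, -, y, hy, rfl⟩
    exact nconj h.hPE hp (hWE hy)
  have h1 : E₁ ≤ E := (closure_le _).2 hs₁E
  have h2 : E₂ ≤ E := (closure_le _).2 hs₂E
  -- orthogonality of generators
  have hgen : ∀ x ∈ s₁, ∀ y ∈ s₂, ρ x * ρ y = ρ y * ρ x := by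
    rintro _ ⟨p, hp, y, hy, rfl⟩ _ ⟨q, hq, hq₁, z, hz, rfl⟩
    have hpP := hP₁P hp
    let Lp := L.map (MulAut.conj p).toMonoidHom
    let Lq := L.map (MulAut.conj q).toMonoidHom
    have hmemc : ∀ (g k : Γ), k ∈ L.map (MulAut.conj g).toMonoidHom ↔ g⁻¹ * k * g ∈ L := by
      intro g k
      constructor
      · rintro ⟨l, hl, rfl⟩
        have e1 : g⁻¹ * ((MulAut.conj g).toMonoidHom l) * g = l := by
          change g⁻¹ * (g * l * g⁻¹) * g = l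
          group
        rw [e1]; exact hl
      · intro hk
        refine ⟨_, hk, ?_⟩
        change g * (g⁻¹ * k * g) * g⁻¹ = k
        group
    have hcc : ∀ g ∈ P, C ≤ L.map (MulAut.conj g).toMonoidHom := by
      intro g hg c hc
      rw [hmemc]
      have := nconj hPC (P.inv_mem hg) hc
      rw [inv_inv] at this
      exact hCL this
    have hcK : ∀ g ∈ P, L.map (MulAut.conj g).toMonoidHom ≤ K := by
      rintro g hg _ ⟨l, hl, rfl⟩
      exact nconj h.hPK hg (hLK hl)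
    have hcard : ∀ g : Γ, Nat.card (L.map (MulAut.conj g).toMonoidHom) = m := by
      intro g
      rw [← hL]
      exact Subgroup.card_map_of_injective (MulAut.conj g).injective
    have hcen : ∀ g ∈ P, ∀ w ∈ W, g * w * g⁻¹ ∈ cen hcf.gh (L.map (MulAut.conj g).toMonoidHom) := by
      intro g hg w hw
      obtain ⟨k1, k2⟩ := cen_conj hcf.gh h.hPE hPZ hg hw
      exact ⟨k1, fun k hk => k2 k ((hmemc g k).1 hk)⟩
    refine orth h hmax hKL (hcc p hpP) (hcK p hpP) (hcc q hq) (hcK q hq) (hcard p) (hcard q) ?_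
      (hcen p hpP y hy) (hcen q hq z hz)
    intro heq
    apply hq₁
    have h3 : q⁻¹ * p ∈ P ⊓ normalizer (L : Set Γ) := by
      refine ⟨P.mul_mem (P.inv_mem hq) hpP, mem_normalizer_iff.2 fun k => ?_⟩
      have h4 := hmemc p (p * k * p⁻¹)
      have e1 : p⁻¹ * (p * k * p⁻¹) * p = k := by group
      rw [e1, heq, hmemc q] at h4
      have e2 : q⁻¹ * (p * k * p⁻¹) * q = q⁻¹ * p * k * (q⁻¹ * p)⁻¹ := by group
      rw [e2] at h4
      exact h4.symm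
    have h5 := P₁.mul_mem hp (P₁.inv_mem (hQ h3))
    have e3 : p * (q⁻¹ * p)⁻¹ = q := by group
    rwa [e3] at h5
  have hc : ∀ x ∈ E₁, ∀ y ∈ E₂, ρ x * ρ y = ρ y * ρ x := by
    intro x hx y hy
    have k1 : ∀ y' ∈ s₂, ρ x * ρ y' = ρ y' * ρ x := by
      intro y' hy'
      have k2 : E₁ ≤ cb hcf.toRp y' (hs₂E hy') := by
        refine (closure_le _).2 fun z hz => ⟨hs₁E hz, (hgen z hz y' hy').symm⟩
      exact (k2 hx).2.symm
    have k3 : E₂ ≤ cb hcf.toRp x (h1 hx) := by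
      refine (closure_le _).2 fun z hz => ⟨hs₂E hz, k1 z hz⟩
    exact (k3 hy).2
  have hZE₁ : Z ≤ E₁ := fun z hz => subset_closure ⟨1, P₁.one_mem, z, hZW hz, by group⟩
  have hZE₂ : Z ≤ E₂ := fun z hz => subset_closure ⟨t, htP, htP₁, t⁻¹ * z * t⁻¹⁻¹,
    hZW (nconj hPZ (P.inv_mem htP) hz), by group⟩
  have hK₁ : K ≤ normalizer (E₁ : Set Γ) := by
    refine le_normalizer_of fun k hk x hx => closure_conj ?_ hx
    rintro _ ⟨p, hp, y, hy, rfl⟩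
    have hk' := nconj h.hPK (P.inv_mem (hP₁P hp)) hk
    refine subset_closure ⟨p, hp, _, nconj hKW hk' hy, by group⟩
  have hK₂ : K ≤ normalizer (E₂ : Set Γ) := by
    refine le_normalizer_of fun k hk x hx => closure_conj ?_ hx
    rintro _ ⟨p, hp, hp', y, hy, rfl⟩
    have hk' := nconj h.hPK (P.inv_mem hp) hk
    refine subset_closure ⟨p, hp, hp', _, nconj hKW hk' hy, by group⟩
  have hPP₁ : ∀ p ∈ P, ∀ g ∈ P₁, p ∉ P₁ → p * g ∉ P₁ := by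
    intro p _ g hg hp' h3
    apply hp'
    have h4 := P₁.mul_mem h3 (P₁.inv_mem hg)
    have e3 : p * g * g⁻¹ = p := by group
    rwa [e3] at h4
  have hPP₁' : ∀ p ∈ P, ∀ g ∈ P₁, p ∉ P₁ → g * p ∉ P₁ := by
    intro p _ g hg hp' h3
    apply hp'
    have h4 := P₁.mul_mem (P₁.inv_mem hg) h3
    have e3 : g⁻¹ * (g * p) = p := by group
    rwa [e3] at h4
  have hPn₁ : P₁ ≤ normalizer (E₁ : Set Γ) := by
    refine le_normalizer_of fun k hk x hx => closure_conj ?_ hx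
    rintro _ ⟨p, hp, y, hy, rfl⟩
    exact subset_closure ⟨k * p, P₁.mul_mem hk hp, y, hy, by group⟩
  have hPn₂ : P₁ ≤ normalizer (E₂ : Set Γ) := by
    refine le_normalizer_of fun k hk x hx => closure_conj ?_ hx
    rintro _ ⟨p, hp, hp', y, hy, rfl⟩
    exact subset_closure ⟨k * p, P.mul_mem (hP₁P hk) hp, hPP₁' p hp k hk hp', y, hy, by group⟩
  -- elements outside `P₁` swap
  have hsw₁ : ∀ g ∈ P, g ∉ P₁ → ∀ x ∈ E₁, g * x * g⁻¹ ∈ E₂ := by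
    intro g hg hg' x hx
    have k1 : E₁ ≤ E₂.comap (MulAut.conj g).toMonoidHom := by
      refine (closure_le _).2 ?_
      rintro _ ⟨p, hp, y, hy, rfl⟩
      change g * (p * y * p⁻¹) * g⁻¹ ∈ E₂
      exact subset_closure ⟨g * p, P.mul_mem hg (hP₁P hp), hPP₁ g hg p hp hg', y, hy, by group⟩
    exact k1 hx
  have hsw₂ : ∀ g ∈ P, g ∉ P₁ → ∀ x ∈ E₂, g * x * g⁻¹ ∈ E₁ := by
    intro g hg hg' x hx
    have k1 : E₂ ≤ E₁.comap (MulAut.conj g).toMonoidHom := by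
      refine (closure_le _).2 ?_
      rintro _ ⟨p, hp, hp', y, hy, rfl⟩
      change g * (p * y * p⁻¹) * g⁻¹ ∈ E₁
      exact subset_closure ⟨g * p, hP₁2 g hg p hp hg' hp', y, hy, by group⟩
    exact k1 hx
  have hEn₁ := hcf.gh.le_norm hZE₁ h1
  have hEn₂ := hcf.gh.le_norm hZE₂ h2
  have hEE₁₂ : E ≤ E₁ ⊔ E₂ := by
    have hME : E₁ ⊔ E₂ ≤ E := sup_le h1 h2
    have hdec : ∀ x ∈ E₁ ⊔ E₂, ∃ a ∈ E₁, ∃ b ∈ E₂, x = a * b := fun x hx =>
      mem_sup_mul (h2.trans hEn₁) hx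
    rcases hirr (E₁ ⊔ E₂) (hZE₁.trans le_sup_left) hME
      (le_normalizer_of fun g hg x hx => by
        obtain ⟨a, ha, b, hb, rfl⟩ := hdec x hx
        have e1 : g * (a * b) * g⁻¹ = (g * a * g⁻¹) * (g * b * g⁻¹) := by group
        rw [e1]
        exact Subgroup.mul_mem _ (le_sup_left (a := E₁) (nconj hK₁ hg ha))
          (le_sup_right (b := E₂) (nconj hK₂ hg hb)))
      (le_normalizer_of fun g hg x hx => by
        obtain ⟨a, ha, b, hb, rfl⟩ := hdec x hx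
        have e1 : g * (a * b) * g⁻¹ = (g * a * g⁻¹) * (g * b * g⁻¹) := by group
        rw [e1]
        by_cases hg' : g ∈ P₁
        · exact Subgroup.mul_mem _ (le_sup_left (a := E₁) (nconj hPn₁ hg' ha))
            (le_sup_right (b := E₂) (nconj hPn₂ hg' hb))
        · exact Subgroup.mul_mem _ (le_sup_right (b := E₂) (hsw₁ g hg hg' a ha))
            (le_sup_left (a := E₁) (hsw₂ g hg hg' b hb))) with k1 | k1
    · exfalso
      apply hLZ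
      intro x hx
      exact k1 (le_sup_left (a := E₁) (subset_closure ⟨1, P₁.one_mem, x, hx, by group⟩))
    · exact k1
  have hE : ∀ x ∈ E, ∃ x₁ ∈ E₁, ∃ x₂ ∈ E₂, x = x₁ * x₂ := fun x hx =>
    mem_sup_mul (h2.trans hEn₁) (hEE₁₂ hx)
  have hE' : ∀ x ∈ E, ∃ x₁ ∈ E₂, ∃ x₂ ∈ E₁, x = x₁ * x₂ := fun x hx =>
    mem_sup_mul (h1.trans hEn₂) (by rw [sup_comm]; exact hEE₁₂ hx)
  have hne₁ : E₁ ≠ E := by
    intro h3
    apply hLZ
    intro x hx
    have k1 : t * x * t⁻¹ ∈ E₂ := subset_closure ⟨t, htP, htP₁, x, hx, rfl⟩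
    have k2 : t * x * t⁻¹ ∈ Z := by
      refine ⟨h2 k1, hcf.schur _ (hcf.cor _ (h2 k1)) fun y hy => ?_⟩
      rw [← h3] at hy
      exact (hc y hy _ k1).symm
    have k3 := nconj hPZ (P.inv_mem htP) k2
    have e1 : t⁻¹ * (t * x * t⁻¹) * t⁻¹⁻¹ = x := by group
    rwa [e1] at k3
  obtain ⟨T₁, hT1, hT1i⟩ := IH E₁ K P₁ e _ ρ (Nat.add_lt_add_right (card_lt_of h1 hne₁) _)
    (dt_factor h h1 h2 hE hc hP₁P hK₁ hPn₁)
  obtain ⟨u, u', hu, hu', hu1, hu2, hui⟩ := h.hiP t htP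
  have hee := hcf.idem
  let T₂ : Γ → B := fun p => u * T₁ (t⁻¹ * p * t) * u'
  have htp : ∀ p ∈ P₁, t⁻¹ * p * t ∈ P₁ := by
    intro p hp
    have := hP₁n t⁻¹ (P.inv_mem htP) p hp
    rwa [inv_inv] at this
  have hT1S : ∀ p ∈ P₁, Cor e S (T₁ p) := fun p hp => (hT1.cor p hp).mono Set.subset_union_left
  have hT2 : Rp e (S ∪ ρ '' (E₁ : Set Γ)) P₁ T₂ := by
    refine ⟨?_, ?_, ?_⟩
    · change u * T₁ (t⁻¹ * 1 * t) * u' = e
      have e1 : t⁻¹ * 1 * t = 1 := by group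
      rw [e1, hT1.one, hu.right, hu1]
    · intro p hp q hq
      change u * T₁ (t⁻¹ * (p * q) * t) * u' = u * T₁ (t⁻¹ * p * t) * u' * (u * T₁ (t⁻¹ * q * t) * u')
      have e1 : t⁻¹ * (p * q) * t = (t⁻¹ * p * t) * (t⁻¹ * q * t) := by group
      rw [e1, hT1.mul _ (htp p hp) _ (htp q hq)]
      calc u * (T₁ (t⁻¹ * p * t) * T₁ (t⁻¹ * q * t)) * u'
          = u * (T₁ (t⁻¹ * p * t) * (e * T₁ (t⁻¹ * q * t))) * u' := by
            rw [(hT1.cor _ (htp q hq)).left]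
        _ = _ := by rw [← hu2]; simp only [mul_assoc]
    · intro p hp
      have k1 : Cor e S (T₂ p) := (hu.mul (hT1S _ (htp p hp))).mul hu'
      refine ⟨k1.left, k1.right, ?_⟩
      rintro s (hs | ⟨y, hy, rfl⟩)
      · exact k1.comm s hs
      · -- `y = t x t⁻¹` with `x ∈ E₂`
        have hx : t⁻¹ * y * t⁻¹⁻¹ ∈ E₂ := hsw₁ t⁻¹ (P.inv_mem htP)
          (fun h3 => htP₁ (by simpa using P₁.inv_mem h3)) y hy
        obtain ⟨x, hx', hxy⟩ : ∃ x ∈ E₂, y = t * x * t⁻¹ := ⟨_, hx, by group⟩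
        have k2 := (hT1.cor _ (htp p hp)).comm (ρ x) (Or.inr ⟨x, hx', rfl⟩)
        have k3 := imp_eq hcf.toRp (h.hPE htP) hu1 hui (h2 hx')
        rw [hxy, k3]
        change u * ρ x * u' * (u * T₁ (t⁻¹ * p * t) * u') = u * T₁ (t⁻¹ * p * t) * u' * (u * ρ x * u')
        calc u * ρ x * u' * (u * T₁ (t⁻¹ * p * t) * u')
            = u * (ρ x * ((u' * u) * T₁ (t⁻¹ * p * t))) * u' := by simp only [mul_assoc]
          _ = u * (ρ x * T₁ (t⁻¹ * p * t)) * u' := by rw [hu2, (hT1S _ (htp p hp)).left]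
          _ = u * (T₁ (t⁻¹ * p * t) * ((u' * u) * ρ x)) * u' := by
            rw [k2, hu2, (hcf.cor x (h2 hx')).left]
          _ = _ := by simp only [mul_assoc]
  have hT2i : ∀ p ∈ P₁, Imp E₂ ρ p (T₂ p) := by
    intro p hp y hy
    have hx : t⁻¹ * y * t⁻¹⁻¹ ∈ E₁ := hsw₂ t⁻¹ (P.inv_mem htP)
      (fun h3 => htP₁ (by simpa using P₁.inv_mem h3)) y hy
    obtain ⟨x, hx', hxy⟩ : ∃ x ∈ E₁, y = t * x * t⁻¹ := ⟨_, hx, by group⟩
    have k3 := imp_eq hcf.toRp (h.hPE htP) hu1 hui (h1 hx')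
    have hpx : t⁻¹ * p * t * x * (t⁻¹ * p * t)⁻¹ ∈ E₁ := nconj hPn₁ (htp p hp) hx'
    have k4 := imp_eq hcf.toRp (h.hPE htP) hu1 hui (h1 hpx)
    have e1 : p * y * p⁻¹ = t * (t⁻¹ * p * t * x * (t⁻¹ * p * t)⁻¹) * t⁻¹ := by
      rw [hxy]; group
    rw [e1, k4, hxy, k3]
    change u * T₁ (t⁻¹ * p * t) * u' * (u * ρ x * u') =
      u * ρ (t⁻¹ * p * t * x * (t⁻¹ * p * t)⁻¹) * u' * (u * T₁ (t⁻¹ * p * t) * u')
    calc u * T₁ (t⁻¹ * p * t) * u' * (u * ρ x * u')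
        = u * (T₁ (t⁻¹ * p * t) * ((u' * u) * ρ x)) * u' := by simp only [mul_assoc]
      _ = u * (T₁ (t⁻¹ * p * t) * ρ x) * u' := by rw [hu2, (hcf.cor x (h1 hx')).left]
      _ = u * (ρ (t⁻¹ * p * t * x * (t⁻¹ * p * t)⁻¹) * ((u' * u) * T₁ (t⁻¹ * p * t))) * u' := by
          rw [hT1i _ (htp p hp) x hx', hu2, (hT1S _ (htp p hp)).left]
      _ = _ := by simp only [mul_assoc]
  obtain ⟨hT, hTi⟩ := factor_combine hcf h1 h2 hE hE' hc hPn₁ hPn₂ hT1 hT1i hT2 hT2i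
  have hcomm12 : ∀ p ∈ P₁, ∀ q ∈ P₁, T₂ p * T₁ q = T₁ q * T₂ p := fun p hp q hq =>
    factor_commute hcf h1 h2 hE hE' hc (hT1.cor q hq) (hT2.cor p hp)
  refine glue (N := P₁) h.he hcf hP₁P hP₁n htP ?_ h.hPE hT hTi hu hu' hu1 hu2 hui ?_
  · intro x hx
    by_cases hx' : x ∈ P₁
    · exact ⟨0, by simpa using hx'⟩
    · refine ⟨1, ?_⟩
      have htinv : t⁻¹ ∉ P₁ := fun h3 => htP₁ (by simpa using P₁.inv_mem h3)
      simpa using hP₁2 t⁻¹ (P.inv_mem htP) x hx htinv hx'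
  · intro n hn
    have ht2 : t * t ∈ P₁ := hP₁2 t htP t htP htP₁ htP₁
    -- `u * u = d • T (t * t)`
    have k1 : Imp E ρ (t * t) (u * u) := imp_mul (h.hPE htP) hui hui
    have hTinv := imp_mul (h.hPE (P.inv_mem (hP₁P ht2))) k1 (hTi _ (P₁.inv_mem ht2))
    obtain ⟨d, hd⟩ := hcf.schur (u * u * (T₁ (t * t)⁻¹ * T₂ (t * t)⁻¹))
      ((hu.mul hu).mul (hT.cor _ (P₁.inv_mem ht2))) (by
        intro x hx
        have := hTinv x hx
        rwa [mul_inv_cancel, one_mul, inv_one, mul_one] at this)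
    have k2 : u * u = d • (T₁ (t * t) * T₂ (t * t)) := by
      have k3 := hT.inv_mul ht2
      calc u * u = u * u * (T₁ (t * t)⁻¹ * T₂ (t * t)⁻¹ * (T₁ (t * t) * T₂ (t * t))) := by
            rw [k3, mul_assoc, hu.right]
        _ = (u * u * (T₁ (t * t)⁻¹ * T₂ (t * t)⁻¹)) * (T₁ (t * t) * T₂ (t * t)) := by
            simp only [mul_assoc]
        _ = _ := by rw [hd, smul_mul_assoc, (hT.cor _ ht2).left]
    -- key relation
    have k4 : u * u * T₁ (t⁻¹ * n * t) = T₁ (t * n * t⁻¹) * (u * u) := by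
      have hq := htp n hn
      have hq' : t * n * t⁻¹ ∈ P₁ := hP₁n t htP n hn
      rw [k2, smul_mul_assoc, mul_smul_comm]
      congr 1
      calc T₁ (t * t) * T₂ (t * t) * T₁ (t⁻¹ * n * t)
          = T₁ (t * t) * (T₂ (t * t) * T₁ (t⁻¹ * n * t)) := by rw [mul_assoc]
        _ = (T₁ (t * t) * T₁ (t⁻¹ * n * t)) * T₂ (t * t) := by
            rw [hcomm12 _ ht2 _ hq]; simp only [mul_assoc]
        _ = (T₁ (t * n * t⁻¹) * T₁ (t * t)) * T₂ (t * t) := by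
            rw [← hT1.mul _ ht2 _ hq, ← hT1.mul _ hq' _ ht2]
            congr 2
            group
        _ = _ := by simp only [mul_assoc]
    have hq := htp n hn
    have hq' : t * n * t⁻¹ ∈ P₁ := hP₁n t htP n hn
    -- `u T₁ n = T₂ (t n t⁻¹) u`
    have k5 : u * T₁ n = T₂ (t * n * t⁻¹) * u := by
      change u * T₁ n = u * T₁ (t⁻¹ * (t * n * t⁻¹) * t) * u' * u
      have e1 : t⁻¹ * (t * n * t⁻¹) * t = n := by group
      rw [e1, mul_assoc (u * T₁ n), hu2, mul_assoc, (hT1S n hn).right]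
    have k6 : u * T₂ n = T₁ (t * n * t⁻¹) * u := by
      change u * (u * T₁ (t⁻¹ * n * t) * u') = T₁ (t * n * t⁻¹) * u
      calc u * (u * T₁ (t⁻¹ * n * t) * u') = (u * u * T₁ (t⁻¹ * n * t)) * u' := by
            simp only [mul_assoc]
        _ = T₁ (t * n * t⁻¹) * (u * (u * u')) := by rw [k4]; simp only [mul_assoc]
        _ = _ := by rw [hu1, hu.right]
    change u * (T₁ n * T₂ n) = T₁ (t * n * t⁻¹) * T₂ (t * n * t⁻¹) * u
    calc u * (T₁ n * T₂ n) = (u * T₁ n) * T₂ n := by rw [mul_assoc]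
      _ = T₂ (t * n * t⁻¹) * (u * T₂ n) := by rw [k5, mul_assoc]
      _ = (T₂ (t * n * t⁻¹) * T₁ (t * n * t⁻¹)) * u := by
          rw [k6]; exact (mul_assoc _ _ _).symm
      _ = _ := by rw [hcomm12 _ hq' _ hq']

end Cfsg.Agent.H9.Dade
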