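import Cfsg.Agent.H9.MtP6a3
import Cfsg.Agent.H93.MtP6a1

/-! # S4351 (Martineau), piece P6a: no equivariant biadditive maps between natural modules -/

set_option autoImplicit false
set_option linter.all false

namespace Cfsg.Agent.H9.MtP6a

open Cfsg.Agent.H71.Mt Cfsg.Agent.H9.MtP6a3

universe u v

section
variable {F : Type*} [Field F]

theorem id_of_mul [CharP F 2] {σ τ : F →+* F} (h : ∀ l : F, σ l = l * τ l) : ∀ l, τ l = l := by
  intro l
  have h1 := h (l + 1)
  rw [map_add, map_add, map_one, map_one, h l] at h1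
  have h2 : l + τ l = 0 := by linear_combination -h1
  have h3 : τ l = -l := by linear_combination h2
  rw [h3, CharTwo.neg_eq]

theorem id_of_theta [CharP F 2] {θ σ τ : F →+* F} (hθ : ∃ l, θ l ≠ l) (h : ∀ l : F, l * σ l = θ l * τ l) :
    ∀ l, τ l = l := by
  have h2 : ∀ l, θ l ≠ l → τ l = l := by
    intro l hl
    have h1 := h (l + 1)
    simp only [map_add, map_one] at h1
    have h3 : l + σ l = θ l + τ l := by linear_combination h1 - h l
    have h4 : (l - θ l) * (l - τ l) = 0 := by linear_combination l * h3 - h l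
    rcases mul_eq_zero.1 h4 with h5 | h5
    · exact absurd (sub_eq_zero.1 h5).symm hl
    · exact (sub_eq_zero.1 h5).symm
  obtain ⟨l0, hl0⟩ := hθ
  intro l
  by_cases hl : θ l = l
  · have h3 : θ (l + l0) ≠ l + l0 := by
      rw [map_add, hl]
      intro h4
      exact hl0 (add_left_cancel h4)
    have h4 := h2 _ h3
    rw [map_add, h2 l0 hl0] at h4
    exact add_right_cancel h4
  · exact h2 l hl

end

section
variable {X : Type u} [Group X] [Finite X] {F : Type} [Field F] [Fintype F] {θ : F ≃+* F} {S E K : Subgroup X}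
  {w s0 : X} {a b κ : X → F}

theorem theta_ne (D : SzD θ S E K w s0 a b κ) : ∃ l : F, θ l ≠ l := by
  classical
  by_contra hcon
  push Not at hcon
  have hc8 := D.card
  have h1 : (Finset.univ : Finset F) ⊆ {0, 1} := by
    intro c _
    have h2 := D.theta c
    rw [hcon, hcon] at h2
    have h3 : c * (c - 1) = 0 := by linear_combination -h2
    rcases mul_eq_zero.1 h3 with h4 | h4
    · simp [h4]
    · simp [sub_eq_zero.1 h4]
  have h2 := Finset.card_le_card h1
  have h3 : ({0, 1} : Finset F).card ≤ 2 := Finset.card_le_two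
  rw [Finset.card_univ] at h2
  omega

/-- [P6a] -/
theorem bil_zero (D : SzD θ S E K w s0 a b κ) {V1 V2 V3 : Type v} [AddCommGroup V1] [Module F V1] [Finite V1]
    [AddCommGroup V2] [Module F V2] [Finite V2] [AddCommGroup V3] [Module F V3] [Finite V3]
    (ρ1 : Representation F X V1) (ρ2 : Representation F X V2) (ρ3 : Representation F X V3)
    (hf1 : FpfF ρ1) (hf2 : FpfF ρ2) (hf3 : FpfF ρ3) {v1 v2 v3 v4 : V1} {x1 x2 x3 x4 : V2} {y1 y2 y3 y4 : V3}
    (N1 : Nat4 θ S E K w a b κ (RingEquiv.refl F) ρ1 v1 v2 v3 v4)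
    (N2 : Nat4 θ S E K w a b κ (RingEquiv.refl F) ρ2 x1 x2 x3 x4)
    (N3 : Nat4 θ S E K w a b κ (RingEquiv.refl F) ρ3 y1 y2 y3 y4)
    (B : V1 →+ V2 →+ V3) (hB : ∀ g x y, B (ρ1 g x) (ρ2 g y) = ρ3 g (B x y)) : B = 0 := by
  haveI := D.char
  by_contra hne
  obtain ⟨B', σ', τ', h0, he, hσ', hτ'⟩ := Cfsg.Agent.H93.MtP6a1.semilin ρ1 ρ2 ρ3 B hB hne
  obtain ⟨σ, hσσ⟩ : ∃ σ : F →+* F, σ = (σ' : F →+* F) := ⟨_, rfl⟩
  obtain ⟨τ, hττ⟩ : ∃ τ : F →+* F, τ = (τ' : F →+* F) := ⟨_, rfl⟩
  have hσ : ∀ (c : F) x y, B' (c • x) y = σ c • B' x y := fun c x y => by rw [hσσ]; exact hσ' c x y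
  have hτ : ∀ (c : F) x y, B' x (c • y) = τ c • B' x y := fun c x y => by rw [hττ]; exact hτ' c x y
  apply h0
  -- it suffices that `σ` or `τ` is the identity
  suffices hst : (∀ l, σ l = l) ∨ ∀ l, τ l = l by
    rcases hst with hst | hst
    · have h1 : B'.flip = 0 := zero_lemma D (toEnd ρ2) ρ1 ρ3 hf2.toEnd hf1 N1 N3 B'.flip
        (fun g y x => he g x y) (fun c y x => by
          show B' (c • x) y = c • B' x y
          rw [hσ, hst])
      ext x y
      have h2 : B'.flip y x = 0 := by rw [h1]; rfl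
      exact h2
    · exact zero_lemma D (toEnd ρ1) ρ2 ρ3 hf1.toEnd hf2 N2 N3 B' he (fun c x y => by rw [hτ, hst])
  by_cases hβ : B' v1 (ρ2 w x1) = 0
  · exfalso
    apply h0
    have hS : ∀ s ∈ S, B' v1 (ρ2 s (ρ2 w x1)) = 0 := by
      intro s hs
      have h1 := he s v1 (ρ2 w x1)
      rw [N1.s1 s hs, hβ, map_zero] at h1
      exact h1
    let M : Submodule F V2 :=
      { carrier := {y | B' v1 y = 0}
        zero_mem' := map_zero _
        add_mem' := fun {y y'} hy hy' => by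
          show B' v1 (y + y') = 0
          rw [map_add, show B' v1 y = 0 from hy, show B' v1 y' = 0 from hy', add_zero]
        smul_mem' := fun c y hy => by
          show B' v1 (c • y) = 0
          rw [hτ, show B' v1 y = 0 from hy, smul_zero] }
    have hM := span_sw D hf2 N2 M (fun s hs => hS s hs)
    have h1 : ∀ y, B' v1 y = 0 := by
      intro y
      have h2 : y ∈ M := by rw [hM]; exact Submodule.mem_top
      exact h2
    have h2 : ∀ g : X, ∀ y, B' (ρ1 g v1) y = 0 := by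
      intro g y
      have h3 : y = ρ2 g (ρ2 g⁻¹ y) := by
        have h4 : ρ2 (g * g⁻¹) y = ρ2 g (ρ2 g⁻¹ y) := by rw [map_mul]; rfl
        rw [← h4, mul_inv_cancel, map_one]; rfl
      rw [h3, he, h1, map_zero]
    let M1 : Submodule F V1 :=
      { carrier := {x | ∀ y, B' x y = 0}
        zero_mem' := fun y => by rw [map_zero]; rfl
        add_mem' := fun {x x'} hx hx' y => by
          rw [map_add, AddMonoidHom.add_apply, hx y, hx' y, add_zero]
        smul_mem' := fun c x hx y => by rw [hσ, hx y, smul_zero] }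
    have hM1 := span_sw D hf1 N1 M1 (fun s hs y => by
      have h3 : ρ1 s (ρ1 w v1) = ρ1 (s * w) v1 := by rw [map_mul]; rfl
      rw [h3]
      exact h2 _ y)
    ext x y
    have h3 : x ∈ M1 := by rw [hM1]; exact Submodule.mem_top
    exact h3 y
  · -- the weights
    obtain ⟨β, hβ'⟩ : ∃ β, β = B' v1 (ρ2 w x1) := ⟨_, rfl⟩
    rw [← hβ'] at hβ
    have hw : ∀ k ∈ K, τ (κ k * θ.symm (κ k)) • ρ3 k β = σ (κ k * θ.symm (κ k)) • β := by
      intro k hk
      have hkl : κ k * θ.symm (κ k) ≠ 0 := mul_ne_zero (D.κ_ne k hk) ((map_ne_zero θ.symm).2 (D.κ_ne k hk))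
      have hwk : w * k = k⁻¹ * w := by
        have h3 : w * k * w * w = k⁻¹ * w := by rw [D.wK k hk]
        rwa [mul_assoc (w * k), D.ww, mul_one] at h3
      have h1 : ρ2 k⁻¹ (ρ2 w x1) = (κ k * θ.symm (κ k)) • ρ2 w x1 := by
        have h2 : ρ2 (k⁻¹ * w) x1 = ρ2 (w * k) x1 := by rw [hwk]
        rw [map_mul, map_mul] at h2
        calc ρ2 k⁻¹ (ρ2 w x1) = ρ2 w (ρ2 k x1) := h2
          _ = (κ k * θ.symm (κ k)) • ρ2 w x1 := by
            rw [N2.k1 k hk, map_smul]; rfl
      have h2 : ρ2 k ((κ k * θ.symm (κ k)) • ρ2 w x1) = ρ2 w x1 := by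
        rw [← h1]
        have h3 : ρ2 (k * k⁻¹) (ρ2 w x1) = ρ2 k (ρ2 k⁻¹ (ρ2 w x1)) := by rw [map_mul]; rfl
        rw [← h3, mul_inv_cancel, map_one]; rfl
      have h3 := he k v1 ((κ k * θ.symm (κ k)) • ρ2 w x1)
      rw [h2, N1.k1 k hk, hσ, hτ, ← hβ', map_smul] at h3
      exact h3.symm
    -- parametrisation by `l`
    have hpar : ∀ l : F, l ≠ 0 → ∃ k ∈ K, κ k * θ.symm (κ k) = l ∧ l * θ.symm (κ k) = θ l ∧ θ.symm (κ k) ≠ 0 := by
      intro l hl
      obtain ⟨c, hc⟩ := D.mulθ'_surj l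
      have hc : c * θ.symm c = l := hc
      have hc0 : c ≠ 0 := by
        rintro rfl
        rw [zero_mul] at hc
        exact hl hc.symm
      obtain ⟨k, hk, hkc⟩ := D.κ_surj c hc0
      refine ⟨k, hk, by rw [hkc, hc], ?_, by rw [hkc]; exact (map_ne_zero θ.symm).2 hc0⟩
      rw [hkc, ← hc, map_mul, RingEquiv.apply_symm_apply]
      have h1 : θ c = θ.symm c * θ.symm c := by
        have h2 := D.theta (θ.symm c)
        rw [RingEquiv.apply_symm_apply] at h2
        exact h2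
      rw [h1]; ring
    obtain ⟨b1, b2, b3, b4, hb⟩ := N3.span β
    have hcoord : ∀ k ∈ K, τ (κ k * θ.symm (κ k)) * (κ k * θ.symm (κ k)) * b1 = σ (κ k * θ.symm (κ k)) * b1 ∧
        τ (κ k * θ.symm (κ k)) * θ.symm (κ k) * b2 = σ (κ k * θ.symm (κ k)) * b2 ∧
        τ (κ k * θ.symm (κ k)) * (θ.symm (κ k))⁻¹ * b3 = σ (κ k * θ.symm (κ k)) * b3 ∧
        τ (κ k * θ.symm (κ k)) * (κ k * θ.symm (κ k))⁻¹ * b4 = σ (κ k * θ.symm (κ k)) * b4 := by
      intro k hk
      have h1 := hw k hk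
      obtain ⟨t, ht⟩ : ∃ t, t = τ (κ k * θ.symm (κ k)) := ⟨_, rfl⟩
      obtain ⟨r, hr⟩ : ∃ r, r = σ (κ k * θ.symm (κ k)) := ⟨_, rfl⟩
      rw [← ht, ← hr] at h1 ⊢
      rw [hb] at h1
      simp only [map_add, map_smul, N3.k1 k hk, N3.k2 k hk, N3.k3 k hk, N3.k4 k hk, RingEquiv.refl_apply] at h1
      have h2 := N3.indep (t * (κ k * θ.symm (κ k)) * b1 - r * b1) (t * θ.symm (κ k) * b2 - r * b2)
        (t * (θ.symm (κ k))⁻¹ * b3 - r * b3) (t * (κ k * θ.symm (κ k))⁻¹ * b4 - r * b4) (by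
          have h3 := sub_eq_zero.2 h1
          rw [← h3]
          module)
      exact ⟨sub_eq_zero.1 h2.1, sub_eq_zero.1 h2.2.1, sub_eq_zero.1 h2.2.2.1, sub_eq_zero.1 h2.2.2.2⟩
    by_cases hb1 : b1 = 0
    swap
    · right
      refine id_of_mul (σ := σ) (τ := τ) ?_
      intro l
      by_cases hl : l = 0
      · rw [hl, map_zero, zero_mul]
      obtain ⟨k, hk, h1, -, -⟩ := hpar l hl
      have h2 := (hcoord k hk).1
      rw [h1] at h2
      have h3 := mul_right_cancel₀ hb1 h2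
      rw [← h3, mul_comm]
    by_cases hb4 : b4 = 0
    swap
    · left
      refine id_of_mul (σ := τ) (τ := σ) ?_
      intro l
      by_cases hl : l = 0
      · rw [hl, map_zero, zero_mul]
      obtain ⟨k, hk, h1, -, -⟩ := hpar l hl
      have h2 := (hcoord k hk).2.2.2
      rw [h1] at h2
      have h3 := mul_right_cancel₀ hb4 h2
      rw [← h3]
      field_simp
    by_cases hb2 : b2 = 0
    swap
    · right
      refine id_of_theta (θ := (θ : F →+* F)) (σ := σ) (τ := τ) (theta_ne D) ?_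
      intro l
      by_cases hl : l = 0
      · rw [hl, zero_mul, map_zero, zero_mul]
      obtain ⟨k, hk, h1, h4, -⟩ := hpar l hl
      have h2 := (hcoord k hk).2.1
      rw [h1] at h2
      have h3 := mul_right_cancel₀ hb2 h2
      rw [← h3]
      show l * (τ l * θ.symm (κ k)) = θ l * τ l
      rw [← h4]; ring
    by_cases hb3 : b3 = 0
    swap
    · left
      refine id_of_theta (θ := (θ : F →+* F)) (σ := τ) (τ := σ) (theta_ne D) ?_
      intro l
      by_cases hl : l = 0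
      · rw [hl, zero_mul, map_zero, zero_mul]
      obtain ⟨k, hk, h1, h4, h5⟩ := hpar l hl
      have h2 := (hcoord k hk).2.2.1
      rw [h1] at h2
      have h3 := mul_right_cancel₀ hb3 h2
      rw [← h3]
      show l * τ l = θ l * (τ l * (θ.symm (κ k))⁻¹)
      rw [← h4]
      field_simp
    exfalso
    apply hβ
    rw [hb, hb1, hb2, hb3, hb4]
    simp

end

end Cfsg.Agent.H9.MtP6a
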