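import Cfsg.Agent.H71.MtRel

/-! # S4351 (Martineau), piece P6a, step (3): the zero lemma -/

set_option autoImplicit false
set_option linter.all false

namespace Cfsg.Agent.H9.MtP6a3

open Cfsg.Agent.H71.Mt

universe u v

variable {X : Type u} [Group X] [Finite X] {F : Type} [Field F] [Fintype F] {θ : F ≃+* F} {S E K : Subgroup X}
  {w s0 : X} {a b κ : X → F}

/-- a nontrivial element of odd order in `K` -/
theorem exists_k (D : SzD θ S E K w s0 a b κ) : ∃ k ∈ K, k ≠ 1 ∧ Odd (orderOf k) := by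
  classical
  have hc8 := D.card
  obtain ⟨c, hc0, hc1⟩ : ∃ c : F, c ≠ 0 ∧ c ≠ 1 := by
    by_contra hcon
    push Not at hcon
    have h1 : (Finset.univ : Finset F) ⊆ {0, 1} := by
      intro c _
      by_cases h : c = 0
      · simp [h]
      · simp [hcon c h]
    have h2 := Finset.card_le_card h1
    have h3 : ({0, 1} : Finset F).card ≤ 2 := Finset.card_le_two
    rw [Finset.card_univ] at h2
    omega
  obtain ⟨k, hk, hkc⟩ := D.κ_surj c hc0
  have hone : κ 1 = 1 := by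
    have h1 := D.κ_mul 1 K.one_mem 1 K.one_mem
    rw [mul_one] at h1
    have h2 := D.κ_ne 1 K.one_mem
    exact (mul_left_cancel₀ h2 (by rw [mul_one]; exact h1.symm))
  refine ⟨k, hk, ?_, ?_⟩
  · rintro rfl
    exact hc1 (by rw [← hkc, hone])
  · have hpow : ∀ n : ℕ, κ (k ^ n) = c ^ n := by
      intro n
      induction n with
      | zero => rw [pow_zero, pow_zero, hone]
      | succ n ih => rw [pow_succ, pow_succ, D.κ_mul _ (K.pow_mem hk n) _ hk, ih, hkc]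
    have h1 : k ^ (Fintype.card F - 1) = 1 := by
      apply D.κ_one _ (K.pow_mem hk _)
      rw [hpow, FiniteField.pow_card_sub_one_eq_one c hc0]
    have h2 : orderOf k ∣ Fintype.card F - 1 := orderOf_dvd_of_pow_eq_one h1
    haveI := D.char
    obtain ⟨n, hn, hcard⟩ := FiniteField.card F 2
    have h3 : Odd (Fintype.card F - 1) := by
      rw [hcard]
      have h4 : (2 : ℕ) ∣ 2 ^ (n : ℕ) := dvd_pow_self 2 n.ne_zero
      obtain ⟨m, hm⟩ := h4
      rw [hm]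
      have : 0 < (2 : ℕ) ^ (n : ℕ) := by positivity
      exact ⟨m - 1, by omega⟩
    exact Odd.of_dvd_nat h3 h2

/-- the last coordinate -/
theorem exists_phi {V3 : Type v} [AddCommGroup V3] [Module F V3]
    {ρ3 : Representation F X V3} {y1 y2 y3 y4 : V3}
    (N3 : Nat4 θ S E K w a b κ (RingEquiv.refl F) ρ3 y1 y2 y3 y4) :
    ∃ φ : V3 →+ F, (∀ (c : F) z, φ (c • z) = c * φ z) ∧ (∀ s ∈ S, ∀ z, φ (ρ3 s z) = φ z) ∧
      (∀ k ∈ K, ∀ z, φ (ρ3 k z) = (κ k * θ.symm (κ k))⁻¹ * φ z) ∧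
      ∀ c1 c2 c3 c4 : F, φ (c1 • y1 + c2 • y2 + c3 • y3 + c4 • y4) = c4 := by
  choose c1 c2 c3 c4 hc using N3.span
  have huniq : ∀ z (d1 d2 d3 d4 : F), z = d1 • y1 + d2 • y2 + d3 • y3 + d4 • y4 → c4 z = d4 := by
    intro z d1 d2 d3 d4 hz
    have h1 : (c1 z - d1) • y1 + (c2 z - d2) • y2 + (c3 z - d3) • y3 + (c4 z - d4) • y4 = 0 := by
      have h2 : c1 z • y1 + c2 z • y2 + c3 z • y3 + c4 z • y4 = d1 • y1 + d2 • y2 + d3 • y3 + d4 • y4 := by
        rw [← hc, ← hz]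
      calc (c1 z - d1) • y1 + (c2 z - d2) • y2 + (c3 z - d3) • y3 + (c4 z - d4) • y4
          = (c1 z • y1 + c2 z • y2 + c3 z • y3 + c4 z • y4) - (d1 • y1 + d2 • y2 + d3 • y3 + d4 • y4) := by module
        _ = 0 := by rw [h2, sub_self]
    exact sub_eq_zero.1 (N3.indep _ _ _ _ h1).2.2.2
  refine ⟨AddMonoidHom.mk' c4 ?_, ?_, ?_, ?_, ?_⟩
  · intro z z'
    refine huniq _ (c1 z + c1 z') (c2 z + c2 z') (c3 z + c3 z') _ ?_
    conv_lhs => rw [hc z, hc z']
    module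
  · intro c z
    show c4 (c • z) = c * c4 z
    refine huniq _ (c * c1 z) (c * c2 z) (c * c3 z) _ ?_
    conv_lhs => rw [hc z]
    show c • (_ : V3) = _
    module
  · intro s hs z
    obtain ⟨e, he⟩ := N3.s3 s hs
    obtain ⟨f, g, hfg⟩ := N3.s4 s hs
    show c4 (ρ3 s z) = c4 z
    refine huniq _ (c1 z + c2 z * a s + c3 z * e + c4 z * g) (c2 z + c3 z * θ (a s) + c4 z * f)
      (c3 z + c4 z * a s) _ ?_
    conv_lhs => rw [hc z]
    simp only [map_add, map_smul, N3.s1 s hs, N3.s2 s hs, he, hfg, RingEquiv.refl_apply]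
    module
  · intro k hk z
    show c4 (ρ3 k z) = (κ k * θ.symm (κ k))⁻¹ * c4 z
    refine huniq _ (c1 z * (κ k * θ.symm (κ k))) (c2 z * θ.symm (κ k)) (c3 z * (θ.symm (κ k))⁻¹) _ ?_
    conv_lhs => rw [hc z]
    simp only [map_add, map_smul, N3.k1 k hk, N3.k2 k hk, N3.k3 k hk, N3.k4 k hk, RingEquiv.refl_apply]
    module
  · intro d1 d2 d3 d4
    exact huniq _ d1 d2 d3 d4 rfl

/-- `V2` is spanned by the `s w x1` -/
theorem span_sw (D : SzD θ S E K w s0 a b κ) {V2 : Type v} [AddCommGroup V2] [Module F V2]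
    {ρ2 : Representation F X V2} (hf2 : FpfF ρ2) {x1 x2 x3 x4 : V2}
    (N2 : Nat4 θ S E K w a b κ (RingEquiv.refl F) ρ2 x1 x2 x3 x4) (M : Submodule F V2)
    (hM : ∀ s ∈ S, ρ2 s (ρ2 w x1) ∈ M) : M = ⊤ := by
  have m0 : ρ2 w x1 ∈ M := by
    have h := hM 1 S.one_mem
    rwa [map_one] at h
  have m1 : x1 ∈ M := by
    have h := D.relF ρ2 hf2 x1 (N2.s1 s0 D.s0S)
    rw [← h]
    exact M.add_mem (M.add_mem (M.add_mem m0 (hM _ D.s0S)) (hM _ (S.mul_mem D.s0S D.s0S)))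
      (hM _ (S.mul_mem (S.mul_mem D.s0S D.s0S) D.s0S))
  obtain ⟨c, hc0, hc⟩ := N2.wv
  have m4 : x4 ∈ M := by
    have h1 : x4 = c⁻¹ • (ρ2 w x1) := by rw [hc, smul_smul, inv_mul_cancel₀ hc0, one_smul]
    rw [h1]
    exact M.smul_mem _ m0
  have ms4 : ∀ s ∈ S, ρ2 s x4 ∈ M := by
    intro s hs
    have h1 : x4 = c⁻¹ • (ρ2 w x1) := by rw [hc, smul_smul, inv_mul_cancel₀ hc0, one_smul]
    rw [h1, map_smul]
    exact M.smul_mem _ (hM s hs)
  have m2 : x2 ∈ M := by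
    obtain ⟨t, ht, hbt⟩ := D.b_surj 1
    have h1 := ms4 t (D.ES ht)
    rw [N2.e4 t ht] at h1
    simp only [RingEquiv.refl_apply, hbt, map_one, one_smul] at h1
    have h2 : x2 = (x4 + x2 + x1) - x4 - x1 := by abel
    rw [h2]
    exact M.sub_mem (M.sub_mem h1 m4) m1
  have m3 : x3 ∈ M := by
    obtain ⟨s, hs, has⟩ := D.a_surj 1
    obtain ⟨f, g, hfg⟩ := N2.s4 s hs
    have h1 := ms4 s hs
    rw [hfg] at h1
    simp only [RingEquiv.refl_apply, has, one_smul] at h1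
    have h2 : x3 = (x4 + x3 + f • x2 + g • x1) - x4 - f • x2 - g • x1 := by abel
    rw [h2]
    exact M.sub_mem (M.sub_mem (M.sub_mem h1 m4) (M.smul_mem _ m2)) (M.smul_mem _ m1)
  rw [Submodule.eq_top_iff']
  intro y
  obtain ⟨c1, c2, c3, c4, rfl⟩ := N2.span y
  exact M.add_mem (M.add_mem (M.add_mem (M.smul_mem _ m1) (M.smul_mem _ m2)) (M.smul_mem _ m3))
    (M.smul_mem _ m4)

/-- an invariant subspace on which `φ` vanishes is zero -/
theorem eq_zero_of_phi (D : SzD θ S E K w s0 a b κ) {V3 : Type v} [AddCommGroup V3] [Module F V3]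
    {ρ3 : Representation F X V3} {y1 y2 y3 y4 : V3}
    (N3 : Nat4 θ S E K w a b κ (RingEquiv.refl F) ρ3 y1 y2 y3 y4) {φ : V3 →+ F}
    (hφ : ∀ c1 c2 c3 c4 : F, φ (c1 • y1 + c2 • y2 + c3 • y3 + c4 • y4) = c4) (Z : Submodule F V3)
    (hZ : ∀ g : X, ∀ z ∈ Z, ρ3 g z ∈ Z) (h0 : ∀ z ∈ Z, φ z = 0) : ∀ z ∈ Z, z = 0 := by
  obtain ⟨c, hc0, hc⟩ := N3.wv
  have hn1 : y1 ∉ Z := by
    intro h1
    have h2 := h0 _ (hZ w y1 h1)
    rw [hc] at h2
    have h3 := hφ 0 0 0 c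
    simp only [zero_smul, zero_add] at h3
    rw [h3] at h2
    exact hc0 h2
  have hn1' : ∀ d : F, d • y1 ∈ Z → d = 0 := by
    intro d hd
    by_contra hd0
    apply hn1
    have h1 : y1 = d⁻¹ • (d • y1) := by rw [smul_smul, inv_mul_cancel₀ hd0, one_smul]
    rw [h1]
    exact Z.smul_mem _ hd
  intro z hz
  obtain ⟨c1, c2, c3, c4, hzc⟩ := N3.span z
  have h4 : c4 = 0 := by
    have := h0 z hz
    rw [hzc, hφ] at this
    exact this
  subst h4
  rw [zero_smul, add_zero] at hzc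
  obtain ⟨t, ht, hbt⟩ := D.b_surj 1
  have hat : a t = 0 := (D.a_zero t (D.ES ht)).2 ht
  have h3 : c3 = 0 := by
    apply hn1'
    have h5 := Z.sub_mem (hZ t z hz) hz
    have h6 : ρ3 t z - z = c3 • y1 := by
      rw [hzc]
      simp only [map_add, map_smul, N3.s1 t (D.ES ht), N3.s2 t (D.ES ht), N3.e3 t ht, RingEquiv.refl_apply, hat,
        hbt]
      module
    rwa [h6] at h5
  subst h3
  rw [zero_smul, add_zero] at hzc
  obtain ⟨s, hs, has⟩ := D.a_surj 1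
  have h2 : c2 = 0 := by
    apply hn1'
    have h5 := Z.sub_mem (hZ s z hz) hz
    have h6 : ρ3 s z - z = c2 • y1 := by
      rw [hzc]
      simp only [map_add, map_smul, N3.s1 s hs, N3.s2 s hs, RingEquiv.refl_apply, has]
      module
    rwa [h6] at h5
  subst h2
  rw [zero_smul, add_zero] at hzc
  have h1 : c1 = 0 := hn1' c1 (by rw [← hzc]; exact hz)
  rw [hzc, h1, zero_smul]

/-- **The zero lemma**: an equivariant biadditive map linear in the second variable is zero. -/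
theorem zero_lemma (D : SzD θ S E K w s0 a b κ) {V1 V2 V3 : Type v} [AddCommGroup V1] [Finite V1]
    [AddCommGroup V2] [Module F V2] [AddCommGroup V3] [Module F V3]
    (ρ1 : X →* AddMonoid.End V1) (ρ2 : Representation F X V2) (ρ3 : Representation F X V3)
    (hf1 : Fpf2 ρ1) (hf2 : FpfF ρ2) {x1 x2 x3 x4 : V2} {y1 y2 y3 y4 : V3}
    (N2 : Nat4 θ S E K w a b κ (RingEquiv.refl F) ρ2 x1 x2 x3 x4)
    (N3 : Nat4 θ S E K w a b κ (RingEquiv.refl F) ρ3 y1 y2 y3 y4)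
    (B : V1 →+ V2 →+ V3) (hB : ∀ g x y, B (ρ1 g x) (ρ2 g y) = ρ3 g (B x y))
    (hlin : ∀ (c : F) x y, B x (c • y) = c • B x y) : B = 0 := by
  obtain ⟨φ, hφc, hφs, hφk, hφ⟩ := exists_phi N3
  obtain ⟨k, hk, hk1, hko⟩ := exists_k D
  have hkl : κ k * θ.symm (κ k) ≠ 0 := mul_ne_zero (D.κ_ne k hk) ((map_ne_zero θ.symm).2 (D.κ_ne k hk))
  -- `ψ` is `k`-invariant
  have hψ : ∀ x, φ (B (ρ1 k x) (ρ2 w x1)) = φ (B x (ρ2 w x1)) := by
    intro x
    have hwk : w * k = k⁻¹ * w := by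
      have h3 : w * k * w * w = k⁻¹ * w := by rw [D.wK k hk]
      rwa [mul_assoc (w * k), D.ww, mul_one] at h3
    have h1 : ρ2 k⁻¹ (ρ2 w x1) = (κ k * θ.symm (κ k)) • ρ2 w x1 := by
      have h2 : ρ2 (k⁻¹ * w) x1 = ρ2 (w * k) x1 := by rw [hwk]
      rw [map_mul, map_mul] at h2
      calc ρ2 k⁻¹ (ρ2 w x1) = ρ2 w (ρ2 k x1) := h2
        _ = (κ k * θ.symm (κ k)) • ρ2 w x1 := by
          rw [N2.k1 k hk, map_smul]; rfl
    have h2 : ρ2 w x1 = ρ2 k (ρ2 k⁻¹ (ρ2 w x1)) := by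
      have h3 : ρ2 (k * k⁻¹) (ρ2 w x1) = ρ2 k (ρ2 k⁻¹ (ρ2 w x1)) := by rw [map_mul]; rfl
      rw [← h3, mul_inv_cancel, map_one]; rfl
    calc φ (B (ρ1 k x) (ρ2 w x1)) = φ (B (ρ1 k x) (ρ2 k ((κ k * θ.symm (κ k)) • ρ2 w x1))) := by
          rw [← h1, ← h2]
      _ = φ (B x (ρ2 w x1)) := by
          rw [hB, hφk k hk, hlin, hφc, ← mul_assoc, inv_mul_cancel₀ hkl, one_mul]
  have hψ0 : ∀ x, φ (B x (ρ2 w x1)) = 0 := by
    let δ : V1 → V1 := fun x => ρ1 k x - x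
    have hinj : Function.Injective δ := by
      intro x y hxy
      have h2 : ρ1 k x - x = ρ1 k y - y := hxy
      have h3 : ρ1 k (x - y) = x - y := by
        rw [map_sub]
        calc ρ1 k x - ρ1 k y = (ρ1 k x - x) - (ρ1 k y - y) + (x - y) := by abel
          _ = x - y := by rw [h2]; abel
      exact sub_eq_zero.1 (hf1 k hko hk1 _ h3)
    intro x
    obtain ⟨y, hy⟩ := (Finite.injective_iff_surjective.1 hinj) x
    have hy : ρ1 k y - y = x := hy
    rw [← hy, map_sub, AddMonoidHom.sub_apply, map_sub, hψ, sub_self]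
  have hS : ∀ s ∈ S, ∀ x, φ (B x (ρ2 s (ρ2 w x1))) = 0 := by
    intro s hs x
    have h1 : x = ρ1 s (ρ1 s⁻¹ x) := by
      rw [← Cfsg.Agent.H71.Mt.mul_apply, mul_inv_cancel, map_one]; rfl
    rw [h1, hB, hφs s hs]
    exact hψ0 _
  -- the whole of `V2`
  let M : Submodule F V2 :=
    { carrier := {y | ∀ x, φ (B x y) = 0}
      zero_mem' := fun x => by rw [map_zero, map_zero]
      add_mem' := fun {y y'} hy hy' x => by rw [map_add, map_add, hy, hy', add_zero]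
      smul_mem' := fun c y hy x => by rw [hlin, hφc, hy, mul_zero] }
  have hM := span_sw D hf2 N2 M (fun s hs x => hS s hs x)
  have hall : ∀ x y, φ (B x y) = 0 := by
    intro x y
    have h1 : y ∈ M := by rw [hM]; exact Submodule.mem_top
    exact h1 x
  -- the values
  let Z : Submodule F V3 :=
    { carrier := {z | ∀ g : X, φ (ρ3 g z) = 0}
      zero_mem' := fun g => by rw [map_zero, map_zero]
      add_mem' := fun {y y'} hy hy' g => by rw [map_add, map_add, hy, hy', add_zero]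
      smul_mem' := fun c y hy g => by rw [map_smul, hφc, hy, mul_zero] }
  have hZ : ∀ g : X, ∀ z ∈ Z, ρ3 g z ∈ Z := by
    intro g z hz h
    have h1 : ρ3 (h * g) z = ρ3 h (ρ3 g z) := by rw [map_mul]; rfl
    rw [← h1]
    exact hz (h * g)
  have hZ0 : ∀ z ∈ Z, φ z = 0 := by
    intro z hz
    have h1 := hz 1
    rw [map_one] at h1
    exact h1
  ext x y
  refine eq_zero_of_phi D N3 hφ Z hZ hZ0 _ ?_
  intro g
  rw [← hB]
  exact hall _ _

end Cfsg.Agent.H9.MtP6a3
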