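import Mathlib
import Cfsg.Agent.Cop.Basic

/-!
# S4781, piece (B): counting (owner: helper9)
-/

set_option autoImplicit false

namespace Cfsg.Agent.H9.S4781

open Subgroup Cfsg.Agent

theorem conj_of_fix {Y : Type*} [Group Y] [Finite Y] (B C : Subgroup Y) [hBn : B.Normal]
    [hCn : C.Normal] (hC : C ≤ B) (hab : ∀ a ∈ B, ∀ b ∈ B, a * b = b * a) {y0 y1 : Y} {t : ℕ}
    (ht : t.Prime) (hy0B : y0 ∉ B) (hcop : ¬ t ∣ C.relIndex B) {b : Y} (hb : b ∈ B)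
    (hy1 : y1 = b⁻¹ * y0) (hy0C : y0 ^ t ∈ C) (hy1C : y1 ^ t ∈ C) :
    ∃ a ∈ B, a * y0 * a⁻¹ * y1⁻¹ ∈ C := by
  classical
  set π := QuotientGroup.mk' C with hπ
  have hker : ∀ x : Y, π x = 1 ↔ x ∈ C := fun x => by
    rw [hπ]; exact QuotientGroup.eq_one_iff x
  have hy1B : y1 ∉ B := fun h => hy0B (by
    have h1 := B.mul_mem hb h
    rw [hy1] at h1
    simpa using h1)
  have hord : ∀ y : Y, y ∉ B → y ^ t ∈ C → orderOf (π y) = t := fun y h1 h2 => by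
    refine orderOf_eq_prime (p := t) (hp := ⟨ht⟩) ?_ ?_
    · rw [← map_pow]; exact (hker _).2 h2
    · intro h3; exact h1 (hC ((hker _).1 h3))
  have hcard : ∀ y : Y, y ∉ B → y ^ t ∈ C → Nat.card (zpowers (π y)) = t := fun y h1 h2 => by
    rw [Nat.card_zpowers]; exact hord y h1 h2
  have hBbar : Nat.card (B.map π) = C.relIndex B := by
    have h1 : Nat.card (B.map π) = Nat.card (π.subgroupMap B).range := by
      rw [MonoidHom.range_eq_top.2 (π.subgroupMap_surjective B)]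
      exact Nat.card_congr (Subgroup.topEquiv.toEquiv).symm
    rw [h1, ← Subgroup.index_ker, Subgroup.relIndex]
    congr 1
    ext x
    rw [MonoidHom.mem_ker, Subgroup.mem_subgroupOf, ← hker]
    exact ⟨fun h => congrArg Subtype.val h, fun h => Subtype.ext h⟩
  have hBn' : (B.map π).Normal := hBn.map π (QuotientGroup.mk'_surjective C)
  have hAN : zpowers (π y0) ≤ normalizer ((B.map π : Subgroup _) : Set (Y ⧸ C)) := by
    rw [normalizer_eq_top (H := B.map π)]; exact le_top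
  have hsub : zpowers (π y1) ≤ B.map π ⊔ zpowers (π y0) := by
    rw [zpowers_le, hy1, map_mul]
    exact mul_mem (mem_sup_left ⟨b⁻¹, B.inv_mem hb, rfl⟩) (mem_sup_right (mem_zpowers _))
  have hsolv : Group.IsSolvable (zpowers (π y0)) := Group.isSolvable_of_comm fun a b => by
    obtain ⟨i, hi⟩ := a.2
    obtain ⟨j, hj⟩ := b.2
    apply Subtype.ext
    rw [Subgroup.coe_mul, Subgroup.coe_mul, ← hi, ← hj]
    exact (Commute.refl (π y0)).zpow_zpow i j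
  have hc1 : (Nat.card (B.map π)).Coprime (Nat.card (zpowers (π y0))) := by
    rw [hBbar, hcard y0 hy0B hy0C]
    exact ((Nat.Prime.coprime_iff_not_dvd ht).2 hcop).symm
  obtain ⟨n, ⟨a, ha, rfl⟩, hn⟩ := Cop.sz_rel hAN hsub
    ((hcard y1 hy1B hy1C).trans (hcard y0 hy0B hy0C).symm) hc1 (Or.inr hsolv)
  have h1 : π a * π y0 * (π a)⁻¹ ∈ zpowers (π y1) := by
    rw [← hn]
    exact ⟨π y0, mem_zpowers _, rfl⟩
  obtain ⟨k, hk⟩ := h1
  have hk' : π y1 ^ k = π a * π y0 * (π a)⁻¹ := hk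
  -- modulo B
  set β := QuotientGroup.mk' B with hβ
  have hkerB : ∀ x : Y, β x = 1 ↔ x ∈ B := fun x => by
    rw [hβ]; exact QuotientGroup.eq_one_iff x
  have hβa : β a = 1 := (hkerB a).2 ha
  have hβb : β b = 1 := (hkerB b).2 hb
  have hβ1 : β y1 = β y0 := by rw [hy1, map_mul, map_inv, hβb, inv_one, one_mul]
  have hord1 : orderOf (β y1) = t := by
    refine orderOf_eq_prime (p := t) (hp := ⟨ht⟩) ?_ ?_
    · rw [← map_pow]; exact (hkerB _).2 (hC hy1C)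
    · intro h3; exact hy1B ((hkerB _).1 h3)
  have h3 : (a * y0 * a⁻¹)⁻¹ * y1 ^ k ∈ C := by
    rw [← hker, map_mul, map_inv, map_mul, map_mul, map_inv, map_zpow, hk', inv_mul_cancel]
  have h4 : β ((a * y0 * a⁻¹)⁻¹ * y1 ^ k) = 1 := (hkerB _).2 (hC h3)
  rw [map_mul, map_inv, map_mul, map_mul, map_inv, map_zpow, hβa, ← hβ1, inv_one, one_mul,
    mul_one] at h4
  have h5 : β y1 ^ (k - 1) = 1 := by
    rw [zpow_sub, zpow_one, mul_inv_eq_one]
    exact (inv_mul_eq_one.1 h4).symm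
  have h6 : (t : ℤ) ∣ k - 1 := by
    rw [← hord1]; exact orderOf_dvd_iff_zpow_eq_one.2 h5
  have h7 : π y1 ^ (k - 1) = 1 := by
    rw [← orderOf_dvd_iff_zpow_eq_one, hord y1 hy1B hy1C]; exact h6
  have h8 : π y1 ^ k = π y1 := by
    rw [zpow_sub, zpow_one, mul_inv_eq_one] at h7
    exact h7
  refine ⟨a, ha, ?_⟩
  rw [← hker, map_mul, map_mul, map_mul, map_inv, map_inv, ← hk', h8, mul_inv_cancel]

theorem count {Y W : Type*} [Group Y] [Finite Y] [CommGroup W] [Finite W]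
    [MulDistribMulAction Y W] (B C Z : Subgroup Y) [B.Normal] [C.Normal] (hC : C ≤ B)
    (hab : ∀ a ∈ B, ∀ b ∈ B, a * b = b * a)
    (hst : ∀ w : W, w ≠ 1 → ∀ b ∈ B, (b • w = w ↔ b ∈ C))
    (htr : ∀ (w : W) (y : Y), ∃ b ∈ B, y • w = b • w) {y0 : Y} {t : ℕ} (ht : t.Prime)
    (hy0B : y0 ∉ B) (hy0t : y0 ^ t ∈ B) (hcop : ¬ t ∣ C.relIndex B) {w0 : W} (hw0 : w0 ≠ 1)
    (hy0w : y0 • w0 = w0) (hZ : ∀ b, b ∈ Z ↔ b ∈ B ∧ b * y0 * b⁻¹ * y0⁻¹ ∈ C) :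
    Nat.card W - 1 = Z.relIndex B * (Nat.card {w : W // y0 • w = w} - 1) := by
  classical
  have hCtriv : ∀ c ∈ C, ∀ w : W, c • w = w := by
    intro c hc w
    by_cases hw : w = 1
    · rw [hw, smul_one]
    · exact (hst w hw c (hC hc)).2 hc
  have hpowfix : ∀ (y : Y) (w : W), y • w = w → ∀ n : ℕ, y ^ n • w = w := by
    intro y w h n
    induction n with
    | zero => rw [pow_zero, one_smul]
    | succ n ih => rw [pow_succ, mul_smul, h, ih]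
  have hy0C : y0 ^ t ∈ C := (hst w0 hw0 _ hy0t).1 (hpowfix y0 w0 hy0w t)
  have hne : ∀ (y : Y) (w : W), w ≠ 1 → y • w ≠ 1 := by
    intro y w hw h
    apply hw
    rw [← one_smul Y w, ← inv_mul_cancel y, mul_smul, h, smul_one]
  have hex : ∀ w : W, w ≠ 1 → ∃ a : B, y0 • ((a : Y)⁻¹ • w) = (a : Y)⁻¹ • w := by
    intro w hw
    obtain ⟨b, hb, hbw⟩ := htr w y0
    have h1 : (b⁻¹ * y0) • w = w := by rw [mul_smul, hbw, ← mul_smul, inv_mul_cancel, one_smul]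
    have h2 : (b⁻¹ * y0) ^ t ∈ B := by
      have e1 : (QuotientGroup.mk' B) ((b⁻¹ * y0) ^ t) = (QuotientGroup.mk' B) (y0 ^ t) := by
        have e3 : (QuotientGroup.mk' B) b = 1 := (QuotientGroup.eq_one_iff b).2 hb
        rw [map_pow, map_pow, map_mul, map_inv, e3, inv_one, one_mul]
      have e2 : (QuotientGroup.mk' B) (y0 ^ t) = 1 := (QuotientGroup.eq_one_iff _).2 hy0t
      exact (QuotientGroup.eq_one_iff _).1 (e1.trans e2)
    have h3 : (b⁻¹ * y0) ^ t ∈ C := (hst w hw _ h2).1 (hpowfix _ _ h1 t)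
    obtain ⟨a, ha, hac⟩ := conj_of_fix B C hC hab ht hy0B hcop hb rfl hy0C h3
    refine ⟨⟨a, ha⟩, ?_⟩
    have h4 := hCtriv _ hac w
    have h5 : (a * y0 * a⁻¹) • w = w := by
      calc (a * y0 * a⁻¹) • w = (a * y0 * a⁻¹ * (b⁻¹ * y0)⁻¹) • ((b⁻¹ * y0) • w) := by
            rw [← mul_smul, inv_mul_cancel_right]
        _ = w := by rw [h1, h4]
    change y0 • (a⁻¹ • w) = a⁻¹ • w
    calc y0 • (a⁻¹ • w) = a⁻¹ • ((a * y0 * a⁻¹) • w) := by
          rw [← mul_smul, ← mul_smul]; congr 1; group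
      _ = a⁻¹ • w := by rw [h5]
  -- the cosets
  have hzfix : ∀ (a z : Y), a ∈ B → z ∈ Z → ∀ w : W, y0 • (a⁻¹ • w) = a⁻¹ • w →
      y0 • ((a * z)⁻¹ • w) = (a * z)⁻¹ • w := by
    intro a z _ hz w h
    have hz' := ((hZ z).1 hz).2
    have h1 : (z * y0 * z⁻¹) • (a⁻¹ • w) = a⁻¹ • w := by
      calc (z * y0 * z⁻¹) • (a⁻¹ • w) = (z * y0 * z⁻¹ * y0⁻¹) • (y0 • (a⁻¹ • w)) := by
            rw [← mul_smul (z * y0 * z⁻¹ * y0⁻¹), inv_mul_cancel_right]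
        _ = a⁻¹ • w := by rw [h, hCtriv _ hz']
    calc y0 • ((a * z)⁻¹ • w) = z⁻¹ • ((z * y0 * z⁻¹) • (a⁻¹ • w)) := by
          rw [← mul_smul, ← mul_smul, ← mul_smul]; congr 1; group
      _ = z⁻¹ • (a⁻¹ • w) := by rw [h1]
      _ = (a * z)⁻¹ • w := by rw [← mul_smul]; congr 1; group
  have hfixz : ∀ (a a' : Y), a ∈ B → a' ∈ B → ∀ w : W, w ≠ 1 → y0 • (a⁻¹ • w) = a⁻¹ • w →
      y0 • (a'⁻¹ • w) = a'⁻¹ • w → a⁻¹ * a' ∈ Z := by
    intro a a' ha ha' w hw h h'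
    rw [hZ]
    refine ⟨B.mul_mem (B.inv_mem ha) ha', ?_⟩
    -- (a⁻¹ a') y0 (a⁻¹ a')⁻¹ y0⁻¹ fixes a⁻¹ w
    have hBn : B.Normal := inferInstance
    have h1 : a⁻¹ * a' * y0 * (a⁻¹ * a')⁻¹ * y0⁻¹ ∈ B := by
      have h2 := hBn.conj_mem (a⁻¹ * a')⁻¹ (B.inv_mem (B.mul_mem (B.inv_mem ha) ha')) y0
      have h3 := B.mul_mem (B.mul_mem (B.inv_mem ha) ha') h2
      have e1 : a⁻¹ * a' * (y0 * (a⁻¹ * a')⁻¹ * y0⁻¹) = a⁻¹ * a' * y0 * (a⁻¹ * a')⁻¹ * y0⁻¹ := by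
        group
      rwa [e1] at h3
    refine (hst (a⁻¹ • w) (hne _ _ hw) _ h1).1 ?_
    have h2 : y0⁻¹ • (a⁻¹ • w) = a⁻¹ • w := by
      conv_lhs => rw [← h]
      rw [← mul_smul, inv_mul_cancel, one_smul]
    calc (a⁻¹ * a' * y0 * (a⁻¹ * a')⁻¹ * y0⁻¹) • (a⁻¹ • w)
        = (a⁻¹ * a' * y0 * (a⁻¹ * a')⁻¹) • (y0⁻¹ • (a⁻¹ • w)) := by
          rw [← mul_smul (a⁻¹ * a' * y0 * (a⁻¹ * a')⁻¹) y0⁻¹]
      _ = (a⁻¹ * a' * y0 * (a⁻¹ * a')⁻¹) • (a⁻¹ • w) := by rw [h2]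
      _ = (a⁻¹ * a') • (y0 • (a'⁻¹ • w)) := by
          rw [← mul_smul, ← mul_smul, ← mul_smul]; congr 1; group
      _ = (a⁻¹ * a') • (a'⁻¹ • w) := by rw [h']
      _ = a⁻¹ • w := by rw [← mul_smul]; congr 1; group
  choose! f hf using hex
  let X := {w : W // w ≠ 1}
  let F := {w : W // y0 • w = w ∧ w ≠ 1}
  let S := {p : B × X // y0 • ((p.1 : Y)⁻¹ • (p.2 : W)) = (p.1 : Y)⁻¹ • (p.2 : W)}
  let e1 : B × F ≃ S :=
    { toFun := fun p => ⟨(p.1, ⟨(p.1 : Y) • (p.2 : W), hne _ _ p.2.2.2⟩), by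
        change y0 • ((p.1 : Y)⁻¹ • ((p.1 : Y) • (p.2 : W))) = (p.1 : Y)⁻¹ • ((p.1 : Y) • (p.2 : W))
        rw [← mul_smul (p.1 : Y)⁻¹, inv_mul_cancel, one_smul]
        exact p.2.2.1⟩
      invFun := fun s => (s.1.1, ⟨(s.1.1 : Y)⁻¹ • (s.1.2 : W), s.2, hne _ _ s.1.2.2⟩)
      left_inv := fun p => by
        refine Prod.ext rfl (Subtype.ext ?_)
        change (p.1 : Y)⁻¹ • ((p.1 : Y) • (p.2 : W)) = p.2
        rw [← mul_smul, inv_mul_cancel, one_smul]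
      right_inv := fun s => by
        refine Subtype.ext (Prod.ext rfl (Subtype.ext ?_))
        change (s.1.1 : Y) • ((s.1.1 : Y)⁻¹ • (s.1.2 : W)) = s.1.2
        rw [← mul_smul, mul_inv_cancel, one_smul] }
  have hZB : Z ≤ B := fun z hz => ((hZ z).1 hz).1
  let e2 : X × Z ≃ S :=
    { toFun := fun p => ⟨(⟨(f p.1 : Y) * p.2, B.mul_mem (f p.1).2 (hZB p.2.2)⟩, p.1),
        hzfix _ _ (f p.1).2 p.2.2 _ (hf _ p.1.2)⟩
      invFun := fun s => (s.1.2, ⟨(f s.1.2 : Y)⁻¹ * s.1.1,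
        hfixz _ _ (f s.1.2).2 s.1.1.2 _ s.1.2.2 (hf _ s.1.2.2) s.2⟩)
      left_inv := fun p => by
        refine Prod.ext rfl (Subtype.ext ?_)
        change (f p.1 : Y)⁻¹ * ((f p.1 : Y) * p.2) = p.2
        rw [inv_mul_cancel_left]
      right_inv := fun s => by
        refine Subtype.ext (Prod.ext (Subtype.ext ?_) rfl)
        change (f s.1.2 : Y) * ((f s.1.2 : Y)⁻¹ * s.1.1) = s.1.1
        rw [mul_inv_cancel_left] }
  have h1 : Nat.card (B × F) = Nat.card (X × Z) := Nat.card_congr (e1.trans e2.symm)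
  rw [Nat.card_prod, Nat.card_prod] at h1
  have hX : Nat.card X = Nat.card W - 1 := by
    haveI := Fintype.ofFinite W
    rw [Nat.card_eq_fintype_card, Nat.card_eq_fintype_card, Fintype.card_subtype_compl,
      Fintype.card_subtype_eq]
  have hF : Nat.card F = Nat.card {w : W // y0 • w = w} - 1 := by
    haveI := Fintype.ofFinite W
    let e3 : F ≃ {u : {w : W // y0 • w = w} // u ≠ ⟨1, smul_one y0⟩} :=
      { toFun := fun w => ⟨⟨w.1, w.2.1⟩, fun h => w.2.2 (congrArg Subtype.val h)⟩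
        invFun := fun u => ⟨u.1.1, u.1.2, fun h => u.2 (Subtype.ext h)⟩
        left_inv := fun w => rfl
        right_inv := fun u => rfl }
    rw [Nat.card_congr e3, Nat.card_eq_fintype_card, Nat.card_eq_fintype_card,
      Fintype.card_subtype_compl, Fintype.card_subtype_eq]
  have hBZ : Nat.card Z * Z.relIndex B = Nat.card B := by
    have h2 := Subgroup.card_mul_index (Z.subgroupOf B)
    rw [Nat.card_congr (Subgroup.subgroupOfEquivOfLe hZB).toEquiv] at h2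
    exact h2
  rw [hX, hF, ← hBZ] at h1
  have hZpos : 0 < Nat.card Z := Nat.card_pos
  apply Nat.eq_of_mul_eq_mul_right hZpos
  rw [← h1]
  ring

end Cfsg.Agent.H9.S4781
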