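import Mathlib
import Cfsg.Agent.Cop.Basic

/-!
# S4781, piece (F): structure (owner: helper9)
-/

set_option autoImplicit false

namespace Cfsg.Agent.H9.S4781

open Subgroup Cfsg.Agent

theorem eq_of_mul_pow {p a b i j : ℕ} (hp : p.Prime) (ha : ¬ p ∣ a) (hb : ¬ p ∣ b)
    (h : a * p ^ i = b * p ^ j) : a = b := by
  have h1 : Nat.Coprime a (p ^ j) := (Nat.Coprime.pow_left j ((Nat.Prime.coprime_iff_not_dvd hp).2 ha)).symm
  have h2 : Nat.Coprime b (p ^ i) := (Nat.Coprime.pow_left i ((Nat.Prime.coprime_iff_not_dvd hp).2 hb)).symm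
  apply Nat.dvd_antisymm
  · exact h1.dvd_of_dvd_mul_right (h ▸ Nat.dvd_mul_right a _)
  · exact h2.dvd_of_dvd_mul_right (h ▸ Nat.dvd_mul_right b _)

theorem struct {G : Type*} [Group G] [Finite G] {K L Q : Subgroup G} [L.Normal] [K.Normal]
    [Q.Normal] {p : ℕ} (hp : p.Prime) (hKL : K ≤ L) (hKL' : ∃ x ∈ L, x ∉ K) (hQL : Q ≤ L)
    (hLL : ⁅L, L⁆ ≤ K) (hQp : ¬ p ∣ Nat.card Q) (hLQ : ∃ k, Q.relIndex L = p ^ k)
    (hLK : ∃ k, K.relIndex L = p ^ k)
    (hcent : ∀ x ∈ L, x ∉ K →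
      Nat.card ↥(L ⊓ Subgroup.centralizer {x}) = ⁅L, L⁆.relIndex L) :
    ∃ S Y : Subgroup G, IsPGroup p S ∧ S ≤ L ∧ S ≤ Y ∧ (∀ y ∈ Y, ∀ s ∈ S, y * s * y⁻¹ ∈ S) ∧
      ¬ p ∣ S.relIndex L ∧ (∃ x ∈ S, x ∉ K) ∧ (⁅L, L⁆ ⊓ Q) ⊓ Y = ⊥ ∧ (⁅L, L⁆ ⊓ Q) ⊔ Y = ⊤ ∧
      (∀ a ∈ Q ⊓ Y, ∀ b ∈ L ⊓ Y, a * b = b * a) ∧
      (∀ b ∈ L ⊓ Y, ∃ a ∈ Q ⊓ Y, ∃ s ∈ S, b = a * s) ∧
      (∀ l ∈ L, ∃ h ∈ ⁅L, L⁆ ⊓ Q, ∃ b ∈ L ⊓ Y, l = h * b) ∧
      ((∀ a ∈ S, ∀ b ∈ S, a * b = b * a) → ⁅L, L⁆ ≤ Q) := by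
  classical
  haveI : Fact p.Prime := ⟨hp⟩
  have hQn : Q.Normal := inferInstance
  have hLn : L.Normal := inferInstance
  set H : Subgroup G := ⁅L, L⁆ ⊓ Q with hH
  have hL'n : (⁅L, L⁆ : Subgroup G).Normal := inferInstance
  have hL'L : (⁅L, L⁆ : Subgroup G) ≤ L := hLL.trans hKL
  have hHn : H.Normal := inferInstance
  have hHQ : H ≤ Q := inf_le_right
  obtain ⟨k, hk⟩ := hLQ
  obtain ⟨k', hk'⟩ := hLK
  obtain ⟨P⟩ : Nonempty (Sylow p L) := inferInstance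
  set S : Subgroup G := (P : Subgroup L).map L.subtype with hS
  have hSL : S ≤ L := by
    rw [hS]; rintro _ ⟨y, _, rfl⟩; exact y.2
  have hSp : IsPGroup p S := P.2.map L.subtype
  have hSof : S.subgroupOf L = (P : Subgroup L) := by
    rw [hS]
    ext y
    rw [mem_subgroupOf]
    constructor
    · rintro ⟨z, hz, hzy⟩
      have : z = y := Subtype.ext hzy
      rwa [← this]
    · intro hy
      exact ⟨y, hy, rfl⟩
  have hSi : ¬ p ∣ S.relIndex L := by
    rw [Subgroup.relIndex, hSof]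
    exact P.not_dvd_index
  have hxS : ∃ x ∈ S, x ∉ K := by
    by_contra hcon
    push Not at hcon
    have h1 := Subgroup.relIndex_mul_relIndex S K L hcon hKL
    have h2 : k' ≠ 0 := by
      rintro rfl
      rw [pow_zero, Subgroup.relIndex_eq_one] at hk'
      obtain ⟨x, hx, hxK⟩ := hKL'
      exact hxK (hk' hx)
    apply hSi
    rw [← h1, hk']
    exact Dvd.dvd.mul_left (dvd_pow_self p h2) _
  have hcop : (Nat.card S).Coprime (Nat.card Q) := by
    obtain ⟨m, hm⟩ := IsPGroup.iff_card.1 hSp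
    rw [hm]
    exact Nat.Coprime.pow_left m ((Nat.Prime.coprime_iff_not_dvd hp).2 hQp)
  have hQSL : L ≤ Q ⊔ S := by
    rw [← Subgroup.relIndex_eq_one]
    have h1 : (Q ⊔ S).relIndex L ∣ p ^ k := hk ▸ Subgroup.relIndex_dvd_of_le_left L le_sup_left
    have h2 : (Q ⊔ S).relIndex L ∣ S.relIndex L := Subgroup.relIndex_dvd_of_le_left L le_sup_right
    obtain ⟨i, -, hi⟩ := (Nat.dvd_prime_pow hp).1 h1
    rcases Nat.eq_zero_or_pos i with h3 | h3
    · rw [hi, h3, pow_zero]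
    · exfalso
      apply hSi
      refine dvd_trans ?_ h2
      rw [hi]
      exact dvd_pow_self p h3.ne'
  have hSsol : Group.IsSolvable S := by
    haveI := hSp.isNilpotent
    infer_instance
  have hcomm : ∀ q ∈ Q, ∀ l ∈ L, q * l * q⁻¹ * l⁻¹ ∈ H := by
    intro q hq l hl
    refine ⟨Subgroup.commutator_mem_commutator (hQL hq) hl, ?_⟩
    have h1 := Q.mul_mem hq (hQn.conj_mem q⁻¹ (Q.inv_mem hq) l)
    have e1 : q * (l * q⁻¹ * l⁻¹) = q * l * q⁻¹ * l⁻¹ := by group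
    rwa [e1] at h1
  have hcov : ∀ q ∈ Q, ∃ n ∈ H, q * n ∈ centralizer (S : Set G) := by
    intro q hq
    refine Cop.exists_mul_mem_centralizer (K := Q) ?_ hcop hHQ ?_ (Or.inl hSsol) hq ?_
    · rw [normalizer_eq_top (H := Q)]; exact le_top
    · rw [normalizer_eq_top (H := H)]; exact le_top
    · intro a ha
      have h1 := hcomm q⁻¹ (Q.inv_mem hq) a (hSL ha)
      rwa [inv_inv] at h1
  set Y : Subgroup G := normalizer (S : Set G) with hY
  have hSY : S ≤ Y := le_normalizer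
  have hCY : centralizer (S : Set G) ≤ Y := by
    intro c hc
    rw [hY, mem_normalizer_iff]
    intro s
    constructor
    · intro hs
      have h1 := (mem_centralizer_iff.1 hc) s hs
      rw [← h1, mul_inv_cancel_right]
      exact hs
    · intro hs
      have h1 := (mem_centralizer_iff.1 (inv_mem hc)) _ hs
      have h2 : s = c * s * c⁻¹ := by
        have h3 : c⁻¹ * (c * s * c⁻¹) = s * c⁻¹ := by group
        rw [← h1] at h3
        have h4 : c * s * c⁻¹ * c⁻¹ * c = s * c⁻¹ * c := by rw [h3]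
        simpa [mul_assoc] using h4.symm
      rw [h2]; exact hs
  have hQHY : Q ≤ H ⊔ Y := by
    intro q hq
    obtain ⟨n, hn, hqn⟩ := hcov q hq
    have h1 : q = (q * n) * n⁻¹ := by group
    rw [h1]
    exact mul_mem (mem_sup_right (hCY hqn)) (mem_sup_left (inv_mem hn))
  have htop : H ⊔ Y = ⊤ := by
    rw [eq_top_iff]
    have h1 : normalizer ((P : Subgroup L).map L.subtype : Set G) ⊔ L = ⊤ :=
      Sylow.normalizer_sup_eq_top P
    rw [← h1]
    refine sup_le le_sup_right (hQSL.trans (sup_le hQHY (hSY.trans le_sup_right)))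
  -- the counting argument
  obtain ⟨x, hxS', hxK⟩ := hxS
  have hD : Nat.card ↥(Q ⊓ centralizer {x}) = H.relIndex Q := by
    have h1 : Nat.card ↥(L ⊓ centralizer {x}) =
        Nat.card ↥(Q ⊓ centralizer {x}) * Q.relIndex (L ⊓ centralizer {x}) := by
      have h2 := Subgroup.card_mul_index ((Q ⊓ centralizer {x}).subgroupOf (L ⊓ centralizer {x}))
      rw [Nat.card_congr (Subgroup.subgroupOfEquivOfLe
        (inf_le_inf_right (centralizer {x}) hQL)).toEquiv] at h2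
      rw [← h2]
      congr 1
      change (Q ⊓ centralizer {x}).relIndex (L ⊓ centralizer {x}) = _
      rw [← Subgroup.inf_relIndex_right, ← Subgroup.inf_relIndex_right Q]
      congr 1
      ext y
      simp only [mem_inf]
      tauto
    have h2 : Q.relIndex (L ⊓ centralizer {x}) ∣ p ^ k := by
      rw [← hk, ← Subgroup.relIndex_sup_right (L ⊓ centralizer {x}) Q]
      exact Dvd.intro _ (Subgroup.relIndex_mul_relIndex Q (L ⊓ centralizer {x} ⊔ Q) L le_sup_right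
        (sup_le inf_le_left hQL))
    obtain ⟨i, -, hi⟩ := (Nat.dvd_prime_pow hp).1 h2
    have h3 : (⁅L, L⁆ : Subgroup G).relIndex L = H.relIndex Q * (⁅L, L⁆ ⊔ Q).relIndex L := by
      rw [← Subgroup.relIndex_mul_relIndex ⁅L, L⁆ (⁅L, L⁆ ⊔ Q) L le_sup_left (sup_le hL'L hQL),
        Subgroup.relIndex_sup_left, hH, Subgroup.inf_relIndex_right]
    have h4 : (⁅L, L⁆ ⊔ Q).relIndex L ∣ p ^ k := hk ▸ Subgroup.relIndex_dvd_of_le_left L le_sup_right
    obtain ⟨j, -, hj⟩ := (Nat.dvd_prime_pow hp).1 h4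
    have h5 := hcent x (hSL hxS') hxK
    rw [h1, h3, hi, hj] at h5
    refine eq_of_mul_pow hp ?_ ?_ h5
    · intro h6
      exact hQp (h6.trans (Subgroup.card_dvd_of_le inf_le_left))
    · intro h6
      exact hQp (h6.trans (Subgroup.index_dvd_card _))
  have hCx : centralizer (S : Set G) ≤ centralizer {x} :=
    centralizer_le (Set.singleton_subset_iff.2 hxS')
  have hHx : H ⊓ centralizer {x} = ⊥ := by
    have h1 : Q = (Q ⊓ centralizer {x}) ⊔ H := by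
      apply le_antisymm
      · intro q hq
        obtain ⟨n, hn, hqn⟩ := hcov q hq
        have h1 : q = (q * n) * n⁻¹ := by group
        rw [h1]
        exact mul_mem (mem_sup_left ⟨Q.mul_mem hq (hHQ hn), hCx hqn⟩) (mem_sup_right (inv_mem hn))
      · exact sup_le inf_le_left hHQ
    have h2 : H.relIndex Q = H.relIndex (Q ⊓ centralizer {x}) := by
      conv_lhs => rw [h1]
      exact Subgroup.relIndex_sup_right _ _
    have h3 := Subgroup.card_mul_index (H.subgroupOf (Q ⊓ centralizer {x}))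
    change _ * H.relIndex (Q ⊓ centralizer {x}) = _ at h3
    rw [← h2, ← hD] at h3
    have h4 : 0 < Nat.card ↥(Q ⊓ centralizer {x}) := Nat.card_pos
    have h5 : Nat.card (H.subgroupOf (Q ⊓ centralizer {x})) = 1 :=
      Nat.eq_of_mul_eq_mul_right h4 (by rw [h3, one_mul])
    rw [Subgroup.card_eq_one, Subgroup.subgroupOf_eq_bot, disjoint_iff] at h5
    rw [eq_bot_iff, ← h5]
    exact le_inf inf_le_left (le_inf (inf_le_left.trans hHQ) inf_le_right)
  have hHY : H ⊓ Y = ⊥ := by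
    rw [eq_bot_iff, ← hHx]
    refine le_inf inf_le_left ?_
    rintro y ⟨hyH, hyY⟩
    rw [mem_centralizer_singleton_iff]
    have h1 : y * x * y⁻¹ * x⁻¹ ∈ S :=
      S.mul_mem ((mem_normalizer_iff.1 hyY x).1 hxS') (S.inv_mem hxS')
    have h2 : y * x * y⁻¹ * x⁻¹ ∈ Q := (hcomm y (hHQ hyH) x (hSL hxS')).2
    have h3 := Cop.eq_one_of_mem_of_mem hcop h1 h2
    rw [mul_inv_eq_one, mul_inv_eq_iff_eq_mul] at h3
    exact h3
  refine ⟨S, Y, hSp, hSL, hSY, fun y hy s hs => (mem_normalizer_iff.1 hy s).1 hs, hSi,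
    ⟨x, hxS', hxK⟩, hHY, htop, ?_, ?_, ?_, ?_⟩
  · rintro a ⟨haQ, haY⟩ b ⟨hbL, hbY⟩
    have h1 : a * b * a⁻¹ * b⁻¹ ∈ H ⊓ Y := ⟨hcomm a haQ b hbL,
      Y.mul_mem (Y.mul_mem (Y.mul_mem haY hbY) (Y.inv_mem haY)) (Y.inv_mem hbY)⟩
    rw [hHY, mem_bot, mul_inv_eq_one, mul_inv_eq_iff_eq_mul] at h1
    exact h1
  · rintro b ⟨hbL, hbY⟩
    obtain ⟨q, hq, s, hs, rfl⟩ := mem_sup_of_normal_left.1 (hQSL hbL)
    refine ⟨q, ⟨hq, ?_⟩, s, hs, rfl⟩
    have h1 := Y.mul_mem hbY (Y.inv_mem (hSY hs))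
    rwa [mul_inv_cancel_right] at h1
  · intro l hl
    have h1 : l ∈ H ⊔ Y := by rw [htop]; exact mem_top l
    obtain ⟨h, hh, y, hy, rfl⟩ := mem_sup_of_normal_left.1 h1
    refine ⟨h, hh, y, ⟨?_, hy⟩, rfl⟩
    have h2 := L.mul_mem (L.inv_mem (hQL (hHQ hh))) hl
    rwa [inv_mul_cancel_left] at h2
  · intro hab
    rw [Subgroup.commutator_le]
    intro a ha b hb
    obtain ⟨q, hq, s, hs, rfl⟩ := mem_sup_of_normal_left.1 (hQSL ha)
    obtain ⟨q', hq', s', hs', rfl⟩ := mem_sup_of_normal_left.1 (hQSL hb)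
    have hker : ∀ z : G, QuotientGroup.mk' Q z = 1 ↔ z ∈ Q := fun z => QuotientGroup.eq_one_iff z
    change (q * s) * (q' * s') * (q * s)⁻¹ * (q' * s')⁻¹ ∈ Q
    rw [← hker]
    simp only [map_mul, map_inv, (hker q).2 hq, (hker q').2 hq', one_mul]
    rw [← map_inv, ← map_inv, ← map_mul, ← map_mul, ← map_mul, hab s hs s' hs']
    simp

end Cfsg.Agent.H9.S4781
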